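import Mathlib
import Cfsg.Prelude.Def_Blocks
import Cfsg.Prelude.Def_KGroupFacts
import Cfsg.Agent.SnCh.Frob
import Cfsg.Agent.SnCh.Local

/-!
# Definitions for S4578: Schur's Q-functions, the Clifford model of the double cover of `S_n`
-/

set_option autoImplicit false

namespace Cfsg.Agent.SpC

open Finset Equiv

/-! ## The ring of Q-functions -/

/-- Polynomials in the power sums; `X r` is the `r`-th power sum, only odd `r` matter. -/
abbrev Gam : Type := MvPolynomial ℕ ℚ

/-- Schur's `q n`, by the recursion `n q_n = 2 ∑_{r odd} p_r q_{n-r}`. -/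
noncomputable def q : ℕ → Gam
  | 0 => 1
  | n + 1 => (2 / ((n : ℚ) + 1)) •
      ∑ k : Fin (n + 1), if Odd (n + 1 - k) then MvPolynomial.X (n + 1 - k) * q k else 0
decreasing_by exact k.2

theorem q_zero : q 0 = 1 := by rw [q]

theorem q_succ (n : ℕ) : q (n + 1) = (2 / ((n : ℚ) + 1)) •
    ∑ k ∈ range (n + 1), if Odd (n + 1 - k) then MvPolynomial.X (n + 1 - k) * q k else 0 := by
  rw [q, ← Fin.sum_univ_eq_sum_range
    (fun k => if Odd (n + 1 - k) then MvPolynomial.X (n + 1 - k) * q k else 0)]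

/-- `q` with integer index, zero for negative indices. -/
noncomputable def qz (m : ℤ) : Gam := if 0 ≤ m then q m.toNat else 0

theorem qz_natCast (n : ℕ) : qz n = q n := by simp [qz]

theorem qz_neg {m : ℤ} (h : m < 0) : qz m = 0 := by simp [qz, not_le.2 h]

theorem qz_zero : qz 0 = 1 := by simp [qz, q_zero]

/-- The adjoint `(r / 2) ∂ / ∂ p_r` of multiplication by `p_r`. -/
noncomputable def Dr (r : ℕ) : Gam →ₗ[ℚ] Gam :=
  ((r : ℚ) / 2) • (MvPolynomial.pderiv r : Derivation ℚ Gam Gam).toLinearMap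

theorem Dr_apply (r : ℕ) (f : Gam) : Dr r f = ((r : ℚ) / 2) • MvPolynomial.pderiv r f := rfl

theorem Dr_mul (r : ℕ) (f g : Gam) : Dr r (f * g) = Dr r f * g + f * Dr r g := by
  simp only [Dr_apply, Derivation.leibniz, smul_eq_mul, smul_add, smul_mul_assoc, mul_smul_comm]
  rw [add_comm, mul_comm g]

theorem Dr_one (r : ℕ) : Dr r 1 = 0 := by simp [Dr_apply]

/-- The value `⟨f, p_ρ⟩` of `f` on the class of cycle type `ρ`. -/
noncomputable def ev (ρ : Multiset ℕ) : Gam →ₗ[ℚ] ℚ :=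
  ((SnCh.zee ρ : ℚ) / 2 ^ Multiset.card ρ) • MvPolynomial.lcoeff ℚ (Multiset.toFinsupp ρ)

theorem ev_apply (ρ : Multiset ℕ) (f : Gam) : ev ρ f =
    (SnCh.zee ρ : ℚ) / 2 ^ Multiset.card ρ * MvPolynomial.coeff (Multiset.toFinsupp ρ) f := rfl

theorem ev_zero (f : Gam) : ev 0 f = MvPolynomial.constantCoeff f := by
  simp [ev_apply, SnCh.zee, MvPolynomial.constantCoeff_eq]

theorem ev_cons (r : ℕ) (ρ : Multiset ℕ) (f : Gam) : ev (r ::ₘ ρ) f = ev ρ (Dr r f) := by
  have h : Multiset.toFinsupp (r ::ₘ ρ) = Multiset.toFinsupp ρ + Finsupp.single r 1 := by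
    rw [← Multiset.singleton_add, map_add, Multiset.toFinsupp_singleton, add_comm]
  rw [ev_apply, ev_apply, Dr_apply, MvPolynomial.coeff_smul, MvPolynomial.coeff_pderiv, h,
    SnCh.zee_cons, Multiset.card_cons, Multiset.toFinsupp_apply]
  push_cast
  rw [smul_eq_mul, pow_succ]
  ring

/-- The shift `p_r ↦ p_r - w ^ r` (`r` odd); its `k`-th coefficient is `(-1) ^ k q_k ^ ⊥`. -/
noncomputable def Sh : Gam →ₐ[ℚ] Polynomial Gam :=
  MvPolynomial.aeval fun r : ℕ =>
    Polynomial.C (MvPolynomial.X r) - if Odd r then Polynomial.X ^ r else 0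

theorem Sh_X (r : ℕ) : Sh (MvPolynomial.X r) =
    Polynomial.C (MvPolynomial.X r) - if Odd r then Polynomial.X ^ r else 0 :=
  MvPolynomial.aeval_X _ _

/-- The vertex operator `B m f = ∑ k, q_{m+k} * coeff k (Sh f)`. -/
noncomputable def Bv (m : ℤ) : Gam →ₗ[ℚ] Gam :=
  Polynomial.lsum (fun k : ℕ => LinearMap.mulLeft ℚ (qz (m + k))) ∘ₗ Sh.toLinearMap

theorem Bv_eq_sum (m : ℤ) (f : Gam) {N : ℕ} (hN : (Sh f).natDegree < N) :
    Bv m f = ∑ k ∈ range N, qz (m + k) * (Sh f).coeff k :=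
  Polynomial.sum_over_range' (Sh f) (f := fun k a => qz (m + k) * a) (fun _ => mul_zero _) N hN

theorem Bv_one (m : ℤ) : Bv m 1 = qz m := by
  rw [Bv_eq_sum m 1 (N := 1) (by simp)]
  simp

/-- Schur's `Q`-function of the strict partition with set of parts `S`. -/
noncomputable def QS (S : Finset ℕ) : Gam :=
  (S.sort (· ≥ ·)).foldr (fun (a : ℕ) (f : Gam) => Bv (a : ℤ) f) 1

theorem QS_empty : QS ∅ = 1 := by simp [QS]

theorem QS_insert_max {a : ℕ} {T : Finset ℕ} (h : ∀ b ∈ T, b < a) :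
    QS (insert a T) = Bv (a : ℤ) (QS T) := by
  rw [QS, Finset.sort_insert (r := (· ≥ ·)) (fun b hb => (h b hb).le)
    (fun ha => lt_irrefl _ (h a ha)), List.foldr_cons, QS]

/-- The bilinear form with `⟨p_ρ, p_σ⟩ = δ z_ρ / 2 ^ l(ρ)`. -/
noncomputable def ip (f g : Gam) : ℚ :=
  ∑ d ∈ f.support, MvPolynomial.coeff d f * ev (Finsupp.toMultiset d) g

/-- `f` only involves monomials `p_ρ` with `ρ` a partition of `n` into odd parts. -/
def Hom (n : ℕ) (f : Gam) : Prop :=
  ∀ ρ : Multiset ℕ, MvPolynomial.coeff (Multiset.toFinsupp ρ) f ≠ 0 →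
    (∀ r ∈ ρ, Odd r) ∧ ρ.sum = n

/-- Integer combinations of products of `l` factors `q_m` (`m > 0`) or `2`, of degree `n`. -/
noncomputable def Lam (l n : ℕ) : Submodule ℤ Gam :=
  Submodule.span ℤ {f | ∃ μ : Multiset ℕ, 0 ∉ μ ∧ Multiset.card μ ≤ l ∧ μ.sum = n ∧
    f = 2 ^ (l - Multiset.card μ) * (μ.map q).prod}

/-- Strict partitions of `n`, as sets of parts. -/
def strict (n : ℕ) : Finset (Finset ℕ) := {S ∈ (Icc 1 n).powerset | ∑ a ∈ S, a = n}

theorem mem_strict {n : ℕ} {S : Finset ℕ} : S ∈ strict n ↔ 0 ∉ S ∧ ∑ a ∈ S, a = n := by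
  simp only [strict, mem_filter, mem_powerset]
  refine ⟨fun h => ⟨fun h0 => by simpa using h.1 h0, h.2⟩, fun h => ⟨fun a ha => ?_, h.2⟩⟩
  refine mem_Icc.2 ⟨Nat.one_le_iff_ne_zero.2 fun e => h.1 (e ▸ ha), ?_⟩
  exact h.2 ▸ single_le_sum (f := fun a => a) (fun _ _ => Nat.zero_le _) ha

/-- Removal of a `p`-bar. -/
def Move (p : ℕ) (S T : Finset ℕ) : Prop :=
  (∃ a ∈ S, p < a ∧ a - p ∉ S ∧ T = insert (a - p) (S.erase a)) ∨
    (p ∈ S ∧ T = S.erase p) ∨
      ∃ a ∈ S, ∃ b ∈ S, a ≠ b ∧ a + b = p ∧ T = (S.erase a).erase b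

/-- Lower the part `a` by one. -/
def down (S : Finset ℕ) (a : ℕ) : Finset ℕ :=
  if a = 1 then S.erase 1 else insert (a - 1) (S.erase a)

/-- The product of the bar lengths. -/
def Hn (S : Finset ℕ) : ℕ :=
  ∏ a ∈ S, ((∏ k ∈ Icc 1 a with a - k ∉ S, k) * ∏ b ∈ S with b < a, (a + b))

/-- The number of bar lengths divisible by `p`. -/
def Nb (p : ℕ) (S : Finset ℕ) : ℕ :=
  ∑ a ∈ S, (#{k ∈ Icc 1 a | a - k ∉ S ∧ p ∣ k} + #{b ∈ S | b < a ∧ p ∣ a + b})

/-! ## The double cover of the symmetric group -/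

section Cover

variable {α : Type*} [Fintype α] [DecidableEq α] {G : Type*} [Group G]

/-- `π : G → Sym α` is a double cover in which lifts of disjoint transpositions anticommute. -/
structure Spin (π : G →* Perm α) (z : G) : Prop where
  surj : Function.Surjective π
  ker : ∀ g, π g = 1 ↔ g = 1 ∨ g = z
  z_ne : z ≠ 1
  anti : ∀ (a b : G) (i j k l : α), i ≠ j → k ≠ l → i ≠ k → i ≠ l → j ≠ k → j ≠ l →
    π a = swap i j → π b = swap k l → a * b = z * (b * a)

/-- The preimage of the alternating group. -/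
abbrev Alt (π : G →* Perm α) : Subgroup G := (alternatingGroup α).comap π

/-- All cycles (fixed points included) have odd length. -/
def OddType (σ : Perm α) : Prop := ∀ r ∈ σ.partition.parts, Odd r

instance (σ : Perm α) : Decidable (OddType σ) := by unfold OddType; infer_instance

/-- The sign as a complex number. -/
def sgn (σ : Perm α) : ℂ := ((Perm.sign σ : ℤ) : ℂ)

/-- Pairwise anticommuting involutions. -/
structure Cl {ι κ : Type*} [Fintype κ] [DecidableEq κ] (γ : ι → Matrix κ κ ℂ) : Prop where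
  sq : ∀ i, γ i * γ i = 1
  anti : ∀ i j, i ≠ j → γ i * γ j = -(γ j * γ i)

/-- The matrix `(γ_i - γ_j) / √2` lifting the transposition `(i j)`. -/
noncomputable def tm {κ : Type*} (γ : α ⊕ Option α → Matrix κ κ ℂ) (i j : α) : Matrix κ κ ℂ :=
  (((Real.sqrt 2 : ℝ) : ℂ))⁻¹ • (γ (.inl i) - γ (.inl j))

/-- The Clifford model: `M` is the left regular representation on the Clifford algebra. -/
structure Mdl {κ : Type} [Fintype κ] [DecidableEq κ] (π : G →* Perm α) (z : G)
    (γ : α ⊕ Option α → Matrix κ κ ℂ) (M : G →* Matrix κ κ ℂ) : Prop where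
  spin : Spin π z
  cl : Cl γ
  card : Fintype.card κ = 2 ^ Fintype.card α
  map_z : M z = -1
  inl : ∀ g i, M g * γ (.inl i) = sgn (π g) • (γ (.inl (π g i)) * M g)
  inr : ∀ g o, M g * γ (.inr o) = sgn (π g) • (γ (.inr o) * M g)
  swap : ∀ g i j, i ≠ j → π g = swap i j → M g = tm γ i j ∨ M g = -tm γ i j

/-- The number of ordered set partitions of shape `μ` fixed by `σ`. -/
noncomputable def fx {ι : Type*} [DecidableEq ι] (μ : ι → ℤ) (σ : Perm α) : ℕ :=
  Nat.card (MulAction.fixedBy (SnCh.Fib α μ) σ)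

/-- What the character theory needs of the trace `T` of the Clifford model. -/
structure Tr (π : G →* Perm α) (z : G) (T : G → ℂ) : Prop where
  spin : Spin π z
  cls : IsClassFunction G T
  neg : ∀ g, T (z * g) = -T g
  one : T 1 = 2 ^ Fintype.card α
  sq : ∀ g, T g ^ 2 = if OddType (π g) then
    2 ^ (Fintype.card α + Multiset.card (π g).partition.parts) else 0
  intG : ∀ (l : ℕ) (μ : Fin l → ℤ), (∀ i, 0 < μ i) →
    IsCharacter G fun g => fx μ (π g) * T g / 2 ^ ((Fintype.card α + l) / 2)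
  intA : ∀ (l : ℕ) (μ : Fin l → ℤ), (∀ i, 0 < μ i) →
    IsCharacter (Alt π) fun g => fx μ (π g) * T g / 2 ^ ((Fintype.card α + l + 1) / 2)

/-- The spin class function labelled by the strict partition `S`. -/
noncomputable def xi (π : G →* Perm α) (T : G → ℂ) (S : Finset ℕ) (g : G) : ℂ :=
  T g * (ev (π g).partition.parts (QS S) : ℚ) / 2 ^ ((Fintype.card α + #S + 1) / 2)

/-- The weight of `xi S` in the completeness relation. -/
def kap (n : ℕ) (S : Finset ℕ) : ℂ := if Even (n + #S) then 1 else 2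

/-- The map to `Perm α` attached to a map to the alternating group. -/
abbrev tau {H : Type*} [Group H] (σ : H →* alternatingGroup α) : H →* Perm α :=
  (alternatingGroup α).subtype.comp σ

end Cover

/-! ## Blocks -/

/-- The conclusion of S4578. -/
def Concl {H : Type*} [Group H] (p : ℕ) (B : Set (IrrCharacter H)) (D : Subgroup H)
    (χ : IrrCharacter H) : Prop :=
  blockHeight p B (χ : H → ℂ) ≤ ((Subgroup.center D).index).factorization p ∧
    (blockHeight p B (χ : H → ℂ) = ((Subgroup.center D).index).factorization p ↔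
      IsMulCommutative D)

/-- `R` is maximal among the `p`-groups of even permutations moving only points of `F`. -/
structure MaxOn {α : Type*} [Fintype α] [DecidableEq α] (p : ℕ) (F : Set α)
    (R : Subgroup (Perm α)) : Prop where
  pg : IsPGroup p R
  le : R ≤ alternatingGroup α
  fix : ∀ g ∈ R, ∀ a ∉ F, g a = a
  max : ∀ P : Subgroup (Perm α), IsPGroup p P → P ≤ alternatingGroup α →
    (∀ g ∈ P, ∀ a ∉ F, g a = a) → R ≤ P → P ≤ R

end Cfsg.Agent.SpC
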