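import Mathlib
import Cfsg.Agent.SpC.Defs
import Cfsg.Agent.Blk.BF
import Cfsg.Agent.Blk.DefectCard
import Cfsg.Agent.Blk.Contrib

set_option autoImplicit false

namespace Cfsg.Agent.SpC

open Finset Equiv

variable {H : Type*} [Group H] [Finite H] {p : ℕ} [Fact p.Prime] {M : Ideal AlgInt}
  {B : Set (IrrCharacter H)} {D : Subgroup H} {χ : IrrCharacter H}

theorem Gen.data (hM : IsPModular p M) (hB : IsPBlock M B) (hD : IsDefectGroup p M B D) :
    ∃ i c, Nat.card (Subgroup.center D) = p ^ c ∧ i + c = blockDefect p B ∧ (i = 0 ↔ IsMulCommutative D) ∧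
      ∀ χ : IrrCharacter H, blockHeight p B (χ : H → ℂ) ≤ i →
        (blockHeight p B (χ : H → ℂ) = i ↔ IsMulCommutative D) → Concl p B D χ := by
  have hp : p.Prime := Fact.out
  have h := (Subgroup.center D).card_mul_index.trans (hD.card_eq_pow_blockDefect hM hB)
  obtain ⟨c, -, hc⟩ := (Nat.dvd_prime_pow hp).1 (Dvd.intro _ h)
  obtain ⟨i, -, hi⟩ := (Nat.dvd_prime_pow hp).1 (Dvd.intro_left _ h)
  rw [hc, hi, ← pow_add] at h
  refine ⟨i, c, hc, (add_comm _ _).trans (Nat.pow_right_injective hp.two_le h), ?_, fun χ h1 h2 => ?_⟩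
  · rw [← Subgroup.center_eq_top_iff, ← Subgroup.index_eq_one, hi, Nat.pow_eq_one, or_iff_right hp.ne_one]
  · rw [Concl, hi, hp.factorization_pow, Finsupp.single_eq_same]
    exact ⟨h1, h2⟩

theorem concl_of_small (hM : IsPModular p M) (hB : IsPBlock M B) (hD : IsDefectGroup p M B D)
    (hχ : χ ∈ B) (h : Nat.card D ≤ p ^ 2) : Concl p B D χ := by
  have hp : p.Prime := Fact.out
  have := hM.2.1
  have hc := hD.card_eq_pow_blockDefect hM hB
  have hd : blockDefect p B ≤ 2 := (Nat.pow_le_pow_iff_right hp.one_lt).1 (hc ▸ h)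
  have ha : IsMulCommutative D := by
    rcases hd.lt_or_eq with h2 | h2
    · have := isCyclic_of_card_dvd_prime (α := D) (p := p)
        (hc ▸ (pow_dvd_pow p (Nat.le_of_lt_succ h2)).trans (pow_one p).dvd)
      infer_instance
    · exact IsPGroup.isMulCommutative_of_card_eq_prime_sq (h2 ▸ hc)
  obtain ⟨i, c, -, -, h2, h3⟩ := Gen.data hM hB hD
  have h0 : blockHeight p B (χ : H → ℂ) = 0 := by
    by_contra h0
    have := (Blk.height_bounds_of_pos hM hB hχ h0).1
    omega
  exact h3 χ (h0 ▸ i.zero_le) (iff_of_true (h0.trans (h2.2 ha).symm) ha)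

theorem concl_of_center (hM : IsPModular p M) (hB : IsPBlock M B) (hD : IsDefectGroup p M B D)
    (hχ : χ ∈ B) (hn : ¬ IsMulCommutative D) (hc : Nat.card (Subgroup.center D) ≤ p) :
    Concl p B D χ := by
  have hp : p.Prime := Fact.out
  have := hM.2.1
  obtain ⟨i, c, h0, h1, h2, h3⟩ := Gen.data hM hB hD
  have hc1 : c ≤ 1 := (Nat.pow_le_pow_iff_right hp.one_lt).1 (h0 ▸ hc.trans (pow_one p).ge)
  have hi := mt h2.1 hn
  have : blockHeight p B (χ : H → ℂ) < i := by
    by_cases h0 : blockHeight p B (χ : H → ℂ) = 0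
    · omega
    · have := (Blk.height_bounds_of_pos hM hB hχ h0).1
      omega
  exact h3 χ this.le (iff_of_false this.ne hn)

theorem concl_of_comm (hM : IsPModular p M) (hB : IsPBlock M B) (hD : IsDefectGroup p M B D)
    (hχ : χ ∈ B) (ha : IsMulCommutative D) {w : ℕ} (hw : Nat.card D = p ^ w)
    (h : (charDegree (χ : H → ℂ)).factorization p + w ≤ (Nat.card H).factorization p) :
    Concl p B D χ := by
  have hp : p.Prime := Fact.out
  obtain ⟨i, c, -, -, h2, h3⟩ := Gen.data hM hB hD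
  have e := Nat.pow_right_injective hp.two_le (hw.symm.trans (hD.card_eq_pow_blockDefect hM hB))
  have e1 := Blk.Om.minVal_add_blockDefect (p := p) ⟨χ, hχ⟩
  have e2 := Blk.Om.minVal_add_blockHeight (p := p) hχ
  have h0 : blockHeight p B (χ : H → ℂ) = 0 := by omega
  exact h3 χ (h0 ▸ i.zero_le) (iff_of_true (h0.trans (h2.2 ha).symm) ha)

theorem concl_of_lt (hM : IsPModular p M) (hB : IsPBlock M B) (hD : IsDefectGroup p M B D)
    (hχ : χ ∈ B) (hn : ¬ IsMulCommutative D) {w : ℕ}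
    (hc : Nat.card (Subgroup.center D) < p ^ w)
    (h : (charDegree (χ : H → ℂ)).factorization p + w ≤ (Nat.card H).factorization p) :
    Concl p B D χ := by
  have hp : p.Prime := Fact.out
  obtain ⟨i, c, h0, h1, -, h3⟩ := Gen.data hM hB hD
  have e := (Nat.pow_lt_pow_iff_right hp.one_lt).1 (h0 ▸ hc)
  have e1 := Blk.Om.minVal_add_blockDefect (p := p) ⟨χ, hχ⟩
  have e2 := Blk.Om.minVal_add_blockHeight (p := p) hχ
  have : blockHeight p B (χ : H → ℂ) < i := by omega
  exact h3 χ this.le (iff_of_false this.ne hn)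

omit [Finite H] [Fact p.Prime] in
theorem map_transfer {Q : Type*} [Group Q] (τ : H →* Q) (D : Subgroup H)
    (h : ∀ d ∈ D, τ d = 1 → d = 1) : Nat.card (D.map τ) = Nat.card D ∧
      Nat.card (Subgroup.center (D.map τ)) = Nat.card (Subgroup.center D) ∧
      (IsMulCommutative (D.map τ) ↔ IsMulCommutative D) := by
  let e : D ≃* D.map τ := MulEquiv.ofBijective (τ.subgroupMap D)
    ⟨(injective_iff_map_eq_one _).2 fun d hd => Subtype.ext (h d d.2 (congrArg Subtype.val hd)),
      τ.subgroupMap_surjective D⟩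
  refine ⟨Nat.card_congr e.symm.toEquiv, Nat.card_congr (Subgroup.centerCongr e.symm).toEquiv,
    fun k => ⟨⟨fun a b => e.injective ?_⟩⟩, fun k => ⟨⟨fun a b => e.symm.injective ?_⟩⟩⟩
  all_goals rw [map_mul, map_mul, k.1.1]

end Cfsg.Agent.SpC
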