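import Mathlib
import Cfsg.Agent.SpC.Defs

set_option autoImplicit false

namespace Cfsg.Agent.SpC

open Finset Equiv

variable {α : Type*} [Fintype α] [DecidableEq α] {G : Type*} [Group G] {π : G →* Perm α} {z : G}

theorem Spin.map_z (h : Spin π z) : π z = 1 := (h.ker z).2 (Or.inr rfl)

theorem Spin.z_mul_z (h : Spin π z) : z * z = 1 :=
  ((h.ker (z * z)).1 (by rw [map_mul, h.map_z, one_mul])).resolve_right fun e =>
    h.z_ne (mul_eq_left.1 e)

theorem Spin.z_comm (h : Spin π z) (g : G) : z * g = g * z := by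
  rcases (h.ker (g * z * g⁻¹)).1 (by rw [map_mul, map_mul, h.map_z, mul_one, map_inv, mul_inv_cancel]) with e | e
  · exact absurd (conj_eq_one_iff.1 e) h.z_ne
  · exact (mul_inv_eq_iff_eq_mul.1 e).symm

theorem Spin.eq_or (h : Spin π z) {a b : G} (e : π a = π b) : b = a ∨ b = z * a :=
  ((h.ker (b * a⁻¹)).1 (by rw [map_mul, map_inv, e, mul_inv_cancel])).imp mul_inv_eq_one.1
    mul_inv_eq_iff_eq_mul.1

theorem Spin.card (h : Spin π z) : Nat.card G = 2 * (Fintype.card α).factorial := by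
  have hk : Nat.card π.ker = 2 := by
    have e : (π.ker : Set G) = {1, z} := Set.ext fun g => h.ker g
    rw [← SetLike.coe_sort_coe, e, Nat.card_coe_set_eq, Set.ncard_pair h.z_ne.symm]
  rw [← π.ker.card_mul_index, hk, Subgroup.index_ker, MonoidHom.range_eq_top.2 h.surj, Subgroup.card_top,
    Nat.card_perm, Nat.card_eq_fintype_card]

theorem Spin.index_alt (h : Spin π z) [Nontrivial α] : (Alt π).index = 2 := by
  rw [Subgroup.index_comap_of_surjective _ h.surj, alternatingGroup.index_eq_two]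

theorem CC.key (h : Spin π z) (S : α → Prop) {a w : G} (hw : w = 1 ∨ w = z)
    (hs : ∀ t x y, x ≠ y → S x → S y → π t = swap x y → t * a = w * (a * t)) (g : G)
    (hg : ∀ x, π g x ≠ x → S x) : g * a = (if Perm.sign (π g) = 1 then 1 else w) * (a * g) := by
  have w2 : w * w = 1 := by
    rcases hw with rfl | rfl
    exacts [one_mul _, h.z_mul_z]
  have wc : ∀ g, g * w = w * g := fun g => by
    rcases hw with rfl | rfl
    exacts [(mul_one _).trans (one_mul _).symm, (h.z_comm g).symm]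
  induction hn : #(π g).support using Nat.strong_induction_on generalizing g with
  | _ n ih =>
  by_cases h1 : π g = 1
  · rw [h1, map_one, if_pos rfl, one_mul]
    rcases (h.ker g).1 h1 with rfl | rfl
    exacts [(one_mul _).trans (mul_one _).symm, h.z_comm a]
  obtain ⟨x, hx⟩ : ∃ x, π g x ≠ x := by
    by_contra hc
    exact h1 (Equiv.ext fun x => by_contra fun e => hc ⟨x, e⟩)
  obtain ⟨t, ht⟩ := h.surj (swap x (π g x))
  have e : π (t⁻¹ * g) = swap x (π g x) * π g := by rw [map_mul, map_inv, ht, swap_inv]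
  have i := ih _ (hn ▸ Perm.card_support_swap_mul hx) (t⁻¹ * g) (fun y hy => hg y (Perm.mem_support.1
    (Perm.mem_support_swap_mul_imp_mem_support_ne (Perm.mem_support.2 (e ▸ hy))).1)) (by rw [e])
  have j := hs t x _ hx.symm (hg x hx) (hg _ fun e => hx ((π g).injective e)) ht
  rw [e, map_mul, Perm.sign_swap hx.symm] at i
  have k : ∀ v, t * (v * (a * (t⁻¹ * g))) = t * v * t⁻¹ * w * (a * g) := fun v => by
    calc _ = t * v * t⁻¹ * (t * a) * (t⁻¹ * g) := by group
      _ = _ := by rw [j]; group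
  rw [show g * a = t * (t⁻¹ * g * a) by group, i, k]
  rcases Int.units_eq_one_or (Perm.sign (π g)) with s | s <;> rw [s]
  · rw [if_neg (by decide), if_pos rfl, wc t, mul_inv_cancel_right, w2]
  · rw [if_pos (by decide), if_neg (by decide), mul_one, mul_inv_cancel, one_mul]

theorem CC.main (h : Spin π z) {a b : G} (hd : (π a).Disjoint (π b)) :
    a * b = (if Perm.sign (π a) = 1 then 1 else if Perm.sign (π b) = 1 then 1 else z) * (b * a) := by
  refine CC.key h (fun x => π b x = x) (by split_ifs <;> simp) (fun t x y hxy hx hy ht => ?_) a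
    fun x hx => (hd x).resolve_left hx
  rw [CC.key h (fun u => u ≠ x ∧ u ≠ y) (a := t) (Or.inr rfl) (fun s u v huv hu hv hs =>
    h.anti s t u v x y huv hxy hu.1 hu.2 hv.1 hv.2 hs ht) b
    fun u hu => ⟨fun e => hu (e ▸ hx), fun e => hu (e ▸ hy)⟩]
  split_ifs
  · rw [one_mul, one_mul]
  · rw [← mul_assoc, h.z_mul_z, one_mul]

theorem Spin.comm_of_disjoint (h : Spin π z) {a b : G} (hd : (π a).Disjoint (π b))
    (he : Perm.sign (π a) = 1 ∨ Perm.sign (π b) = 1) : a * b = b * a := by
  rw [CC.main h hd]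
  rcases he with e | e <;> simp [e]

theorem Spin.anti_of_disjoint (h : Spin π z) {a b : G} (hd : (π a).Disjoint (π b))
    (ha : Perm.sign (π a) = -1) (hb : Perm.sign (π b) = -1) : a * b = z * (b * a) := by
  rw [CC.main h hd, ha, hb, if_neg (by decide), if_neg (by decide)]

theorem OddType.sign {σ : Perm α} (h : OddType σ) : Perm.sign σ = 1 := by
  rw [Perm.sign_of_cycleType']
  refine Multiset.prod_eq_one fun u hu => ?_
  obtain ⟨n, hn, rfl⟩ := Multiset.mem_map.1 hu
  rw [(h n (Multiset.mem_add.2 (Or.inl hn))).neg_one_pow, neg_neg]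

theorem Spin.conj_neg (h : Spin π z) {g : G} (hg : Perm.sign (π g) = 1) (ho : ¬ OddType (π g)) :
    ∃ c : G, c * g * c⁻¹ = z * g := by
  obtain ⟨r, hr, he⟩ : ∃ r ∈ (π g).cycleType, Even r := by
    by_contra hc
    refine ho fun r hr => ?_
    rcases Multiset.mem_add.1 hr with hr | hr
    · exact Nat.not_even_iff_odd.1 fun e => hc ⟨r, hr, e⟩
    · rw [Multiset.eq_of_mem_replicate hr]; exact odd_one
  obtain ⟨c0, τ, e, hd, hc, rfl⟩ := Perm.mem_cycleType_iff.1 hr
  obtain ⟨c, rfl⟩ := h.surj c0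
  have s1 : Perm.sign (π c) = -1 := by rw [hc.sign, he.neg_one_pow]
  have e2 : π (c⁻¹ * g) = τ := by rw [map_mul, map_inv, e, inv_mul_cancel_left]
  have s2 : Perm.sign τ = -1 := by
    rw [e, map_mul, s1, neg_one_mul] at hg
    exact neg_eq_iff_eq_neg.1 hg
  have k := h.anti_of_disjoint (a := c) (b := c⁻¹ * g) (e2 ▸ hd) s1 (e2 ▸ s2)
  refine ⟨c, ?_⟩
  rw [mul_inv_cancel_left] at k
  calc c * g * c⁻¹ = c * (z * (c⁻¹ * g * c)) * c⁻¹ := by rw [← k]
    _ = _ := by rw [← mul_assoc c, ← h.z_comm c]; group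

end Cfsg.Agent.SpC
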