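import Mathlib
import Cfsg.Agent.SpC.Defs
import Cfsg.Agent.SpC.CC

set_option autoImplicit false

namespace Cfsg.Agent.SpC

open Finset Equiv

variable {α : Type*} [Fintype α] [DecidableEq α] {G : Type*} [Group G] {π : G →* Perm α} {z : G}

namespace CC2

omit [Fintype α] [DecidableEq α] in
theorem disjoint_wrEmb {J A : Type*} [AddGroup A] (ι : J × A ↪ α) (σ : Perm J) (v : J → A)
    {y : Perm α} (hy : ∀ a ∈ Set.range ι, y a = a) : (Sym.wrEmb ι σ v).Disjoint y := by
  intro a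
  by_cases ha : a ∈ Set.range ι
  · exact Or.inr (hy a ha)
  · exact Or.inl (Sym.wrEmb_apply_of_not_mem ι σ v ha)

omit [Fintype α] [DecidableEq α] in
theorem commute_xx {p : ℕ} [Fact p.Prime] {J : Type*} (ι : J × ZMod p ↪ α) (σ : Perm J)
    (v : J → ZMod p) : Commute (Sym.wrEmb ι σ v) (SnCh.xx ι) := by
  unfold SnCh.xx
  rw [Commute, SemiconjBy, Sym.wrEmb_mul, Sym.wrEmb_mul, mul_one, one_mul]
  congr 1
  ext i
  simp [add_comm]

theorem sign_top {p : ℕ} [Fact p.Prime] (hp : Odd p) {J : Type*} [Fintype J] [DecidableEq J]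
    (ι : J × ZMod p ↪ α) {i j : J} (hij : i ≠ j) :
    Perm.sign (Sym.wrEmb ι (swap i j) 0) = -1 := by
  rw [Sym.sign_wrEmb, Perm.sign_swap hij, ZMod.card, hp.neg_one_pow]
  simp

theorem swap_eq (J : Type*) [DecidableEq J] (ι : J × ZMod 2 ↪ α) (i : J) :
    swap (ι (i, 0)) (ι (i, 1)) = Sym.wrEmb ι 1 (Pi.single i 1) := by
  refine Sym.eq_wrEmb_of_apply ι (fun j s => ?_) (fun x hx => ?_)
  · by_cases hj : j = i
    · subst hj
      have hs : s = 0 ∨ s = 1 := by revert s; decide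
      rcases hs with rfl | rfl
      · simp
      · have : (1 : ZMod 2) + 1 = 0 := by decide
        simp [this]
    · rw [swap_apply_of_ne_of_ne]
      · simp [hj]
      · exact fun e => hj (congrArg Prod.fst (ι.injective e))
      · exact fun e => hj (congrArg Prod.fst (ι.injective e))
  · exact swap_apply_of_ne_of_ne (fun e => hx ⟨_, e.symm⟩) (fun e => hx ⟨_, e.symm⟩)

end CC2

theorem Spin.exists_odd_comm (h : Spin π z) {p : ℕ} [Fact p.Prime] (hp : Odd p) {J : Type*}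
    [Fintype J] (hJ : 2 ≤ Fintype.card J) (ι : J × ZMod p ↪ α) {u y : G} (hu : π u = SnCh.xx ι)
    (hup : ∃ k : ℕ, u ^ p ^ k = 1) (hs : Perm.sign (π y) = 1)
    (hy : ∀ a ∈ Set.range ι, π y a = a) : ∃ c : G, c ∉ Alt π ∧ Commute c (u * y) := by
  classical
  obtain ⟨i, j, hij⟩ := Fintype.exists_pair_of_one_lt_card (α := J) (by omega)
  obtain ⟨c, hc⟩ := h.surj (Sym.wrEmb ι (swap i j) 0)
  refine ⟨c, fun hm => ?_, Commute.mul_right ?_ ?_⟩
  · rw [Subgroup.mem_comap, Perm.mem_alternatingGroup, hc, CC2.sign_top hp ι hij] at hm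
    exact absurd hm (by decide)
  · have e : π u = π (c * u * c⁻¹) := by
      rw [map_mul, map_mul, map_inv, hc, hu, (CC2.commute_xx ι _ _).eq, mul_inv_cancel_right]
    rcases h.eq_or e with h1 | h1
    · exact mul_inv_eq_iff_eq_mul.1 h1
    · exfalso
      obtain ⟨k, hk⟩ := hup
      have h2 : (c * u * c⁻¹) ^ p ^ k = 1 := by rw [conj_pow, hk, mul_one, mul_inv_cancel]
      have hzu : Commute z u := h.z_comm u
      rw [h1, hzu.mul_pow, hk, mul_one] at h2
      obtain ⟨m, hm⟩ : Odd (p ^ k) := hp.pow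
      rw [hm, pow_succ, pow_mul, sq, h.z_mul_z, one_pow, one_mul] at h2
      exact h.z_ne h2
  · exact h.comm_of_disjoint (hc ▸ CC2.disjoint_wrEmb ι _ _ hy) (Or.inr hs)

theorem exists_odd_comm {p : ℕ} [Fact p.Prime] {J : Type*} [Fintype J]
    (hJ : 2 ≤ Fintype.card J) (ι : J × ZMod p ↪ α) {y : Perm α}
    (hy : ∀ a ∈ Set.range ι, y a = a) :
    ∃ c : Perm α, c ∉ alternatingGroup α ∧ Commute c (SnCh.xx ι * y) := by
  classical
  obtain ⟨i, j, hij⟩ := Fintype.exists_pair_of_one_lt_card (α := J) (by omega)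
  rcases (Fact.out : p.Prime).eq_two_or_odd' with rfl | hp
  · refine ⟨Sym.wrEmb ι 1 (Pi.single i 1), fun hm => ?_,
      (CC2.commute_xx ι _ _).mul_right (CC2.disjoint_wrEmb ι _ _ hy).commute⟩
    rw [Perm.mem_alternatingGroup, ← CC2.swap_eq, Perm.sign_swap] at hm
    · exact absurd hm (by decide)
    · intro e
      exact absurd (congrArg Prod.snd (ι.injective e)) (by simp)
  · refine ⟨Sym.wrEmb ι (swap i j) 0, fun hm => ?_,
      (CC2.commute_xx ι _ _).mul_right (CC2.disjoint_wrEmb ι _ _ hy).commute⟩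
    rw [Perm.mem_alternatingGroup, CC2.sign_top hp ι hij] at hm
    exact absurd hm (by decide)

theorem parts_xx_mul {p : ℕ} [Fact p.Prime] {J : Type*} [Fintype J] (ι : J × ZMod p ↪ α)
    {y : Perm α} (hy : ∀ a ∈ Set.range ι, y a = a) :
    ∃ ρ : Multiset ℕ,
      (SnCh.xx ι * y).partition.parts = Multiset.replicate (Fintype.card J) p + ρ := by
  have hd : (SnCh.xx ι).Disjoint y := CC2.disjoint_wrEmb ι _ _ hy
  refine ⟨y.cycleType + Multiset.replicate (Fintype.card α - #(SnCh.xx ι * y).support) 1, ?_⟩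
  rw [Perm.parts_partition, hd.cycleType_mul, SnCh.cycleType_xx, add_assoc]

end Cfsg.Agent.SpC
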