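import Mathlib
import Cfsg.Agent.SpC.Defs

set_option autoImplicit false

namespace Cfsg.Agent.SpC

open Finset Equiv

namespace CA

/-- Two more anticommuting involutions on the doubled space. -/
noncomputable def step {J κ : Type} [DecidableEq κ] (γ : J → Matrix κ κ ℂ) :
    Option (Option J) → Matrix (κ ⊕ κ) (κ ⊕ κ) ℂ
  | none => Matrix.fromBlocks 1 0 0 (-1)
  | some none => Matrix.fromBlocks 0 (Complex.I • (1 : Matrix κ κ ℂ))
      (-(Complex.I • (1 : Matrix κ κ ℂ))) 0
  | some (some j) => Matrix.fromBlocks 0 (γ j) (γ j) 0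

theorem step_cl {J κ : Type} [Fintype κ] [DecidableEq κ] (γ : J → Matrix κ κ ℂ) (h : Cl γ) :
    Cl (step γ) := by
  constructor
  · rintro (_ | _ | j)
    · simp [step, Matrix.fromBlocks_multiply, Matrix.fromBlocks_one]
    · simp [step, Matrix.fromBlocks_multiply, smul_smul, Matrix.fromBlocks_one]
    · simp [step, Matrix.fromBlocks_multiply, h.sq, Matrix.fromBlocks_one]
  · rintro (_ | _ | i) (_ | _ | j) hij
    · exact absurd rfl hij
    · simp [step, Matrix.fromBlocks_multiply, Matrix.fromBlocks_neg]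
    · simp [step, Matrix.fromBlocks_multiply, Matrix.fromBlocks_neg]
    · simp [step, Matrix.fromBlocks_multiply, Matrix.fromBlocks_neg]
    · exact absurd rfl hij
    · simp [step, Matrix.fromBlocks_multiply, Matrix.fromBlocks_neg]
    · simp [step, Matrix.fromBlocks_multiply, Matrix.fromBlocks_neg]
    · simp [step, Matrix.fromBlocks_multiply, Matrix.fromBlocks_neg]
    · have hne : i ≠ j := fun e => hij (by rw [e])
      simp [step, Matrix.fromBlocks_multiply, Matrix.fromBlocks_neg, h.anti i j hne]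

theorem exists_base (m : ℕ) :
    ∃ (J : Type) (_ : Fintype J) (κ : Type) (_ : Fintype κ) (_ : DecidableEq κ)
      (γ : J → Matrix κ κ ℂ), Fintype.card J = 2 * m + 1 ∧ Fintype.card κ = 2 ^ m ∧ Cl γ := by
  induction m with
  | zero =>
    refine ⟨Unit, inferInstance, Unit, inferInstance, inferInstance, fun _ => 1, by simp, by simp,
      ⟨fun _ => by simp, fun i j hij => absurd (Subsingleton.elim i j) hij⟩⟩
  | succ m ih =>
    obtain ⟨J, hJ, κ, hκ, hd, γ, h1, h2, h3⟩ := ih
    refine ⟨Option (Option J), inferInstance, κ ⊕ κ, inferInstance, inferInstance, step γ, ?_, ?_,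
      step_cl γ h3⟩
    · simp only [Fintype.card_option, h1]; ring
    · simp only [Fintype.card_sum, h2]; ring

end CA

theorem exists_cl (ι : Type*) [Fintype ι] (m : ℕ) (h : Fintype.card ι ≤ 2 * m + 1) :
    ∃ (κ : Type) (_ : Fintype κ) (_ : DecidableEq κ) (γ : ι → Matrix κ κ ℂ),
      Fintype.card κ = 2 ^ m ∧ Cl γ := by
  obtain ⟨J, hJ, κ, hκ, hd, γ, h1, h2, h3⟩ := CA.exists_base m
  obtain ⟨f⟩ : Nonempty (ι ↪ J) := Function.Embedding.nonempty_of_card_le (by omega)
  exact ⟨κ, hκ, hd, fun i => γ (f i), h2,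
    ⟨fun i => h3.sq _, fun i j hij => h3.anti _ _ (fun e => hij (f.injective e))⟩⟩

end Cfsg.Agent.SpC
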