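import Mathlib
import Cfsg.Agent.SpC.Defs
import Cfsg.Agent.Sym.Present

set_option autoImplicit false
set_option linter.unusedSectionVars false

namespace Cfsg.Agent.SpC

open Finset Equiv

namespace CB

variable {α : Type*} [Fintype α] [DecidableEq α] {κ : Type} [Fintype κ] [DecidableEq κ]
  {γ : α ⊕ Option α → Matrix κ κ ℂ}

theorem s_mul_s : (((Real.sqrt 2 : ℝ) : ℂ))⁻¹ * (((Real.sqrt 2 : ℝ) : ℂ))⁻¹ * 2 = 1 := by
  rw [← mul_inv, ← Complex.ofReal_mul, Real.mul_self_sqrt (by norm_num)]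
  norm_num

theorem tm_sq (h : Cl γ) {i j : α} (hij : i ≠ j) : tm γ i j * tm γ i j = 1 := by
  have e : (γ (.inl i) - γ (.inl j)) * (γ (.inl i) - γ (.inl j)) =
      (2 : ℂ) • (1 : Matrix κ κ ℂ) := by
    rw [sub_mul, mul_sub, mul_sub, h.sq, h.sq, h.anti (.inl j) (.inl i) (by simpa using hij.symm),
      two_smul]
    abel
  rw [tm, smul_mul_smul_comm, e, smul_smul, s_mul_s, one_smul]

theorem sgn_mul (σ τ : Perm α) : sgn (σ * τ) = sgn σ * sgn τ := by simp [sgn]

theorem sgn_one : sgn (1 : Perm α) = 1 := by simp [sgn]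

theorem sgn_swap {i j : α} (hij : i ≠ j) : sgn (swap i j) = -1 := by
  simp [sgn, Perm.sign_swap hij]

theorem sgn_cases (σ : Perm α) : sgn σ = 1 ∨ sgn σ = -1 := by
  unfold sgn
  rcases Int.units_eq_one_or (Perm.sign σ) with h | h <;> simp [h]

/-- `T` acts on the generators like `σ`. -/
def Good (γ : α ⊕ Option α → Matrix κ κ ℂ) (σ : Perm α) (T : Matrix κ κ ℂ) : Prop :=
  (∀ i, T * γ (.inl i) = sgn σ • (γ (.inl (σ i)) * T)) ∧
    ∀ o, T * γ (.inr o) = sgn σ • (γ (.inr o) * T)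

theorem good_one : Good γ 1 1 := ⟨fun i => by simp [sgn_one], fun o => by simp [sgn_one]⟩

theorem Good.neg {σ : Perm α} {T : Matrix κ κ ℂ} (h : Good γ σ T) : Good γ σ (-T) :=
  ⟨fun i => by rw [neg_mul, h.1, mul_neg, smul_neg], fun o => by
    rw [neg_mul, h.2, mul_neg, smul_neg]⟩

theorem Good.mul {σ τ : Perm α} {T T' : Matrix κ κ ℂ} (h : Good γ σ T) (h' : Good γ τ T') :
    Good γ (σ * τ) (T * T') := by
  refine ⟨fun i => ?_, fun o => ?_⟩
  · rw [mul_assoc, h'.1, mul_smul_comm, ← mul_assoc, h.1, smul_mul_assoc, smul_smul, sgn_mul,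
      mul_comm (sgn τ), mul_assoc, Perm.mul_apply]
  · rw [mul_assoc, h'.2, mul_smul_comm, ← mul_assoc, h.2, smul_mul_assoc, smul_smul, sgn_mul,
      mul_comm (sgn τ), mul_assoc]

theorem good_tm (h : Cl γ) {i j : α} (hij : i ≠ j) : Good γ (swap i j) (tm γ i j) := by
  refine ⟨fun k => ?_, fun o => ?_⟩
  · rw [sgn_swap hij, tm, smul_mul_assoc, mul_smul_comm, smul_comm, neg_smul, one_smul]
    congr 1
    by_cases hi : k = i
    · subst hi
      rw [swap_apply_left, sub_mul, mul_sub, h.sq, h.sq, neg_sub]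
    · by_cases hj : k = j
      · subst hj
        rw [swap_apply_right, sub_mul, mul_sub, h.sq, h.sq, neg_sub]
      · rw [swap_apply_of_ne_of_ne hi hj, sub_mul, mul_sub,
          h.anti (.inl i) _ (by simpa using Ne.symm hi),
          h.anti (.inl j) _ (by simpa using Ne.symm hj)]
        abel
  · rw [sgn_swap hij, tm, smul_mul_assoc, mul_smul_comm, smul_comm, neg_smul, one_smul]
    congr 1
    rw [sub_mul, mul_sub, h.anti (.inl i) _ (by simp), h.anti (.inl j) _ (by simp)]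
    abel

theorem Good.tm {σ : Perm α} {T : Matrix κ κ ℂ} (h : Good γ σ T) (i j : α) :
    T * tm γ i j = sgn σ • (tm γ (σ i) (σ j) * T) := by
  rw [SpC.tm, SpC.tm, mul_smul_comm, smul_mul_assoc, smul_comm, mul_sub, h.1, h.1, sub_mul,
    smul_sub (sgn σ)]

theorem tm_tm (h : Cl γ) {i j : α} (hij : i ≠ j) (k l : α) :
    tm γ i j * tm γ k l = -(tm γ (swap i j k) (swap i j l) * tm γ i j) := by
  rw [(good_tm h hij).tm, sgn_swap hij, neg_smul, one_smul]

/-- The unit given by `tm`. -/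
noncomputable def tu (h : Cl γ) {i j : α} (hij : i ≠ j) : (Matrix κ κ ℂ)ˣ :=
  ⟨tm γ i j, tm γ i j, tm_sq h hij, tm_sq h hij⟩

/-- The subgroup `{1, -1}`. -/
def NN (κ : Type) [Fintype κ] [DecidableEq κ] : Subgroup (Matrix κ κ ℂ)ˣ where
  carrier := {x | x = 1 ∨ x = -1}
  mul_mem' := by rintro _ _ (rfl | rfl) (rfl | rfl) <;> simp
  one_mem' := Or.inl rfl
  inv_mem' := by rintro _ (rfl | rfl) <;> simp

instance : (NN κ).Normal := ⟨by
  rintro _ (rfl | rfl) g
  · exact Or.inl (by simp)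
  · exact Or.inr (by simp)⟩

theorem mk_eq {a b : (Matrix κ κ ℂ)ˣ} :
    (QuotientGroup.mk a : _ ⧸ NN κ) = QuotientGroup.mk b ↔ b = a ∨ b = -a := by
  rw [QuotientGroup.eq]
  show a⁻¹ * b = 1 ∨ a⁻¹ * b = -1 ↔ _
  rw [inv_mul_eq_iff_eq_mul, inv_mul_eq_iff_eq_mul, mul_one, mul_neg, mul_one]

end CB

open CB in
theorem exists_mdl {m : ℕ} {κ : Type} [Fintype κ] [DecidableEq κ]
    {γ : Fin (m + 1) ⊕ Option (Fin (m + 1)) → Matrix κ κ ℂ} (hγ : Cl γ)
    (hκ : Fintype.card κ = 2 ^ (m + 1)) :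
    ∃ (G : Type) (_ : Group G) (_ : Finite G) (π : G →* Perm (Fin (m + 1))) (z : G)
      (M : G →* Matrix κ κ ℂ), Mdl π z γ M := by
  have hne : ∀ i : Fin m, i.castSucc ≠ i.succ := fun i => (Fin.castSucc_lt_succ).ne
  refine (Sym.exists_hom_of_coxeter m
    (fun i => (QuotientGroup.mk (tu hγ (hne i)) : _ ⧸ NN κ)) (fun i => ?_) (fun i j hij => ?_)
    (fun i j hij => ?_)).elim fun φ hφ => ?_
  · rw [← QuotientGroup.mk_mul, ← QuotientGroup.mk_one, mk_eq]
    exact Or.inl (Units.ext (tm_sq hγ (hne i)).symm)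
  · simp only [← QuotientGroup.mk_mul]
    congr 1
    have e : j.castSucc = i.succ := Fin.ext (by simp [hij])
    have h1 : j.succ ≠ i.castSucc := fun h => by
      have := congrArg Fin.val h
      simp at this
      omega
    have h2 : j.succ ≠ i.succ := e ▸ (hne j).symm
    refine Units.ext ?_
    show tm γ _ _ * tm γ _ _ * tm γ _ _ = tm γ _ _ * tm γ _ _ * tm γ _ _
    rw [tm_tm hγ (hne i) j.castSucc, tm_tm hγ (hne j) i.castSucc, neg_mul, neg_mul, mul_assoc,
      mul_assoc, tm_sq hγ (hne i), tm_sq hγ (hne j), e, swap_apply_right, swap_apply_left,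
      swap_apply_of_ne_of_ne h1 h2, swap_apply_of_ne_of_ne (hne i) h1.symm]
  · show _ * _ = _ * _
    simp only [← QuotientGroup.mk_mul]
    rw [mk_eq]
    refine Or.inr (Units.ext ?_)
    show tm γ _ _ * tm γ _ _ = -(tm γ _ _ * tm γ _ _)
    rw [tm_tm hγ (hne j), swap_apply_of_ne_of_ne, swap_apply_of_ne_of_ne] <;>
    · intro h
      have := congrArg Fin.val h
      simp at this
      omega
  have hgood0 : ∀ σ : Perm (Fin (m + 1)), ∃ T : (Matrix κ κ ℂ)ˣ,
      φ σ = QuotientGroup.mk T ∧ Good γ σ T := by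
    intro σ
    have hσ : σ ∈ Submonoid.closure (Set.range fun i : Fin m => swap i.castSucc i.succ) := by
      rw [Perm.mclosure_swap_castSucc_succ]
      trivial
    induction hσ using Submonoid.closure_induction with
    | mem x hx =>
      obtain ⟨i, rfl⟩ := hx
      exact ⟨_, hφ i, good_tm hγ (hne i)⟩
    | one => exact ⟨1, by simp, good_one⟩
    | mul x y _ _ hx hy =>
      obtain ⟨T, h1, h2⟩ := hx
      obtain ⟨T', h1', h2'⟩ := hy
      exact ⟨T * T', by rw [map_mul, h1, h1', QuotientGroup.mk_mul], h2.mul h2'⟩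
  have hgood : ∀ (σ : Perm (Fin (m + 1))) (T : (Matrix κ κ ℂ)ˣ),
      φ σ = QuotientGroup.mk T → Good γ σ T := by
    intro σ T hT
    obtain ⟨T', h1, h2⟩ := hgood0 σ
    rcases mk_eq.1 (h1.symm.trans hT) with rfl | rfl
    · exact h2
    · exact h2.neg
  have hswap : ∀ (i j : Fin (m + 1)) (hij : i ≠ j),
      φ (swap i j) = QuotientGroup.mk (tu hγ hij) := by
    intro i j hij
    have hm : 0 < m := by
      by_contra h0
      exact hij (Fin.ext (by omega))
    obtain ⟨σ, hσ⟩ := Perm.exists_extending_pair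
      (f := ![(⟨0, hm⟩ : Fin m).castSucc, (⟨0, hm⟩ : Fin m).succ]) (g := ![i, j])
      (by
        intro a b hab
        fin_cases a <;> fin_cases b <;> simp_all)
      (by
        intro a b hab
        fin_cases a <;> fin_cases b <;> simp_all)
    have h0 : σ (⟨0, hm⟩ : Fin m).castSucc = i := hσ 0
    have h1 : σ (⟨0, hm⟩ : Fin m).succ = j := hσ 1
    obtain ⟨T, hT, hg⟩ := hgood0 σ
    have e := hg.tm (⟨0, hm⟩ : Fin m).castSucc (⟨0, hm⟩ : Fin m).succ
    rw [h0, h1] at e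
    have e2 : swap i j * σ = σ * swap (⟨0, hm⟩ : Fin m).castSucc (⟨0, hm⟩ : Fin m).succ := by
      rw [Equiv.mul_swap_eq_swap_mul, h0, h1]
    have e3 := congrArg φ e2
    rw [map_mul, map_mul, hφ, hT, ← QuotientGroup.mk_mul, ← eq_mul_inv_iff_mul_eq] at e3
    rw [e3, mul_inv_eq_iff_eq_mul, ← QuotientGroup.mk_mul, eq_comm, mk_eq]
    rcases sgn_cases σ with hs | hs
    · rw [hs, one_smul] at e
      exact Or.inl (Units.ext e)
    · rw [hs, neg_smul, one_smul] at e
      exact Or.inr (Units.ext e)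
  let G : Subgroup (Perm (Fin (m + 1)) × (Matrix κ κ ℂ)ˣ) :=
    MonoidHom.eqLocus (φ.comp (MonoidHom.fst _ _))
      ((QuotientGroup.mk' (NN κ)).comp (MonoidHom.snd _ _))
  have hG : ∀ x : G, φ x.1.1 = QuotientGroup.mk x.1.2 := fun x => x.2
  let π : G →* Perm (Fin (m + 1)) := (MonoidHom.fst _ _).comp G.subtype
  let M : G →* Matrix κ κ ℂ :=
    (Units.coeHom _).comp ((MonoidHom.snd _ _).comp G.subtype)
  let z : G := ⟨(1, -1), by
    show φ 1 = QuotientGroup.mk (-1)
    rw [map_one, ← QuotientGroup.mk_one, mk_eq]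
    exact Or.inr rfl⟩
  have hext : ∀ x y : G, π x = π y → M x = M y → x = y := fun x y h1 h2 =>
    Subtype.ext (Prod.ext h1 (Units.ext h2))
  have hsw : ∀ (g : G) i j, i ≠ j → π g = swap i j → M g = tm γ i j ∨ M g = -tm γ i j := by
    intro g i j hij hg
    have h1 := hG g
    rw [show g.1.1 = swap i j from hg, hswap i j hij, mk_eq] at h1
    exact h1.imp (fun h => congrArg Units.val h) fun h => congrArg Units.val h
  have hfin : Finite G := by
    choose T hT using fun σ => hgood0 σ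
    refine Finite.of_injective (β := Perm (Fin (m + 1)) × Prop)
      (fun x => (π x, x.1.2 = T (π x))) fun x y hxy => ?_
    have h1 : π x = π y := (Prod.ext_iff.1 hxy).1
    have h2 : (x.1.2 = T (π x)) = (y.1.2 = T (π y)) := (Prod.ext_iff.1 hxy).2
    have hx := mk_eq.1 ((hT (π x)).1.symm.trans (hG x))
    have hy := mk_eq.1 ((hT (π y)).1.symm.trans (hG y))
    refine Subtype.ext (Prod.ext h1 ?_)
    by_cases hx1 : x.1.2 = T (π x)
    · rw [hx1, h2.mp hx1, h1]
    · rw [hx.resolve_left hx1, hy.resolve_left fun e => hx1 (h2.mpr e), h1]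
  have : Nonempty κ := Fintype.card_pos_iff.1 (by rw [hκ]; positivity)
  refine ⟨G, inferInstance, hfin, π, z, M, ⟨fun σ => ?_, fun g => ⟨fun hg => ?_, ?_⟩, ?_, ?_⟩,
    hγ, by rw [hκ, Fintype.card_fin], rfl, fun g => (hgood _ _ (hG g)).1,
    fun g => (hgood _ _ (hG g)).2, hsw⟩
  · obtain ⟨T, hT, -⟩ := hgood0 σ
    exact ⟨⟨(σ, T), hT⟩, rfl⟩
  · have h1 := hG g
    rw [show g.1.1 = 1 from hg, map_one, ← QuotientGroup.mk_one, mk_eq] at h1
    exact h1.imp (fun h => Subtype.ext (Prod.ext hg h)) fun h => Subtype.ext (Prod.ext hg h)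
  · rintro (rfl | rfl)
    · exact map_one _
    · rfl
  · intro h
    have h1 : M z = M 1 := by rw [h]
    rw [map_one] at h1
    have h2 : (-1 : Matrix κ κ ℂ) = 1 := h1
    obtain ⟨k⟩ := ‹Nonempty κ›
    have := congrFun (congrFun h2 k) k
    simp at this
    norm_num at this
  · intro a b i j k l hij hkl hik hil hjk hjl ha hb
    refine hext _ _ ?_ ?_
    · rw [map_mul, map_mul, map_mul, show π z = 1 from rfl, one_mul, ha, hb]
      exact (Sym.commute_swap_swap hik hil hjk hjl).eq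
    · have e := tm_tm hγ hij k l
      rw [swap_apply_of_ne_of_ne hik.symm hjk.symm, swap_apply_of_ne_of_ne hil.symm hjl.symm] at e
      rw [map_mul, map_mul, map_mul, show M z = -1 from rfl]
      rcases hsw a i j hij ha with h1 | h1 <;> rcases hsw b k l hkl hb with h2 | h2 <;>
        simp [h1, h2, e]

end Cfsg.Agent.SpC
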