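import Mathlib
import Cfsg.Agent.SpC.Defs
import Cfsg.Agent.SpC.CC

set_option autoImplicit false

namespace Cfsg.Agent.SpC

open Finset Equiv

variable {α : Type*} [Fintype α] [DecidableEq α] {G : Type*} [Group G] {π : G →* Perm α} {z : G}
  {κ : Type} [Fintype κ] [DecidableEq κ] {γ : α ⊕ Option α → Matrix κ κ ℂ}
  {M : G →* Matrix κ κ ℂ}

namespace CD

theorem trace_zero {e X : Matrix κ κ ℂ} (he : e * e = 1) (h : X * e = -(e * X)) :
    X.trace = 0 := by
  have h1 : X.trace = -X.trace := by
    calc X.trace = (X * e * e).trace := by rw [mul_assoc, he, mul_one]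
      _ = (e * (X * e)).trace := Matrix.trace_mul_comm _ _
      _ = -X.trace := by rw [h, mul_neg, ← mul_assoc, he, one_mul, Matrix.trace_neg]
  linear_combination h1 / 2

theorem trace_pair {e f K : Matrix κ κ ℂ} (he : e * e = 1) (hef : f * e = -(e * f))
    (hK : K * e = e * K) : (e * f * K).trace = 0 := by
  refine trace_zero he ?_
  rw [mul_assoc, hK, ← mul_assoc, mul_assoc e f e, hef]
  simp only [mul_neg, neg_mul, mul_assoc]

omit [Fintype α] [DecidableEq α] in
theorem trace_tm (hγ : Cl γ) {x y w : α} (hxy : x ≠ y) (hyw : y ≠ w) (hxw : x ≠ w)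
    {K : Matrix κ κ ℂ} (hx : K * γ (.inl x) = γ (.inl x) * K)
    (hy : K * γ (.inl y) = γ (.inl y) * K) :
    (tm γ x y * tm γ y w * K).trace * 2 = -K.trace := by
  have h1 := trace_pair (hγ.sq (.inl x)) (hγ.anti (.inl y) (.inl x) (by simpa using hxy.symm)) hx
  have h2 := trace_pair (hγ.sq (.inl x)) (hγ.anti (.inl w) (.inl x) (by simpa using hxw.symm)) hx
  have h3 := trace_pair (hγ.sq (.inl y)) (hγ.anti (.inl w) (.inl y) (by simpa using hyw.symm)) hy
  have hs : ((Real.sqrt 2 : ℝ) : ℂ)⁻¹ * ((Real.sqrt 2 : ℝ) : ℂ)⁻¹ * 2 = 1 := by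
    rw [← mul_inv, ← Complex.ofReal_mul, Real.mul_self_sqrt (by norm_num)]
    norm_num
  simp only [tm, smul_mul_assoc, mul_smul_comm, smul_smul, Matrix.trace_smul, smul_eq_mul,
    sub_mul, mul_sub, Matrix.trace_sub, h1, h2, h3, hγ.sq, one_mul]
  linear_combination (-K.trace) * hs

theorem step (h : Mdl π z γ M) {x y w : α} (hxy : x ≠ y) (hyw : y ≠ w) (hxw : x ≠ w)
    {a b k : G} (ha : π a = swap x y) (hb : π b = swap y w) (hk : Perm.sign (π k) = 1)
    (hx : π k x = x) (hy : π k y = y) :
    (M (a * b * k)).trace ^ 2 * 4 = (M k).trace ^ 2 := by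
  have hx' : M k * γ (.inl x) = γ (.inl x) * M k := by
    rw [h.inl, hx, sgn, hk]; simp
  have hy' : M k * γ (.inl y) = γ (.inl y) * M k := by
    rw [h.inl, hy, sgn, hk]; simp
  have h1 := trace_tm h.cl hxy hyw hxw hx' hy'
  have h2 : (tm γ x y * tm γ y w * M k).trace ^ 2 * 4 = (M k).trace ^ 2 := by
    linear_combination ((tm γ x y * tm γ y w * M k).trace * 2 - (M k).trace) * h1
  rw [map_mul, map_mul]
  rcases h.swap a x y hxy ha with e1 | e1 <;> rcases h.swap b y w hyw hb with e2 | e2 <;>
    simp only [e1, e2, mul_neg, neg_mul, neg_neg, Matrix.trace_neg, neg_sq, h2]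

theorem sq_eq (h : Mdl π z γ M) {a b : G} (e : π a = π b) :
    (M b).trace ^ 2 = (M a).trace ^ 2 := by
  rcases h.spin.eq_or e with rfl | rfl
  · rfl
  · rw [map_mul, h.map_z, neg_one_mul, Matrix.trace_neg, neg_sq]

theorem cyc (h : Mdl π z γ M) (j : ℕ) : ∀ (c : Perm α) (g k : G),
    (c = 1 ∧ j = 0 ∨ c.IsCycle ∧ #c.support = 2 * j + 1) → π g = c * π k →
      Perm.sign (π k) = 1 → c.Disjoint (π k) → (M g).trace ^ 2 * 4 ^ j = (M k).trace ^ 2 := by
  induction j with
  | zero =>
    intro c g k hc hg _ _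
    rcases hc with ⟨rfl, -⟩ | ⟨hc, hs⟩
    · rw [pow_zero, mul_one]
      exact sq_eq h (by rw [hg, one_mul])
    · have := hc.two_le_card_support
      omega
  | succ j ih =>
    intro c g k hc hg hk hd
    rcases hc with ⟨-, h0⟩ | ⟨hc, hs⟩
    · omega
    obtain ⟨x, hx, -⟩ := id hc
    have hxx : c (c x) ≠ x := by
      intro e
      have := hc.eq_swap_of_apply_apply_eq_self hx e
      rw [this, Perm.card_support_swap hx.symm] at hs
      omega
    have hyx : c (c x) ≠ c x := fun e => hx (c.injective e)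
    set c1 := swap x (c x) * c with hc1
    have hc1c : c1.IsCycle := hc.swap_mul hx hxx
    have hc1s : c1.support = c.support.erase x := by
      rw [← sdiff_singleton_eq_erase]; exact Perm.support_swap_mul_eq c x hxx
    have hc1y : c1 (c x) = c (c x) := by
      rw [hc1, Perm.mul_apply, swap_apply_of_ne_of_ne hxx hyx]
    have hc1y' : c1 (c x) ≠ c x := hc1y ▸ hyx
    set c2 := swap (c x) (c1 (c x)) * c1 with hc2
    have hxs : x ∈ c.support := Perm.mem_support.2 hx
    have hys : c x ∈ c1.support := Perm.mem_support.2 hc1y'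
    have hcard1 : #c1.support = 2 * j + 2 := by
      rw [hc1s, card_erase_of_mem hxs, hs]; omega
    have hc2' : (c2 = 1 ∧ j = 0 ∨ c2.IsCycle ∧ #c2.support = 2 * j + 1) ∧
        c2.support ⊆ c1.support.erase (c x) := by
      by_cases e : c1 (c1 (c x)) = c x
      · have e1 := hc1c.eq_swap_of_apply_apply_eq_self hc1y' e
        have e2 : c2 = 1 := by
          rw [hc2, ← e1, e1, swap_mul_self]
        refine ⟨Or.inl ⟨e2, ?_⟩, by simp [e2]⟩
        rw [e1, Perm.card_support_swap hc1y'.symm] at hcard1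
        omega
      · have e1 : c2.support = c1.support.erase (c x) := by
          rw [← sdiff_singleton_eq_erase]; exact Perm.support_swap_mul_eq c1 _ e
        refine ⟨Or.inr ⟨hc1c.swap_mul hc1y' e, ?_⟩, e1.subset⟩
        rw [e1, card_erase_of_mem hys, hcard1]
        omega
    have hsub : c2.support ⊆ c.support := fun t ht =>
      mem_of_mem_erase (hc1s ▸ mem_of_mem_erase (hc2'.2 ht))
    have hd2 : c2.Disjoint (π k) := hd.mono hsub le_rfl
    have hc2x : c2 x = x := by
      by_contra e
      have := mem_of_mem_erase (hc2'.2 (Perm.mem_support.2 e))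
      rw [hc1s] at this
      exact notMem_erase _ _ this
    have hc2y : c2 (c x) = c x := by
      by_contra e
      exact notMem_erase _ _ (hc2'.2 (Perm.mem_support.2 e))
    have hkx : π k x = x := (hd x).resolve_left hx
    have hky : π k (c x) = c x := (hd (c x)).resolve_left hyx
    have hcc : c = swap x (c x) * swap (c x) (c (c x)) * c2 := by
      rw [hc2, hc1y, mul_assoc, swap_mul_self_mul, hc1, swap_mul_self_mul]
    have hsc : Perm.sign c = 1 := by
      rw [hc.sign, hs, Odd.neg_one_pow ⟨j + 1, rfl⟩, neg_neg]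
    have hs2 : Perm.sign c2 = 1 := by
      rw [hcc, map_mul, map_mul, Perm.sign_swap hx.symm, Perm.sign_swap hyx.symm] at hsc
      simpa using hsc
    obtain ⟨a, ha⟩ := h.spin.surj (swap x (c x))
    obtain ⟨b, hb⟩ := h.spin.surj (swap (c x) (c (c x)))
    obtain ⟨g', hg'⟩ := h.spin.surj (c2 * π k)
    have h1 := ih c2 g' k hc2'.1 hg' hk hd2
    have h2 := step h hx.symm hyx.symm hxx.symm ha hb (k := g')
      (by rw [hg', map_mul, hs2, hk, mul_one]) (by rw [hg', Perm.mul_apply, hkx, hc2x])
      (by rw [hg', Perm.mul_apply, hky, hc2y])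
    have h3 : (M g).trace ^ 2 = (M (a * b * g')).trace ^ 2 := by
      refine sq_eq h ?_
      rw [map_mul, map_mul, ha, hb, hg', hg, ← mul_assoc, ← hcc]
    rw [h3, pow_succ' (4 : ℂ) j, ← mul_assoc, h2, h1]

theorem oddType_of {σ : Perm α} (h : ∀ r ∈ σ.cycleType, Odd r) : OddType σ := by
  intro r hr
  rw [Perm.parts_partition, Multiset.mem_add] at hr
  rcases hr with hr | hr
  · exact h r hr
  · rw [Multiset.eq_of_mem_replicate hr]; exact odd_one

theorem main (h : Mdl π z γ M) (σ : Perm α) : ∀ g : G, π g = σ → (∀ r ∈ σ.cycleType, Odd r) →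
    (M g).trace ^ 2 * 2 ^ σ.cycleType.sum =
      4 ^ Fintype.card α * 2 ^ Multiset.card σ.cycleType := by
  have h1 : (M 1).trace ^ 2 = 4 ^ Fintype.card α := by
    rw [map_one, Matrix.trace_one, h.card]
    push_cast
    rw [← pow_mul, mul_comm, pow_mul]
    norm_num
  have key : ∀ (c : Perm α) (g k : G), c.IsCycle → Odd #c.support → π g = c * π k →
      (∀ r ∈ (π k).cycleType, Odd r) → c.Disjoint (π k) →
      (M g).trace ^ 2 * 2 ^ #c.support = (M k).trace ^ 2 * 2 := by
    intro c g k hc ⟨j, hj⟩ hg hk hd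
    rw [← cyc h j c g k (Or.inr ⟨hc, hj⟩) hg (oddType_of hk).sign hd, hj, pow_succ (2 : ℂ) (2 * j), pow_mul]
    norm_num [mul_assoc]
  induction σ using Perm.cycle_induction_on with
  | base_one =>
    intro g hg _
    rw [Perm.cycleType_one, sq_eq h (a := 1) (by rw [hg, map_one]), h1]
    simp
  | base_cycles c hc =>
    intro g hg ho
    rw [hc.cycleType] at ho ⊢
    have := key c g 1 hc (ho _ (by simp)) (by rw [hg, map_one, mul_one]) (by simp)
      (by rw [map_one]; exact Perm.disjoint_one_right c)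
    simp only [Multiset.sum_singleton, Multiset.card_singleton, pow_one]
    rw [this, h1]
  | induction_disjoint c τ hd hc _ ih =>
    intro g hg ho
    obtain ⟨k, rfl⟩ := h.spin.surj τ
    rw [hd.cycleType_mul, hc.cycleType] at ho ⊢
    have hk : ∀ r ∈ (π k).cycleType, Odd r := fun r hr => ho r (Multiset.mem_add.2 (Or.inr hr))
    have h2 := key c g k hc (ho _ (by simp)) hg hk hd
    have h3 := ih k rfl hk
    simp only [Multiset.sum_add, Multiset.sum_singleton, Multiset.card_add,
      Multiset.card_singleton, pow_add, pow_one]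
    rw [← mul_assoc, h2]
    linear_combination 2 * h3

end CD

theorem Mdl.trace_sq (h : Mdl π z γ M) (g : G) : (M g).trace ^ 2 = if OddType (π g) then
    2 ^ (Fintype.card α + Multiset.card (π g).partition.parts) else 0 := by
  split_ifs with ho
  · have h1 := CD.main h (π g) g rfl fun r hr => ho r (by
      rw [Perm.parts_partition]; exact Multiset.mem_add.2 (Or.inl hr))
    rw [Perm.sum_cycleType] at h1
    obtain ⟨m, hm⟩ := Nat.exists_eq_add_of_le (card_le_univ (π g).support)
    rw [Perm.parts_partition, Multiset.card_add, Multiset.card_replicate]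
    apply mul_right_cancel₀ (pow_ne_zero #(π g).support (two_ne_zero (α := ℂ)))
    rw [h1, hm, Nat.add_sub_cancel_left, show (4 : ℂ) = 2 * 2 by norm_num, mul_pow]
    ring
  · rw [sq_eq_zero_iff]
    rcases Int.units_eq_one_or (Perm.sign (π g)) with hs | hs
    · obtain ⟨c, hc⟩ := h.spin.conj_neg hs ho
      have h1 : (M (c * g * c⁻¹)).trace = (M g).trace := by
        rw [map_mul, Matrix.trace_mul_comm, ← map_mul, ← mul_assoc, inv_mul_cancel, one_mul]
      rw [hc, map_mul, h.map_z, neg_one_mul, Matrix.trace_neg] at h1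
      linear_combination -h1 / 2
    · refine CD.trace_zero (h.cl.sq (.inr none)) ?_
      rw [h.inr, sgn, hs]
      simp

end Cfsg.Agent.SpC
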