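import Mathlib
import Cfsg.Agent.SpC.Defs
import Cfsg.Agent.Ch.Basic
import Cfsg.Agent.Blk.OneAlt

set_option autoImplicit false

namespace Cfsg.Agent.SpC

open Finset Equiv

namespace CE

variable {κ ι : Type*} [Fintype κ] [DecidableEq κ]

theorem trace_eq_zero {X u : Matrix κ κ ℂ} {c : ℂ} (hc : c ≠ 0) (hu : u * u = c • (1 : Matrix κ κ ℂ))
    (h : u * X = -(X * u)) : X.trace = 0 := by
  have h1 : (X * u * u).trace = c * X.trace := by
    rw [mul_assoc, hu, Matrix.mul_smul, mul_one, Matrix.trace_smul, smul_eq_mul]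
  have h2 : (X * u * u).trace = -(X * u * u).trace := by
    conv_lhs => rw [Matrix.trace_mul_comm, ← mul_assoc, h, neg_mul, Matrix.trace_neg]
  have h3 : c * X.trace = 0 := by
    rw [h1] at h2
    linear_combination h2 / 2
  exact (mul_eq_zero.1 h3).resolve_left hc

theorem exists_idem [DecidableEq ι] (a : ι → Matrix κ κ ℂ)
    (hs : ∀ i, ∃ c : ℂ, c ≠ 0 ∧ a i * a i = c • (1 : Matrix κ κ ℂ))
    (ha : ∀ i j, i ≠ j → a i * a j = -(a j * a i)) (k : ℕ) :
    ∀ s : Finset ι, 2 * k ≤ #s → ∃ P : Matrix κ κ ℂ, P * P = P ∧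
      ∀ X, (∀ i ∈ s, Commute X (a i)) → Commute X P ∧ (X * P).trace = X.trace / 2 ^ k := by
  induction k with
  | zero => exact fun s _ => ⟨1, mul_one _, fun X _ => ⟨Commute.one_right X, by simp⟩⟩
  | succ k ih =>
    intro s hk
    obtain ⟨u, hu, v, hv, huv⟩ := one_lt_card.1 (show 1 < #s by omega)
    obtain ⟨P, hP, h⟩ := ih ((s.erase u).erase v) (by
      rw [card_erase_of_mem (mem_erase.2 ⟨huv.symm, hv⟩), card_erase_of_mem hu]; omega)
    obtain ⟨c, hc, eu⟩ := hs u
    obtain ⟨d, hd, ev⟩ := hs v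
    obtain ⟨e, he⟩ := IsAlgClosed.exists_pow_nat_eq (-(c * d)⁻¹) (n := 2) (by norm_num)
    set b : Matrix κ κ ℂ := e • (a u * a v) with hb
    have b2 : b * b = 1 := by
      have : a u * a v * (a u * a v) = -(c * d) • (1 : Matrix κ κ ℂ) := by
        calc _ = a u * (a v * a u) * a v := by simp only [mul_assoc]
          _ = -(a u * a u * (a v * a v)) := by rw [ha v u huv.symm]; simp only [mul_assoc, mul_neg, neg_mul]
          _ = _ := by rw [eu, ev, smul_mul_smul_comm, mul_one, neg_smul]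
      rw [hb, smul_mul_smul_comm, this, smul_smul, ← pow_two, he, neg_mul_neg,
        inv_mul_cancel₀ (mul_ne_zero hc hd), one_smul]
    have bi : ∀ i ∈ (s.erase u).erase v, Commute b (a i) := fun i hi => by
      have h1 := ha v i (mem_erase.1 hi).1.symm
      have h2 := ha u i (mem_erase.1 (mem_erase.1 hi).2).1.symm
      refine Commute.smul_left ?_ e
      show _ = _
      rw [mul_assoc, h1, mul_neg, ← mul_assoc, h2, neg_mul, neg_neg, mul_assoc]
    have bu : a u * b = -(b * a u) := by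
      rw [hb, Matrix.mul_smul, Matrix.smul_mul, mul_assoc (a u) (a v), ha v u huv.symm, mul_neg, smul_neg,
        neg_neg]
    have bP := (h b bi).1
    refine ⟨P * ((2 : ℂ)⁻¹ • (1 + b)), ?_, fun X hX => ?_⟩
    · have c1 : Commute ((2 : ℂ)⁻¹ • (1 + b)) P := ((Commute.one_left P).add_left bP).smul_left _
      have c2 : ((2 : ℂ)⁻¹ • (1 + b)) * ((2 : ℂ)⁻¹ • (1 + b)) = (2 : ℂ)⁻¹ • (1 + b) := by
        rw [smul_mul_smul_comm, add_mul, mul_add, mul_add, b2, one_mul, one_mul, mul_one, add_comm b 1,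
          ← two_smul ℂ (1 + b), smul_smul]
        norm_num
      calc _ = P * (((2 : ℂ)⁻¹ • (1 + b)) * P) * ((2 : ℂ)⁻¹ • (1 + b)) := by simp only [mul_assoc]
        _ = _ := by rw [c1.eq, ← mul_assoc, hP, mul_assoc, c2]
    · have hX' : ∀ i ∈ (s.erase u).erase v, Commute X (a i) := fun i hi =>
        hX i (mem_of_mem_erase (mem_of_mem_erase hi))
      have Xb : Commute X b := ((hX u hu).mul_right (hX v hv)).smul_right e
      refine ⟨(h X hX').1.mul_right (((Commute.one_right X).add_right Xb).smul_right _), ?_⟩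
      have h0 : (X * b).trace = 0 := trace_eq_zero hc eu (by
        rw [← mul_assoc, ← (hX u hu).eq, mul_assoc, bu, mul_neg, mul_assoc])
      have h1 := (h (X * b) fun i hi => (hX' i hi).mul_left (bi i hi)).2
      rw [Matrix.mul_smul, Matrix.mul_smul, mul_add, mul_one, ← bP.eq, mul_add, ← mul_assoc,
        Matrix.trace_smul, Matrix.trace_add, h1, h0, (h X hX').2, smul_eq_mul, pow_succ]
      ring

end CE

theorem isCharacter_div {G κ ι : Type*} [Group G] [Fintype κ] [DecidableEq κ] [Fintype ι]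
    (R : G →* Matrix κ κ ℂ) (a : ι → Matrix κ κ ℂ) (hc : ∀ g i, R g * a i = a i * R g)
    (hs : ∀ i, ∃ c : ℂ, c ≠ 0 ∧ a i * a i = c • (1 : Matrix κ κ ℂ))
    (ha : ∀ i j, i ≠ j → a i * a j = -(a j * a i)) :
    IsCharacter G fun g => (R g).trace / 2 ^ (Fintype.card ι / 2) := by
  classical
  obtain ⟨P, hP, h⟩ := CE.exists_idem a hs ha (Fintype.card ι / 2) univ (by rw [card_univ]; omega)
  let φ := Matrix.toLinAlgEquiv' (R := ℂ) (n := κ)
  let ρ : Representation ℂ G (κ → ℂ) := (φ : Matrix κ κ ℂ →* _).comp R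
  have key := Blk.One.isCharacter_trace_mul_idem ρ (e := φ P) (by rw [← map_mul, hP]) fun g => by
    show φ (R g) * φ P = φ P * φ (R g)
    rw [← map_mul, ← map_mul, (h _ fun i _ => hc g i).1.eq]
  convert key using 2 with g
  show _ = LinearMap.trace ℂ _ (φ (R g) * φ P)
  rw [← map_mul, ← (h _ fun i _ => hc g i).2]
  exact (Matrix.trace_toLin'_eq _).symm

end Cfsg.Agent.SpC
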