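import Mathlib
import Cfsg.Agent.SpC.Defs
import Cfsg.Agent.SpC.CE

set_option autoImplicit false

namespace Cfsg.Agent.SpC

open Finset Equiv

namespace CF

section Gen

variable {G κ Φ ι : Type*} [Group G] [Fintype κ] [DecidableEq κ] [Fintype Φ] [DecidableEq Φ]
  [MulAction G Φ]

/-- The tensor product of `M` with the permutation module on `Φ`. -/
def RR (Φ : Type*) [Fintype Φ] [DecidableEq Φ] [MulAction G Φ] (M : G →* Matrix κ κ ℂ) :
    G →* Matrix (κ × Φ) (κ × Φ) ℂ where
  toFun g := Matrix.of fun a b => if a.2 = g • b.2 then M g a.1 b.1 else 0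
  map_one' := by
    ext ⟨x, f⟩ ⟨y, f'⟩
    by_cases h : f = f' <;> simp [h, Matrix.one_apply]
  map_mul' g h := by
    ext ⟨x, f⟩ ⟨y, f'⟩
    simp only [Matrix.mul_apply, Matrix.of_apply, Fintype.sum_prod_type, map_mul, mul_ite,
      mul_zero, sum_ite_eq', mem_univ, if_true, mul_smul]
    split_ifs <;> simp

theorem RR_apply (M : G →* Matrix κ κ ℂ) (g : G) (a b : κ × Φ) :
    RR Φ M g a b = if a.2 = g • b.2 then M g a.1 b.1 else 0 := rfl

theorem trace_RR (M : G →* Matrix κ κ ℂ) (g : G) :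
    (RR Φ M g).trace = Nat.card (MulAction.fixedBy Φ g) * (M g).trace := by
  simp only [Matrix.trace, Matrix.diag, RR_apply]
  rw [Fintype.sum_prod_type_right]
  simp only [sum_ite_irrel, sum_const_zero]
  rw [← sum_filter, sum_const, nsmul_eq_mul, Nat.card_eq_fintype_card, Fintype.card_subtype]
  congr 3
  ext f
  simp [eq_comm]

theorem RR_mul_block (M : G →* Matrix κ κ ℂ) (g : G) (A : Φ → Matrix κ κ ℂ)
    (h : ∀ f, M g * A f = A (g • f) * M g) :
    RR Φ M g * Matrix.blockDiagonal A = Matrix.blockDiagonal A * RR Φ M g := by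
  ext ⟨x, f⟩ ⟨y, f'⟩
  simp only [Matrix.mul_apply, RR_apply, Matrix.blockDiagonal_apply, Fintype.sum_prod_type,
    mul_ite, mul_zero, ite_mul, zero_mul, sum_ite_eq', sum_ite_eq, mem_univ, if_true]
  split_ifs with e
  · subst e
    have := congrFun (congrFun (h f') x) y
    simpa [Matrix.mul_apply] using this
  · simp

theorem isCharacter_gen [Fintype ι] (M : G →* Matrix κ κ ℂ) (A : ι → Φ → Matrix κ κ ℂ)
    (hc : ∀ g i f, M g * A i f = A i (g • f) * M g)
    (hs : ∀ i, ∃ c : ℂ, c ≠ 0 ∧ ∀ f, A i f * A i f = c • (1 : Matrix κ κ ℂ))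
    (ha : ∀ i j, i ≠ j → ∀ f, A i f * A j f = -(A j f * A i f)) :
    IsCharacter G fun g =>
      Nat.card (MulAction.fixedBy Φ g) * (M g).trace / 2 ^ (Fintype.card ι / 2) := by
  have := isCharacter_div (RR Φ M) (fun i => Matrix.blockDiagonal (A i))
    (fun g i => RR_mul_block M g _ (hc g i)) (fun i => ?_) (fun i j hij => ?_)
  · simpa only [trace_RR] using this
  · obtain ⟨c, h0, h⟩ := hs i
    refine ⟨c, h0, ?_⟩
    rw [← Matrix.blockDiagonal_mul, ← Matrix.blockDiagonal_one, ← Matrix.blockDiagonal_smul]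
    congr 1
    exact funext h
  · rw [← Matrix.blockDiagonal_mul, ← Matrix.blockDiagonal_mul, ← Matrix.blockDiagonal_neg]
    congr 1
    exact funext (ha i j hij)

end Gen

variable {α : Type*} [Fintype α] [DecidableEq α] {G : Type*} [Group G] {π : G →* Perm α} {z : G}
  {κ : Type} [Fintype κ] [DecidableEq κ] {γ : α ⊕ Option α → Matrix κ κ ℂ}
  {M : G →* Matrix κ κ ℂ}

theorem sgn_mul_self (σ : Perm α) : sgn σ * sgn σ = 1 := by
  unfold sgn
  rcases Int.units_eq_one_or (Perm.sign σ) with h | h <;> simp [h]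

/-- The sum of the generators over a set of points. -/
noncomputable def EE (γ : α ⊕ Option α → Matrix κ κ ℂ) (s : Finset α) : Matrix κ κ ℂ :=
  ∑ i ∈ s, γ (.inl i)

theorem EE_anti_inr (h : Cl γ) (s : Finset α) (o : Option α) :
    EE γ s * γ (.inr o) = -(γ (.inr o) * EE γ s) := by
  rw [EE, sum_mul, mul_sum, ← sum_neg_distrib]
  exact sum_congr rfl fun i _ => h.anti _ _ (by simp)

theorem EE_anti (h : Cl γ) {s t : Finset α} (hd : Disjoint s t) :
    EE γ s * EE γ t = -(EE γ t * EE γ s) := by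
  rw [EE, EE, sum_mul_sum, sum_mul_sum, sum_comm, ← sum_neg_distrib]
  refine sum_congr rfl fun j hj => ?_
  rw [← sum_neg_distrib]
  refine sum_congr rfl fun i hi => h.anti _ _ ?_
  intro e
  rw [Sum.inl.injEq] at e
  exact disjoint_left.1 hd hi (e ▸ hj)

theorem EE_sq (h : Cl γ) (s : Finset α) : EE γ s * EE γ s = (#s : ℂ) • (1 : Matrix κ κ ℂ) := by
  induction s using Finset.induction_on with
  | empty => simp [EE]
  | insert a s ha ih =>
    have e : EE γ (insert a s) = γ (.inl a) + EE γ s := sum_insert ha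
    have h1 := EE_anti h (disjoint_singleton_left.2 ha)
    rw [show EE γ {a} = γ (.inl a) from sum_singleton _ _] at h1
    rw [e, add_mul, mul_add, mul_add, h1, ih, h.sq, card_insert_of_notMem ha]
    push_cast
    rw [add_smul, one_smul]
    abel

theorem M_EE (h : Mdl π z γ M) (g : G) (s : Finset α) :
    M g * EE γ s = sgn (π g) • (EE γ (s.map (π g).toEmbedding) * M g) := by
  rw [EE, EE, sum_map, mul_sum, sum_mul, smul_sum]
  exact sum_congr rfl fun i _ => h.inl g i

variable {l : ℕ} {μ : Fin l → ℤ}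

/-- The commuting operators. -/
noncomputable def op (γ : α ⊕ Option α → Matrix κ κ ℂ) (μ : Fin l → ℤ) :
    α ⊕ Fin l → SnCh.Fib α μ → Matrix κ κ ℂ
  | .inl i, _ => γ (.inr none) * γ (.inr (some i))
  | .inr k, f => γ (.inr none) * EE γ {a | f.1 a = k}

theorem dmul (h : Cl γ) {X Y : Matrix κ κ ℂ} (hX : X * γ (.inr none) = -(γ (.inr none) * X)) :
    γ (.inr none) * X * (γ (.inr none) * Y) = -(X * Y) := by
  rw [mul_assoc, ← mul_assoc X, hX, neg_mul, mul_neg, ← mul_assoc, ← mul_assoc, h.sq, one_mul]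

theorem op_comm (h : Mdl π z γ M) (g : G) (i : α ⊕ Fin l) (f : SnCh.Fib α μ) :
    M g * op γ μ i f = op γ μ i (π g • f) * M g := by
  cases i with
  | inl i =>
    simp only [op]
    rw [← mul_assoc, h.inr, smul_mul_assoc, mul_assoc, h.inr, mul_smul_comm, smul_smul,
      sgn_mul_self, one_smul, mul_assoc]
  | inr k =>
    simp only [op]
    rw [← mul_assoc, h.inr, smul_mul_assoc, mul_assoc, M_EE h, mul_smul_comm, smul_smul,
      sgn_mul_self, one_smul, mul_assoc]
    congr 3
    ext a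
    rw [mem_map_equiv]
    simp only [mem_filter, mem_univ, true_and]
    rfl

theorem op_sq (h : Cl γ) (hμ : ∀ i, 0 < μ i) (i : α ⊕ Fin l) :
    ∃ c : ℂ, c ≠ 0 ∧ ∀ f, op γ μ i f * op γ μ i f = c • (1 : Matrix κ κ ℂ) := by
  cases i with
  | inl i =>
    refine ⟨-1, by simp, fun f => ?_⟩
    simp only [op]
    rw [dmul h (h.anti _ _ (by simp)), h.sq, neg_smul, one_smul]
  | inr k =>
    refine ⟨-(μ k : ℂ), by simpa using (hμ k).ne', fun f => ?_⟩
    simp only [op]
    rw [dmul h (EE_anti_inr h _ _), EE_sq h, neg_smul, ← f.2 k]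
    simp

theorem op_anti (h : Cl γ) (i j : α ⊕ Fin l) (hij : i ≠ j) (f : SnCh.Fib α μ) :
    op γ μ i f * op γ μ j f = -(op γ μ j f * op γ μ i f) := by
  cases i with
  | inl i =>
    cases j with
    | inl j =>
      simp only [op]
      rw [dmul h (h.anti _ _ (by simp)), dmul h (h.anti _ _ (by simp)),
        h.anti _ _ (by simpa using hij)]
    | inr k =>
      simp only [op]
      rw [dmul h (h.anti _ _ (by simp)), dmul h (EE_anti_inr h _ _), EE_anti_inr h, neg_neg]
  | inr k =>
    cases j with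
    | inl j =>
      simp only [op]
      rw [dmul h (h.anti _ _ (by simp)), dmul h (EE_anti_inr h _ _), EE_anti_inr h]
    | inr k' =>
      simp only [op]
      rw [dmul h (EE_anti_inr h _ _), dmul h (EE_anti_inr h _ _), EE_anti h]
      refine disjoint_filter.2 fun a _ e e' => hij ?_
      rw [← e, ← e']

theorem op_anti_d (h : Cl γ) (i : α ⊕ Fin l) (f : SnCh.Fib α μ) :
    op γ μ i f * γ (.inr none) = -(γ (.inr none) * op γ μ i f) := by
  cases i with
  | inl i =>
    simp only [op]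
    rw [mul_assoc, h.anti _ _ (by simp), mul_neg]
  | inr k =>
    simp only [op]
    rw [mul_assoc, EE_anti_inr h, mul_neg]

end CF

variable {α : Type*} [Fintype α] [DecidableEq α] {G : Type*} [Group G] {π : G →* Perm α} {z : G}
  {κ : Type} [Fintype κ] [DecidableEq κ] {γ : α ⊕ Option α → Matrix κ κ ℂ}
  {M : G →* Matrix κ κ ℂ}

theorem Mdl.intG (h : Mdl π z γ M) (l : ℕ) (μ : Fin l → ℤ) (hμ : ∀ i, 0 < μ i) :
    IsCharacter G fun g => fx μ (π g) * (M g).trace / 2 ^ ((Fintype.card α + l) / 2) := by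
  classical
  letI := Fintype.ofFinite (SnCh.Fib α μ)
  letI : MulAction G (SnCh.Fib α μ) := MulAction.compHom _ π
  have := CF.isCharacter_gen M (CF.op γ μ) (CF.op_comm h) (CF.op_sq h.cl hμ) (CF.op_anti h.cl)
  rw [Fintype.card_sum, Fintype.card_fin] at this
  exact this

theorem Mdl.intA (h : Mdl π z γ M) (l : ℕ) (μ : Fin l → ℤ) (hμ : ∀ i, 0 < μ i) :
    IsCharacter (Alt π) fun g =>
      fx μ (π g) * (M g).trace / 2 ^ ((Fintype.card α + l + 1) / 2) := by
  classical
  letI := Fintype.ofFinite (SnCh.Fib α μ)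
  letI : MulAction (Alt π) (SnCh.Fib α μ) := MulAction.compHom _ (π.comp (Alt π).subtype)
  have := CF.isCharacter_gen (M.comp (Alt π).subtype)
    (fun i : Option (α ⊕ Fin l) => i.elim (fun _ => γ (.inr none)) (CF.op γ μ)) ?_ ?_ ?_
  · rw [Fintype.card_option, Fintype.card_sum, Fintype.card_fin] at this
    exact this
  · rintro g (_ | i) f
    · have h1 : Perm.sign (π g) = 1 := g.2
      have h2 := h.inr g none
      rw [sgn, h1] at h2
      simpa using h2
    · exact CF.op_comm h g i f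
  · rintro (_ | i)
    · exact ⟨1, one_ne_zero, fun f => by simpa using h.cl.sq _⟩
    · exact CF.op_sq h.cl hμ i
  · rintro (_ | i) (_ | j) hij f
    · exact absurd rfl hij
    · simp only [Option.elim]
      rw [CF.op_anti_d h.cl, neg_neg]
    · exact CF.op_anti_d h.cl i f
    · exact CF.op_anti h.cl i j (by simpa using hij) f

end Cfsg.Agent.SpC
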