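import Mathlib
import Cfsg.Agent.SpC.Defs
import Cfsg.Agent.SpC.CA
import Cfsg.Agent.SpC.CB
import Cfsg.Agent.SpC.CD
import Cfsg.Agent.SpC.CF

set_option autoImplicit false

namespace Cfsg.Agent.SpC

open Finset Equiv

theorem exists_tr {n : ℕ} (hn : 1 ≤ n) : ∃ (G : Type) (_ : Group G) (_ : Fintype G)
    (π : G →* Perm (Fin n)) (z : G) (T : G → ℂ), Tr π z T := by
  obtain ⟨m, rfl⟩ : ∃ m, n = m + 1 := ⟨n - 1, by omega⟩
  obtain ⟨κ, _, _, γ, hκ, hγ⟩ := exists_cl (Fin (m + 1) ⊕ Option (Fin (m + 1))) (m + 1)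
    (by simp; omega)
  obtain ⟨G, _, _, π, z, M, h⟩ := exists_mdl hγ hκ
  refine ⟨G, inferInstance, Fintype.ofFinite G, π, z, fun g => (M g).trace, h.spin, ?_, ?_, ?_,
    h.trace_sq, h.intG, h.intA⟩
  · intro g x
    show (M (x * g * x⁻¹)).trace = (M g).trace
    rw [map_mul, Matrix.trace_mul_comm, ← map_mul, ← mul_assoc, inv_mul_cancel, one_mul]
  · intro g
    show (M (z * g)).trace = -(M g).trace
    rw [map_mul, h.map_z, neg_one_mul, Matrix.trace_neg]
  · show (M 1).trace = _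
    rw [map_one, Matrix.trace_one, h.card]
    push_cast
    rfl

end Cfsg.Agent.SpC
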