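import Mathlib
import Cfsg.Agent.SpC.Defs
import Cfsg.Agent.SpC.CC
import Cfsg.Agent.Sym.CoverEx

set_option autoImplicit false

namespace Cfsg.Agent.SpC

open Finset Equiv

variable {α : Type*} [Fintype α] [DecidableEq α] {G : Type*} [Group G] {π : G →* Perm α} {z : G}

namespace Iso

open Subgroup Cfsg.Agent.Sym

theorem bij {P H Q : Type*} [Group P] [Group H] [Group Q] {τ : P →* Q} {τ' : H →* Q} (f : P →* H)
    (hf : ∀ x, τ' (f x) = τ x) {L : Subgroup P} {ζ : P} (hζ : ζ ∈ L)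
    (hL : ∀ x ∈ L, τ x = 1 → x = 1 ∨ x = ζ) (hs : ∀ y, ∃ l ∈ L, τ l = τ' y)
    (k : ∀ y, τ' y = 1 → y = 1 ∨ y = f ζ) (n : f ζ ≠ 1) : Function.Bijective (f.comp L.subtype) := by
  refine ⟨(injective_iff_map_eq_one _).2 fun l hl => ?_, fun y => ?_⟩
  · have h1 : f l = 1 := hl
    rcases hL l l.2 (by rw [← hf, h1, map_one]) with e | e
    · exact Subtype.ext e
    · exact absurd (e ▸ h1) n
  · obtain ⟨l, hl, e⟩ := hs y
    rcases k ((f l)⁻¹ * y) (by rw [map_mul, map_inv, hf, e, inv_mul_cancel]) with h | h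
    · exact ⟨⟨l, hl⟩, inv_mul_eq_one.1 h⟩
    · exact ⟨⟨l * ζ, mul_mem hl hζ⟩, (map_mul f l ζ).trans (inv_mul_eq_iff_eq_mul.1 h).symm⟩

theorem eq_or_of_mem_zpowers {P : Type*} [Group P] {ζ x : P} (h : ζ ^ 2 = 1) (hx : x ∈ zpowers ζ) :
    x = 1 ∨ x = ζ := by
  obtain ⟨k, rfl⟩ := hx
  have h2 : ∀ m : ℤ, ζ ^ (2 * m) = 1 := fun m => by
    rw [zpow_mul, zpow_two, ← pow_two, h, one_zpow]
  rcases Int.even_or_odd' k with ⟨m, rfl | rfl⟩
  · exact Or.inl (h2 m)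
  · exact Or.inr (by simp only []; rw [zpow_add, h2, one_mul, zpow_one])

/-- Two double covers of the alternating group with non-trivial `ζ` are isomorphic. -/
theorem equiv_of_zeta {H₁ H₂ : Type*} [Group H₁] [Group H₂] {τ₁ : H₁ →* Perm α}
    {τ₂ : H₂ →* Perm α} (h4 : 4 ≤ Fintype.card α) (r₁ : τ₁.range = alternatingGroup α)
    (r₂ : τ₂.range = alternatingGroup α) {ζ₁ : H₁} {ζ₂ : H₂} (z₁ : IsZeta τ₁ ζ₁)
    (z₂ : IsZeta τ₂ ζ₂) (k₁ : ∀ x, τ₁ x = 1 → x = 1 ∨ x = ζ₁) (k₂ : ∀ x, τ₂ x = 1 → x = 1 ∨ x = ζ₂)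
    (n₁ : ζ₁ ≠ 1) (n₂ : ζ₂ ≠ 1) (c₁ : τ₁.ker ≤ center H₁) (c₂ : τ₂.ker ≤ center H₂) :
    ∃ φ : H₁ ≃* H₂, ∀ x, τ₂ (φ x) = τ₁ x := by
  have : Nontrivial α := Fintype.one_lt_card_iff_nontrivial.1 (by omega)
  let τ : Ch.pullback τ₁ τ₂ →* Perm α := τ₁.comp (Ch.pullbackFst τ₁ τ₂)
  let ζ : Ch.pullback τ₁ τ₂ := ⟨(ζ₁, ζ₂), (z₁.1 : τ₁ ζ₁ = 1).trans (z₂.1 : τ₂ ζ₂ = 1).symm⟩
  have hζ : IsZeta τ ζ := ⟨z₁.1, Subtype.ext (Prod.ext z₁.2.1 z₂.2.1),
    fun a b c d hab hac had hbc hbd hcd u v hu hv => Subtype.ext (Prod.ext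
      (z₁.2.2 a b c d hab hac had hbc hbd hcd _ _ hu hv)
      (z₂.2.2 a b c d hab hac had hbc hbd hcd _ _ ((Ch.pullback_comm u).symm.trans hu)
        ((Ch.pullback_comm v).symm.trans hv)))⟩
  have hc : τ.ker ≤ center _ := fun x hx =>
    Ch.mem_center_pullback (c₁ hx) (c₂ ((Ch.pullback_comm x).symm.trans hx))
  have hl : ∀ s ∈ alternatingGroup α, ∃ x, τ x = s := fun s hs => by
    obtain ⟨x, hx⟩ := r₁.ge hs
    obtain ⟨y, hy⟩ := r₂.ge hs
    exact ⟨⟨(x, y), hx.trans hy.symm⟩, hx⟩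
  have hr : τ.range = alternatingGroup α := le_antisymm (by
    rintro _ ⟨x, rfl⟩
    exact r₁.le ⟨_, rfl⟩) hl
  have sq : ∀ {H : Type _} [Group H] {x ζ : H}, ζ ^ 2 = 1 → x = 1 ∨ x = ζ → x ^ 4 = 1 := by
    rintro H _ x ζ h (rfl | rfl)
    · exact one_pow _
    · rw [show 4 = 2 * 2 from rfl, pow_mul, h, one_pow]
  have sq' : ∀ {H : Type _} [Group H] {x ζ : H}, ζ ^ 2 = 1 → x = 1 ∨ x = ζ → x ^ 4 = 1 := by
    rintro H _ x ζ h (rfl | rfl)
    · exact one_pow _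
    · rw [show 4 = 2 * 2 from rfl, pow_mul, h, one_pow]
  obtain ⟨L, h1, h2⟩ := exists_section_of_pow_four hζ hc hr fun x hx => Subtype.ext (Prod.ext
    (sq z₁.2.1 (k₁ _ hx)) (sq' z₂.2.1 (k₂ _ ((Ch.pullback_comm x).symm.trans hx))))
  have h3 : ∀ s ∈ alternatingGroup α, ∃ l ∈ L, τ l = s := fun s hs => by
    obtain ⟨x, rfl⟩ := hl s hs
    exact h2 x
  have hζL : ζ ∈ L := by
    obtain ⟨a, b, c, d, hab, hac, had, hbc, hbd, hcd⟩ := exists_four_ne h4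
    obtain ⟨u, uL, hu⟩ := h3 _ (Perm.mem_alternatingGroup.2 (sign_swap_mul_swap hab hcd))
    obtain ⟨v, vL, hv⟩ := h3 _ (Perm.mem_alternatingGroup.2 (sign_swap_mul_swap hac hbd))
    rw [← hζ.2.2 a b c d hab hac had hbc hbd hcd u v hu hv, commutatorElement_def]
    exact mul_mem (mul_mem (mul_mem uL vL) (inv_mem uL)) (inv_mem vL)
  have hL : ∀ x ∈ L, τ x = 1 → x = 1 ∨ x = ζ := fun x hx e =>
    eq_or_of_mem_zpowers hζ.2.1 (h1 ⟨hx, e⟩)
  have b₁ := bij (τ := τ) (τ' := τ₁) (Ch.pullbackFst τ₁ τ₂) (fun _ => rfl) hζL hL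
    (fun y => h3 _ (r₁.le ⟨y, rfl⟩)) k₁ n₁
  have b₂ := bij (τ := τ) (τ' := τ₂) (Ch.pullbackSnd τ₁ τ₂)
    (fun x => (Ch.pullback_comm x).symm) hζL hL
    (fun y => h3 _ (r₂.le ⟨y, rfl⟩)) k₂ n₂
  refine ⟨(MulEquiv.ofBijective _ b₁).symm.trans (MulEquiv.ofBijective _ b₂), fun x => ?_⟩
  obtain ⟨l, rfl⟩ := (MulEquiv.ofBijective _ b₁).surjective x
  rw [MulEquiv.trans_apply, MulEquiv.symm_apply_apply]
  exact (Ch.pullback_comm l.1).symm

/-- A lift of a double transposition has square `z`. -/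
theorem exists_sq (h : Spin π z) {a b c d : α} (hab : a ≠ b) (hac : a ≠ c) (had : a ≠ d)
    (hbc : b ≠ c) (hbd : b ≠ d) (hcd : c ≠ d) :
    ∃ w : G, π w = swap a b * swap c d ∧ w * w = z := by
  obtain ⟨t, ht⟩ := h.surj (swap a b)
  obtain ⟨s, h1, h2, -, -⟩ := exists_perm_apply_four hab hac had hbc hbd hcd hcd hac.symm hbc.symm
    had.symm hbd.symm hab
  obtain ⟨g, rfl⟩ := h.surj s
  have ht' : π (g * t * g⁻¹) = swap c d := by
    rw [map_mul, map_mul, map_inv, ht, ← swap_apply_apply, h1, h2]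
  have h3 : t * t = 1 ∨ t * t = z := (h.ker _).1 (by rw [map_mul, ht, swap_mul_self])
  have h4 : t * t * (g * t * g⁻¹ * (g * t * g⁻¹)) = 1 := by
    rw [conj_mul]
    rcases h3 with e | e <;> rw [e]
    · group
    · rw [← h.z_comm g, mul_inv_cancel_right, h.z_mul_z]
  refine ⟨t * (g * t * g⁻¹), by rw [map_mul, ht, ht'], ?_⟩
  have h5 := h.anti (g * t * g⁻¹) t c d a b hcd hab hac.symm hbc.symm had.symm hbd.symm ht' ht
  generalize g * t * g⁻¹ = t' at h4 h5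
  calc t * t' * (t * t') = t * (t' * t) * t' := by group
    _ = t * z * (t * t') * t' := by rw [h5]; group
    _ = z * (t * t * (t' * t')) := by rw [← h.z_comm t]; group
    _ = z := by rw [h4, mul_one]

end Iso

theorem Spin.exists_equiv (h : Spin π z) (h5 : 5 ≤ Fintype.card α) {H : Type*} [Group H]
    [Finite H] {σ : H →* alternatingGroup α} (hσ : IsStemExtension σ)
    (h2 : Nat.card σ.ker = 2) : ∃ φ : H ≃* Alt π, ∀ x, π (φ x) = tau σ x := by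
  have h4 : 4 ≤ Fintype.card α := by omega
  obtain ⟨ζ, ω, z₁, ωk, ω3, -, hk⟩ := Sym.exists_ker_eq_zpowers hσ h4
  have ω1 : ω = 1 := by
    have e : ω ^ 2 = 1 := by
      have := pow_card_eq_one' (x := (⟨ω, ωk⟩ : σ.ker))
      rw [h2] at this
      exact congrArg Subtype.val this
    rw [pow_succ, e, one_mul] at ω3
    exact ω3
  rw [ω1, mul_one] at hk
  have n₁ : ζ ≠ 1 := by
    rintro rfl
    rw [hk, Subgroup.zpowers_one_eq_bot, Subgroup.card_bot] at h2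
    exact absurd h2 (by decide)
  have zA : z ∈ Alt π := by
    rw [Subgroup.mem_comap, h.map_z]
    exact one_mem _
  have k₂ : ∀ x : Alt π, π.comp (Alt π).subtype x = 1 → x = 1 ∨ x = ⟨z, zA⟩ := fun x hx =>
    ((h.ker x).1 hx).imp Subtype.ext Subtype.ext
  have c₂ : (π.comp (Alt π).subtype).ker ≤ Subgroup.center _ := fun x hx => by
    rcases k₂ x hx with rfl | rfl
    · exact one_mem _
    · exact Subgroup.mem_center_iff.2 fun g => Subtype.ext (h.z_comm g).symm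
  have r₂ : (π.comp (Alt π).subtype).range = alternatingGroup α := by
    rw [MonoidHom.range_comp, Subgroup.range_subtype,
      Subgroup.map_comap_eq_self_of_surjective h.surj]
  obtain ⟨ζ₂, z₂⟩ := Sym.exists_isZeta c₂ r₂ h4
  obtain rfl : ζ₂ = ⟨z, zA⟩ := by
    obtain ⟨a, b, c, d, hab, hac, had, hbc, hbd, hcd⟩ := Sym.exists_four_ne h4
    obtain ⟨w, hw, e⟩ := Iso.exists_sq h hab hac had hbc hbd hcd
    have wA : w ∈ Alt π := by
      rw [Subgroup.mem_comap, hw]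
      exact Perm.mem_alternatingGroup.2 (Sym.sign_swap_mul_swap hab hcd)
    obtain ⟨t, ht, e'⟩ := z₂.sq_lift c₂ r₂ hab hac had hbc hbd hcd (w := ⟨w, wA⟩) hw
    have t2 : t ^ 2 = 1 := by
      rcases k₂ t ht with rfl | rfl
      · exact one_pow _
      · exact Subtype.ext (by rw [pow_two]; exact h.z_mul_z)
    rw [t2, mul_one, pow_two] at e'
    exact e'.symm.trans (Subtype.ext e)
  exact Iso.equiv_of_zeta h4 (Sym.range_subtype_comp hσ.1) r₂ z₁ z₂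
    (fun x hx => Iso.eq_or_of_mem_zpowers z₁.2.1 (hk.le ((Sym.ker_subtype_comp σ).le hx))) k₂ n₁
    (fun e => h.z_ne (congrArg Subtype.val e)) ((Sym.ker_subtype_comp σ).le.trans hσ.2.1) c₂

end Cfsg.Agent.SpC
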