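import Mathlib
import Cfsg.Agent.SpC.Defs

set_option autoImplicit false

namespace Cfsg.Agent.SpC

open Finset Equiv

namespace QA

/-- The odd power sums. -/
noncomputable def P (r : ℕ) : Gam := if Odd r then MvPolynomial.X r else 0

theorem P_mul (r : ℕ) (f : Gam) : P r * f = if Odd r then MvPolynomial.X r * f else 0 := by
  rw [P, ite_mul, zero_mul]

theorem P_zero : P 0 = 0 := if_neg (by decide)

theorem rec_nat (n : ℕ) : (n : ℚ) • q n = (2 : ℚ) • ∑ r ∈ range (n + 1), P r * q (n - r) := by
  rcases n with _ | n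
  · simp [P_zero]
  · rw [q_succ, smul_smul, sum_range_succ' _ (n + 1), P_zero, zero_mul, add_zero,
      ← sum_flip fun k => if Odd (n + 1 - k) then MvPolynomial.X (n + 1 - k) * q k else 0]
    congr 1
    · push_cast
      field_simp
    · refine sum_congr rfl fun k hk => ?_
      have := mem_range.1 hk
      rw [P_mul, show n + 1 - (n - k) = k + 1 by omega, show n + 1 - (k + 1) = n - k by omega]

theorem rec_int (m : ℤ) {N : ℕ} (hN : m < N) :
    (m : ℚ) • qz m = (2 : ℚ) • ∑ s ∈ range N, P s * qz (m - s) := by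
  rcases lt_or_ge m 0 with h | h
  · rw [qz_neg h, smul_zero, sum_eq_zero fun s _ => by rw [qz_neg (by omega), mul_zero], smul_zero]
  · obtain ⟨n, rfl⟩ := Int.eq_ofNat_of_zero_le h
    rw [qz_natCast, Int.cast_natCast, rec_nat, ← sum_subset (range_subset_range.2
      (show n + 1 ≤ N by omega)) fun s _ hs => by
        rw [mem_range] at hs
        rw [qz_neg (by omega), mul_zero]]
    congr 1
    refine sum_congr rfl fun s hs => ?_
    rw [← Nat.cast_sub (Nat.lt_succ_iff.1 (mem_range.1 hs)), qz_natCast]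

theorem uniq {f : ℕ → Gam} (h0 : f 0 = 0)
    (h : ∀ n : ℕ, (n : ℚ) • f n = (2 : ℚ) • ∑ r ∈ range (n + 1), P r * f (n - r)) (n : ℕ) :
    f n = 0 := by
  induction n using Nat.strong_induction_on with
  | _ n ih =>
    rcases Nat.eq_zero_or_pos n with rfl | hn
    · exact h0
    have h1 := h n
    rw [sum_eq_zero fun r _ => ?_, smul_zero] at h1
    · exact (smul_eq_zero.1 h1).resolve_left (Nat.cast_ne_zero.2 hn.ne')
    · rcases Nat.eq_zero_or_pos r with rfl | hr
      · rw [P_zero, zero_mul]
      · rw [ih _ (by omega), mul_zero]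

theorem coeff_E (F : PowerSeries Gam) (n : ℕ) :
    PowerSeries.coeff n (PowerSeries.X * PowerSeries.derivative Gam F) =
      (n : ℚ) • PowerSeries.coeff n F := by
  rcases n with _ | n
  · simp
  · rw [PowerSeries.coeff_succ_X_mul, PowerSeries.coeff_derivative, Nat.cast_smul_eq_nsmul,
      nsmul_eq_mul, mul_comm]
    push_cast
    rfl

end QA

open QA

theorem q_rec (n : ℕ) : (n : ℚ) • q n =
    (2 : ℚ) • ∑ r ∈ range (n + 1), if Odd r then MvPolynomial.X r * q (n - r) else 0 := by
  simp only [rec_nat, P_mul]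

theorem Dr_X (r s : ℕ) : Dr r (MvPolynomial.X s) = if r = s then ((r : ℚ) / 2) • (1 : Gam) else 0 := by
  rw [Dr_apply, MvPolynomial.pderiv_X]
  split_ifs with h
  · rw [h, Pi.single_eq_same]
  · rw [Pi.single_eq_of_ne' h, smul_zero]

theorem Dr_qz (r : ℕ) (m : ℤ) : Dr r (qz m) = if Odd r then qz (m - r) else 0 := by
  rcases lt_or_ge m 0 with h | h
  · rw [qz_neg h, map_zero, qz_neg (by omega), ite_self]
  obtain ⟨n, rfl⟩ := Int.eq_ofNat_of_zero_le h
  rw [qz_natCast, ← sub_eq_zero]
  refine uniq (f := fun n => Dr r (q n) - if Odd r then qz (n - r) else 0) ?_ (fun n => ?_) n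
  · rw [q_zero, Dr_one, zero_sub, neg_eq_zero]
    split_ifs with hr
    · exact qz_neg (by have := hr.pos; omega)
    · rfl
  have e0 : ∀ s ∈ range (n + 1), q (n - s) = qz (n - s) := fun s hs => by
    rw [← Nat.cast_sub (Nat.lt_succ_iff.1 (mem_range.1 hs)), qz_natCast]
  have e1 : ∑ s ∈ range (n + 1), Dr r (P s) * q (n - s) =
      if Odd r then ((r : ℚ) / 2) • qz (n - r) else 0 := by
    rw [sum_congr rfl fun s hs => by rw [e0 s hs], sum_eq_single r]
    · rw [P]
      split_ifs with hr
      · rw [Dr_X, if_pos rfl, smul_mul_assoc, one_mul]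
      · rw [map_zero, zero_mul]
    · intro s _ hs
      rw [P]
      split_ifs
      · rw [Dr_X, if_neg hs.symm, zero_mul]
      · rw [map_zero, zero_mul]
    · intro hr
      rw [mem_range] at hr
      rw [qz_neg (by omega), mul_zero]
  simp only [mul_sub, sum_sub_distrib, smul_sub]
  rw [← map_smul, rec_nat, map_smul, map_sum]
  simp only [Dr_mul, sum_add_distrib, smul_add]
  rw [e1, add_comm, add_sub_assoc, sub_eq_add_neg _ ((2 : ℚ) • _)]
  congr 1
  split_ifs with hr
  · have e2 := rec_int (n - r : ℤ) (N := n + 1) (by omega)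
    rw [sum_congr rfl fun s hs => by
      rw [Nat.cast_sub (Nat.lt_succ_iff.1 (mem_range.1 hs)), sub_right_comm], ← e2, smul_smul,
      ← sub_smul, ← neg_smul]
    congr 1
    push_cast
    ring
  · simp

theorem constantCoeff_qz (m : ℤ) :
    MvPolynomial.constantCoeff (qz m) = if m = 0 then 1 else 0 := by
  rcases lt_trichotomy m 0 with h | rfl | h
  · rw [qz_neg h, map_zero, if_neg h.ne]
  · rw [qz_zero, map_one, if_pos rfl]
  · have h1 := congrArg MvPolynomial.constantCoeff (rec_int m (N := m.toNat + 1) (by omega))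
    rw [MvPolynomial.constantCoeff_smul, MvPolynomial.constantCoeff_smul, map_sum,
      sum_eq_zero fun s _ => by rw [P_mul]; split_ifs <;> simp, smul_zero] at h1
    rw [if_neg h.ne']
    exact (smul_eq_zero.1 h1).resolve_left (Int.cast_ne_zero.2 h.ne')

theorem q_conv (n : ℕ) :
    ∑ k ∈ range (n + 1), (-1 : ℚ) ^ k • (q k * q (n - k)) = if n = 0 then 1 else 0 := by
  split_ifs with hn
  · simp [hn, q_zero]
  set Q := PowerSeries.mk q with hQ
  set Q' := PowerSeries.mk fun k => (-1 : ℚ) ^ k • q k with hQ'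
  set S := PowerSeries.mk fun k => (2 : ℚ) • P k with hS
  have h1 : PowerSeries.X * PowerSeries.derivative Gam Q = S * Q := by
    ext1 k
    rw [coeff_E, PowerSeries.coeff_mul, Nat.sum_antidiagonal_eq_sum_range_succ_mk]
    simp only [hQ, hS, PowerSeries.coeff_mk, smul_mul_assoc]
    rw [rec_nat, smul_sum]
  have h2 : PowerSeries.X * PowerSeries.derivative Gam Q' = -(S * Q') := by
    ext1 k
    rw [coeff_E, map_neg, PowerSeries.coeff_mul, Nat.sum_antidiagonal_eq_sum_range_succ_mk]
    simp only [hQ', hS, PowerSeries.coeff_mk, smul_mul_assoc]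
    rw [smul_comm, rec_nat, smul_sum, smul_sum, ← sum_neg_distrib]
    refine sum_congr rfl fun s hs => ?_
    rw [P]
    split_ifs with ho
    · obtain ⟨j, rfl⟩ := Nat.exists_eq_add_of_le (Nat.lt_succ_iff.1 (mem_range.1 hs))
      rw [Nat.add_sub_cancel_left, pow_add, ho.neg_one_pow, mul_smul_comm, smul_comm, neg_one_mul,
        neg_smul, smul_neg]
    · simp
  have h3 : PowerSeries.X * PowerSeries.derivative Gam (Q' * Q) = 0 := by
    rw [Derivation.leibniz, smul_eq_mul, smul_eq_mul, mul_add, mul_left_comm, h1,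
      mul_left_comm _ Q, h2]
    ring
  have h4 := coeff_E (Q' * Q) n
  rw [h3, map_zero, PowerSeries.coeff_mul, Nat.sum_antidiagonal_eq_sum_range_succ_mk] at h4
  simp only [hQ, hQ', PowerSeries.coeff_mk, smul_mul_assoc] at h4
  exact (smul_eq_zero.1 h4.symm).resolve_left (Nat.cast_ne_zero.2 hn)

end Cfsg.Agent.SpC
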