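import Mathlib
import Cfsg.Agent.SpC.Defs
import Cfsg.Agent.SpC.QA

/-! Commutation rules of the vertex operators with `p_r` and its adjoint. -/

set_option autoImplicit false

namespace Cfsg.Agent.SpC

open Finset Equiv

namespace QB

/-- The linear map behind `Bv`. -/
noncomputable def L (m : ℤ) : Polynomial Gam →ₗ[ℚ] Gam :=
  Polynomial.lsum (fun k : ℕ => LinearMap.mulLeft ℚ (qz (m + k)))

theorem Bv_eq (m : ℤ) (f : Gam) : Bv m f = L m (Sh f) := rfl

theorem L_monomial (m : ℤ) (k : ℕ) (a : Gam) : L m (Polynomial.monomial k a) = qz (m + k) * a :=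
  Polynomial.sum_monomial_index a (fun k a => qz (m + k) * a) (mul_zero _)

theorem L_C_mul (m : ℤ) (a : Gam) (p : Polynomial Gam) : L m (Polynomial.C a * p) = a * L m p := by
  induction p using Polynomial.induction_on' with
  | add p p' h h' => rw [mul_add, map_add, map_add, h, h', mul_add]
  | monomial k b => rw [Polynomial.C_mul_monomial, L_monomial, L_monomial, mul_left_comm]

theorem L_X_mul (m : ℤ) (r : ℕ) (p : Polynomial Gam) : L m (Polynomial.X ^ r * p) = L (m + r) p := by
  induction p using Polynomial.induction_on' with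
  | add p p' h h' => rw [mul_add, map_add, map_add, h, h']
  | monomial k b =>
    rw [Polynomial.X_pow_mul_monomial, L_monomial, L_monomial, Nat.cast_add, add_comm (k : ℤ), add_assoc]

theorem Dr_X_mul (r s : ℕ) (f : Gam) : Dr r (MvPolynomial.X s * f) =
    (if r = s then (r : ℚ) / 2 else 0) • f + MvPolynomial.X s * Dr r f := by
  rw [Dr_mul, Dr_apply, MvPolynomial.pderiv_X]
  split_ifs with h
  · subst h; simp
  · simp [Pi.single_eq_of_ne (Ne.symm h)]

end QB

open QB

theorem Bv_X_mul (m : ℤ) (r : ℕ) (f : Gam) : Bv m (MvPolynomial.X r * f) =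
    MvPolynomial.X r * Bv m f - if Odd r then Bv (m + r) f else 0 := by
  rw [Bv_eq, map_mul, Sh_X, sub_mul, map_sub, L_C_mul, ← Bv_eq]
  split_ifs
  · rw [L_X_mul, ← Bv_eq]
  · rw [zero_mul, map_zero]

theorem Dr_Bv (r : ℕ) (m : ℤ) (f : Gam) :
    Dr r (Bv m f) = Bv m (Dr r f) + if Odd r then Bv (m - r) f else 0 := by
  induction f using MvPolynomial.induction_on generalizing m with
  | C a =>
    rw [← mul_one (MvPolynomial.C a), ← MvPolynomial.smul_eq_C_mul]
    simp only [map_smul, Bv_one, Dr_one, map_zero, smul_zero, zero_add, Dr_qz]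
    split_ifs <;> simp
  | add f g hf hg =>
    simp only [map_add, hf, hg]
    split_ifs <;> ring
  | mul_X f s hf =>
    rw [mul_comm f, Bv_X_mul, map_sub, Dr_X_mul, Dr_X_mul, map_add, map_smul, Bv_X_mul, Bv_X_mul, hf]
    by_cases hs : Odd s
    · simp only [hs, if_true, hf, add_sub_right_comm m]
      split_ifs <;> ring
    · simp only [hs, if_false, map_zero]
      split_ifs <;> ring

end Cfsg.Agent.SpC
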