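import Mathlib
import Cfsg.Agent.SpC.Defs
import Cfsg.Agent.SpC.QA

set_option autoImplicit false

namespace Cfsg.Agent.SpC

open Finset Equiv

namespace QS1

/-- The scalar. -/
def cc (k : ℕ) : ℚ := if k = 0 then 1 else 2 * (-1) ^ k

theorem mul_cc (k : ℕ) : (k : ℚ) * cc k = k * (2 * (-1) ^ k) := by
  unfold cc
  split_ifs with h
  · simp [h]
  · rfl

theorem cc_succ (k : ℕ) : cc (k + 1) = 2 * (-1) ^ (k + 1) := if_neg (Nat.succ_ne_zero k)

theorem sum_cc (k : ℕ) :
    2 * ∑ r ∈ range (k + 1), (if Odd r then cc (k - r) else 0) = -(k * cc k) := by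
  induction k using Nat.twoStepInduction with
  | zero => simp
  | one => simp [sum_range_succ, cc]
  | more k ih _ =>
    rw [sum_range_succ', sum_range_succ']
    have e : ∀ r, (if Odd (r + 1 + 1) then cc (k + 2 - (r + 1 + 1)) else 0) =
        if Odd r then cc (k - r) else 0 := fun r => by
      have h1 : Odd (r + 1 + 1) ↔ Odd r := by
        rw [add_assoc, Nat.odd_add]; simp
      have h2 : k + 2 - (r + 1 + 1) = k - r := by omega
      simp only [h1, h2]
    simp only [e]
    rw [mul_add, mul_add, ih, mul_cc, if_pos (by decide), if_neg (by decide),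
      show k + 2 - (0 + 1) = k + 1 by omega, cc_succ, cc_succ]
    push_cast
    ring

theorem sum_cc' {k n : ℕ} (h : k ≤ n) :
    2 * ∑ r ∈ range (n + 1), (if Odd r then (if r ≤ k then cc (k - r) else 0) else 0) =
      -(k * cc k) := by
  rw [← sum_cc, ← sum_subset (range_subset_range.2 (Nat.succ_le_succ h))]
  · congr 1
    refine sum_congr rfl fun r hr => ?_
    rw [if_pos (Nat.lt_succ_iff.1 (mem_range.1 hr))]
  · intro r _ hr
    rw [mem_range, Nat.lt_succ_iff] at hr
    rw [if_neg hr, ite_self]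

theorem qz_sub {n r : ℕ} (h : r ≤ n) : qz ((n : ℤ) - r) = q (n - r) := by
  rw [← qz_natCast, Nat.cast_sub h]

theorem qz_rec (m : ℤ) {N : ℕ} (h : m < N) : (m : ℚ) • qz m =
    (2 : ℚ) • ∑ r ∈ range N, if Odd r then MvPolynomial.X r * qz (m - r) else 0 := by
  rcases lt_or_ge m 0 with hm | hm
  · rw [qz_neg hm, smul_zero, sum_eq_zero, smul_zero]
    intro r _
    rw [qz_neg (by omega), mul_zero, ite_self]
  · lift m to ℕ using hm
    have h1 : m + 1 ≤ N := by omega
    rw [qz_natCast, Int.cast_natCast, q_rec, ← sum_subset (range_subset_range.2 h1)]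
    · congr 1
      refine sum_congr rfl fun r hr => ?_
      rw [qz_sub (Nat.lt_succ_iff.1 (mem_range.1 hr))]
    · intro r _ hr
      rw [mem_range] at hr
      rw [qz_neg (by omega), mul_zero, ite_self]

theorem coeff_Sh_q (n : ℕ) : ∀ k : ℕ, (Sh (q n)).coeff k = cc k • qz ((n : ℤ) - k) := by
  induction n using Nat.strong_induction_on with
  | _ n ih =>
  intro k
  rcases Nat.eq_zero_or_pos n with rfl | hn
  · rw [q_zero, map_one, Polynomial.coeff_one]
    unfold cc
    split_ifs with h
    · simp [h, qz_zero]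
    · rw [qz_neg (by omega), smul_zero]
  have hn' : (n : ℚ) ≠ 0 := Nat.cast_ne_zero.2 hn.ne'
  apply smul_right_injective Gam hn'
  have e : ∀ r ∈ range (n + 1),
      (Sh (if Odd r then MvPolynomial.X r * q (n - r) else 0)).coeff k =
        cc k • (if Odd r then MvPolynomial.X r * qz ((n : ℤ) - k - r) else 0) -
          (if Odd r then (if r ≤ k then cc (k - r) else 0) else 0) • qz ((n : ℤ) - k) := by
    intro r hr
    have hr' : r ≤ n := Nat.lt_succ_iff.1 (mem_range.1 hr)
    by_cases ho : Odd r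
    · have hlt : n - r < n := by have := ho.pos; omega
      simp only [if_pos ho]
      rw [map_mul, Sh_X, if_pos ho, sub_mul, Polynomial.coeff_sub, Polynomial.coeff_C_mul,
        Polynomial.coeff_X_pow_mul', ih _ hlt, mul_smul_comm, Nat.cast_sub hr',
        show (n : ℤ) - r - k = n - k - r by ring]
      congr 1
      split_ifs with hk
      · rw [ih _ hlt, Nat.cast_sub hr', Nat.cast_sub hk, show (n : ℤ) - r - (k - r) = n - k by ring]
      · rw [zero_smul]
    · simp [if_neg ho]
  show (n : ℚ) • (Sh (q n)).coeff k = (n : ℚ) • cc k • qz ((n : ℤ) - k)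
  rw [← Polynomial.coeff_smul, ← map_smul, q_rec, map_smul, map_sum, Polynomial.coeff_smul,
    Polynomial.finsetSum_coeff, sum_congr rfl e, sum_sub_distrib, ← smul_sum, ← sum_smul, smul_sub,
    smul_comm (2 : ℚ) (cc k), ← qz_rec _ (by push_cast; omega), smul_smul, smul_smul, smul_smul]
  rcases le_or_gt k n with hk | hk
  · rw [sum_cc' hk, ← sub_smul]
    congr 1
    push_cast
    ring
  · rw [qz_neg (by omega), smul_zero, smul_zero, smul_zero, sub_zero]

end QS1

theorem coeff_Sh_qz (m : ℤ) (k : ℕ) :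
    (Sh (qz m)).coeff k = (if k = 0 then 1 else 2 * (-1) ^ k : ℚ) • qz (m - k) := by
  rcases lt_or_ge m 0 with hm | hm
  · rw [qz_neg hm, qz_neg (by omega), map_zero, Polynomial.coeff_zero, smul_zero]
  · lift m to ℕ using hm
    rw [qz_natCast]
    exact QS1.coeff_Sh_q m k

end Cfsg.Agent.SpC
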