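import Mathlib
import Cfsg.Agent.SpC.Defs
import Cfsg.Agent.SpC.QS1
import Cfsg.Agent.SpC.QB

set_option autoImplicit false

namespace Cfsg.Agent.SpC

open Finset Equiv

namespace QC

theorem Bv_qz (a b : ℤ) {N : ℕ} (h : b ≤ N) : Bv a (qz b) =
    ∑ k ∈ range (N + 1), (if k = 0 then 1 else 2 * (-1) ^ k : ℚ) • (qz (a + k) * qz (b - k)) := by
  rw [Bv_eq_sum a _ (N := N + 1) (Nat.lt_succ_of_le (Polynomial.natDegree_le_iff_coeff_eq_zero.2 fun k hk => by
    rw [coeff_Sh_qz, qz_neg (by omega), smul_zero]))]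
  exact sum_congr rfl fun k _ => by rw [coeff_Sh_qz, mul_smul_comm]

theorem shift (a b : ℤ) : Bv a (qz b) + Bv (a + 1) (qz (b - 1)) = qz a * qz b - qz (a + 1) * qz (b - 1) := by
  rw [Bv_qz a b (N := b.toNat + 1) (by omega), Bv_qz (a + 1) (b - 1) (N := b.toNat) (by omega), sum_range_succ',
    sum_range_succ', sum_range_succ' _ b.toNat]
  have : ∀ s t u v w : Gam, s + t = 0 → s + u + v + (t + w) = u + v + w := fun s t u v w h => by
    linear_combination h
  rw [this]
  · simp only [Nat.cast_zero, Nat.cast_one, add_zero, sub_zero, zero_add, if_true, one_ne_zero, if_false, pow_one,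
      one_smul, mul_neg, mul_one, neg_smul, two_smul]
    ring
  · rw [← sum_add_distrib]
    refine sum_eq_zero fun k _ => ?_
    simp only [Nat.succ_ne_zero, if_false]
    push_cast
    rw [show a + 1 + (k + 1) = a + (k + 1 + 1) by ring, show b - 1 - (k + 1) = b - (k + 1 + 1) by ring, ← add_smul,
      show (2 * (-1) ^ (k + 1 + 1) + 2 * (-1) ^ (k + 1) : ℚ) = 0 by ring, zero_smul]

theorem step (a b : ℤ) : Bv (a + 1) (qz (b - 1)) + Bv (b - 1) (qz (a + 1)) = -(Bv a (qz b) + Bv b (qz a)) := by
  have h := shift (b - 1) (a + 1)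
  rw [sub_add_cancel, add_sub_cancel_right] at h
  linear_combination h + shift a b

theorem zero (n : ℤ) : Bv 0 (qz n) + Bv n (qz 0) = if n = 0 then (2 : ℚ) • 1 else 0 := by
  rw [qz_zero, Bv_one]
  rcases lt_or_ge n 0 with h | h
  · rw [qz_neg h, map_zero, add_zero, if_neg h.ne]
  obtain ⟨n, rfl⟩ := Int.eq_ofNat_of_zero_le h
  have e : (if (n : ℤ) = 0 then (2 : ℚ) • (1 : Gam) else 0) = (2 : ℚ) • if n = 0 then 1 else 0 := by
    simp only [Nat.cast_eq_zero, smul_ite, smul_zero]
  rw [Bv_qz 0 n le_rfl, e, ← q_conv, smul_sum, sum_range_succ', sum_range_succ', add_assoc]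
  congr 1
  · refine sum_congr rfl fun k hk => ?_
    rw [if_neg k.succ_ne_zero, zero_add, ← Nat.cast_sub (mem_range.1 hk), qz_natCast, qz_natCast, smul_smul]
  · simp [qz_natCast, qz_zero, q_zero, two_smul]

theorem base (a b : ℤ) : Bv a (qz b) + Bv b (qz a) = if a + b = 0 then (2 * (-1) ^ a : ℚ) • 1 else 0 := by
  induction a using Int.induction_on generalizing b with
  | zero => simpa using zero b
  | succ a ih =>
    have := step a (b + 1)
    rw [add_sub_cancel_right, ih] at this
    rw [this, show (a : ℤ) + (b + 1) = a + 1 + b by ring, zpow_add_one₀ (by norm_num)]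
    split_ifs <;> simp
  | pred a ih =>
    have := step (-a - 1) (b)
    rw [sub_add_cancel, ih] at this
    rw [← neg_eq_iff_eq_neg.2 this, show -(a : ℤ) + (b - 1) = -a - 1 + b by ring, zpow_sub_one₀ (by norm_num)]
    split_ifs <;> simp

end QC

theorem Bv_anti (a b : ℤ) (f : Gam) : Bv a (Bv b f) + Bv b (Bv a f) =
    if a + b = 0 then (2 * (-1) ^ a : ℚ) • f else 0 := by
  induction f using MvPolynomial.induction_on generalizing a b with
  | C c =>
    rw [MvPolynomial.C_eq_smul_one, map_smul, map_smul, map_smul, map_smul, Bv_one, Bv_one, ← smul_add, QC.base,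
      smul_ite, smul_zero, smul_comm]
  | add f g hf hg =>
    rw [map_add, map_add, map_add, map_add, add_add_add_comm, hf, hg]
    split_ifs <;> simp
  | mul_X f r ih =>
    rw [mul_comm f, Bv_X_mul, Bv_X_mul, map_sub, map_sub, Bv_X_mul, Bv_X_mul]
    have h0 : MvPolynomial.X r * Bv a (Bv b f) + MvPolynomial.X r * Bv b (Bv a f) =
        if a + b = 0 then (2 * (-1) ^ a : ℚ) • (MvPolynomial.X r * f) else 0 := by
      rw [← mul_add, ih, mul_ite, mul_zero, mul_smul_comm]
    by_cases hr : Odd r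
    · simp only [if_pos hr]
      have h1 := ih (a + r) b
      have h2 := ih a (b + r)
      rw [zpow_add₀ (by norm_num), zpow_natCast, hr.neg_one_pow, add_right_comm, add_assoc] at h1
      have h3 : (if a + (b + r) = 0 then (2 * ((-1) ^ a * -1) : ℚ) • f else 0) +
          (if a + (b + r) = 0 then (2 * (-1) ^ a : ℚ) • f else 0) = 0 := by split_ifs <;> simp
      linear_combination h0 - h1 - h2 - h3
    · simpa only [if_neg hr, map_zero, sub_zero] using h0

end Cfsg.Agent.SpC
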