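import Mathlib
import Cfsg.Agent.SpC.Defs
import Cfsg.Agent.SpC.QC

set_option autoImplicit false

namespace Cfsg.Agent.SpC

open Finset Equiv

variable {T : Finset ℕ} {m : ℕ}

namespace QE

theorem anti {a b : ℤ} (h : a + b ≠ 0) (f : Gam) : Bv a (Bv b f) = -Bv b (Bv a f) := by
  have := Bv_anti a b f
  rw [if_neg h] at this
  exact eq_neg_of_add_eq_zero_left this

theorem self {a : ℤ} (h : a ≠ 0) (f : Gam) : Bv a (Bv a f) = 0 := by
  have := Bv_anti a a f
  rw [if_neg (by omega), ← two_smul ℚ] at this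
  exact (smul_eq_zero.1 this).resolve_left two_ne_zero

end QE

theorem Bv_QS_pos (h0 : 0 ∉ T) (hm : 0 < m) (hT : m ∉ T) :
    Bv m (QS T) = (-1 : ℚ) ^ #{b ∈ T | m < b} • QS (insert m T) := by
  induction T using Finset.induction_on_max with
  | empty => rw [QS_insert_max (by simp)]; simp
  | insert a U ha ih =>
    have hU : m ∉ U := fun h => hT (mem_insert_of_mem h)
    have hne : m ≠ a := fun h => hT (h ▸ mem_insert_self _ _)
    rcases lt_or_gt_of_ne hne with h | h
    · have hx : ∀ b ∈ insert m U, b < a := fun b hb => by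
        rcases mem_insert.1 hb with rfl | hb
        exacts [h, ha b hb]
      rw [QS_insert_max ha, QE.anti (by omega), ih (fun h => h0 (mem_insert_of_mem h)) hU, map_smul,
        ← QS_insert_max hx, filter_insert, if_pos h,
        card_insert_of_notMem (fun k => lt_irrefl _ (ha a (mem_filter.1 k).1)), pow_succ, insert_comm]
      simp
    · have hx : ∀ b ∈ insert a U, b < m := fun b hb => by
        rcases mem_insert.1 hb with rfl | hb
        exacts [h, (ha b hb).trans h]
      rw [QS_insert_max hx, filter_eq_empty_iff.2 (fun b hb => not_lt.2 (hx b hb).le)]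
      simp

namespace QE

theorem eq_erase (h0 : 0 ∉ T) (hT : m ∈ T) :
    QS T = (-1 : ℚ) ^ #{b ∈ T | m < b} • Bv m (QS (T.erase m)) := by
  have hm : 0 < m := Nat.pos_of_ne_zero fun e => h0 (e ▸ hT)
  have e : ({b ∈ T.erase m | m < b} : Finset ℕ) = {b ∈ T | m < b} := by
    ext b
    simp only [mem_filter, mem_erase]
    exact ⟨fun h => ⟨h.1.2, h.2⟩, fun h => ⟨⟨h.2.ne', h.1⟩, h.2⟩⟩
  rw [Bv_QS_pos (fun h => h0 (mem_of_mem_erase h)) hm (notMem_erase _ _), insert_erase hT, e, smul_smul,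
    ← mul_pow]
  simp

end QE

theorem Bv_QS_mem (h0 : 0 ∉ T) (hT : m ∈ T) : Bv m (QS T) = 0 := by
  have hm : m ≠ 0 := fun e => h0 (e ▸ hT)
  rw [QE.eq_erase h0 hT, map_smul, QE.self (by exact_mod_cast hm), smul_zero]

theorem Bv_QS_zero (h0 : 0 ∉ T) : Bv 0 (QS T) = (-1 : ℚ) ^ #T • QS T := by
  induction T using Finset.induction_on_max with
  | empty => rw [QS_empty, Bv_one, qz_zero]; simp
  | insert a U ha ih =>
    have hne : a ≠ 0 := fun h => h0 (h ▸ mem_insert_self _ _)
    rw [QS_insert_max ha, QE.anti (by omega), ih (fun h => h0 (mem_insert_of_mem h)), map_smul,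
      card_insert_of_notMem (fun k => lt_irrefl _ (ha a k)), pow_succ]
    simp

theorem Bv_QS_neg (h0 : 0 ∉ T) (hm : 0 < m) (hT : m ∉ T) : Bv (-m) (QS T) = 0 := by
  induction T using Finset.induction_on_max with
  | empty => rw [QS_empty, Bv_one, qz_neg (by omega)]
  | insert a U ha ih =>
    have hU : m ∉ U := fun h => hT (mem_insert_of_mem h)
    have hne : m ≠ a := fun h => hT (h ▸ mem_insert_self _ _)
    rw [QS_insert_max ha, QE.anti (by omega), ih (fun h => h0 (mem_insert_of_mem h)) hU, map_zero, neg_zero]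

theorem Bv_QS_neg_mem (h0 : 0 ∉ T) (hT : m ∈ T) :
    Bv (-m) (QS T) = (2 * (-1) ^ (m + #{b ∈ T | m < b}) : ℚ) • QS (T.erase m) := by
  have hm : 0 < m := Nat.pos_of_ne_zero fun e => h0 (e ▸ hT)
  have k := Bv_anti (-m) m (QS (T.erase m))
  rw [if_pos (by omega), Bv_QS_neg (fun h => h0 (mem_of_mem_erase h)) hm (notMem_erase _ _), map_zero,
    add_zero] at k
  have e : (-1 : ℚ) ^ (-(m : ℤ)) = (-1) ^ m := by
    rw [zpow_neg, zpow_natCast, ← inv_pow, inv_neg_one]
  rw [QE.eq_erase h0 hT, map_smul, k, smul_smul, e, pow_add]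
  congr 1
  ring

end Cfsg.Agent.SpC
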