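import Mathlib
import Cfsg.Agent.SpC.Defs
import Cfsg.Agent.SpC.QE

set_option autoImplicit false

namespace Cfsg.Agent.SpC

open Finset Equiv

namespace QJ

theorem lt_of_move {p a : ℕ} {S T : Finset ℕ} (h : Move p S T) (hS : ∀ b ∈ S, b < a) : ∀ b ∈ T, b < a := by
  intro c hc
  rcases h with ⟨b, hb, -, -, rfl⟩ | ⟨-, rfl⟩ | ⟨b, -, d, -, -, -, rfl⟩
  · rcases mem_insert.1 hc with rfl | hc
    · exact (Nat.sub_le _ _).trans_lt (hS b hb)
    · exact hS c (mem_of_mem_erase hc)
  · exact hS c (mem_of_mem_erase hc)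
  · exact hS c (mem_of_mem_erase (mem_of_mem_erase hc))

theorem move_insert {p a : ℕ} {S T : Finset ℕ} (h : Move p S T) (hS : ∀ b ∈ S, b < a) :
    Move p (insert a S) (insert a T) := by
  rcases h with ⟨b, hb, h1, h2, rfl⟩ | ⟨h1, rfl⟩ | ⟨b, hb, d, hd, h1, h2, rfl⟩
  · have := hS b hb
    refine Or.inl ⟨b, mem_insert_of_mem hb, h1, fun k => ?_, by
      rw [erase_insert_of_ne this.ne', insert_comm]⟩
    rcases mem_insert.1 k with k | k
    exacts [by omega, h2 k]
  · exact Or.inr (Or.inl ⟨mem_insert_of_mem h1, by rw [erase_insert_of_ne (hS p h1).ne']⟩)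
  · exact Or.inr (Or.inr ⟨b, mem_insert_of_mem hb, d, mem_insert_of_mem hd, h1, h2, by
      rw [erase_insert_of_ne (hS b hb).ne', erase_insert_of_ne (hS d hd).ne']⟩)

theorem lt_of_down {a b : ℕ} {S : Finset ℕ} (hS : ∀ c ∈ S, c < a) (hb : b ∈ S) : ∀ c ∈ down S b, c < a := by
  intro c hc
  unfold down at hc
  split_ifs at hc
  · exact hS c (mem_of_mem_erase hc)
  · rcases mem_insert.1 hc with rfl | hc
    · exact (Nat.sub_le _ _).trans_lt (hS b hb)
    · exact hS c (mem_of_mem_erase hc)

theorem down_insert {a b : ℕ} {S : Finset ℕ} (h : b < a) : down (insert a S) b = insert a (down S b) := by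
  unfold down
  split_ifs with h1
  · rw [erase_insert_of_ne (by omega)]
  · rw [erase_insert_of_ne h.ne', insert_comm]

end QJ

theorem Dr_QS_mem {p : ℕ} (hp : Odd p) {S : Finset ℕ} (h0 : 0 ∉ S) :
    Dr p (QS S) ∈ Submodule.span ℚ {f | ∃ T, 0 ∉ T ∧ Move p S T ∧ f = QS T} := by
  induction S using Finset.induction_on_max with
  | empty => rw [QS_empty, Dr_one]; exact zero_mem _
  | insert a S hS ih =>
    rw [mem_insert, not_or] at h0
    have hp0 := hp.pos
    have ha : a ∉ S := fun k => lt_irrefl _ (hS a k)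
    have he : (insert a S).erase a = S := erase_insert ha
    rw [QS_insert_max hS, Dr_Bv, if_pos hp]
    refine add_mem ?_ ?_
    · refine Submodule.mem_comap.1 (Submodule.span_le.2 ?_ (ih h0.2))
      rintro _ ⟨T, h1, h2, rfl⟩
      refine Submodule.subset_span ⟨insert a T, fun k => ?_, QJ.move_insert h2 hS,
        (QS_insert_max (QJ.lt_of_move h2 hS)).symm⟩
      exact (mem_insert.1 k).elim h0.1 h1
    rcases lt_trichotomy p a with h | rfl | h
    · rw [← Nat.cast_sub h.le]
      by_cases k : a - p ∈ S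
      · rw [Bv_QS_mem h0.2 k]; exact zero_mem _
      rw [Bv_QS_pos h0.2 (by omega) k]
      refine Submodule.smul_mem _ _ (Submodule.subset_span ⟨_, fun k => ?_, Or.inl ⟨a, mem_insert_self _ _, h,
        fun k' => ?_, by rw [he]⟩, rfl⟩)
      · exact (mem_insert.1 k).elim (by omega) h0.2
      · exact (mem_insert.1 k').elim (by omega) k
    · rw [sub_self, Bv_QS_zero h0.2]
      exact Submodule.smul_mem _ _ (Submodule.subset_span
        ⟨_, h0.2, Or.inr (Or.inl ⟨mem_insert_self _ _, he.symm⟩), rfl⟩)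
    · rw [← neg_sub, ← Nat.cast_sub h.le]
      by_cases k : p - a ∈ S
      · rw [Bv_QS_neg_mem h0.2 k]
        exact Submodule.smul_mem _ _ (Submodule.subset_span ⟨_, fun k => h0.2 (mem_of_mem_erase k),
          Or.inr (Or.inr ⟨a, mem_insert_self _ _, p - a, mem_insert_of_mem k, (hS _ k).ne', by omega,
            by rw [he]⟩), rfl⟩)
      · rw [Bv_QS_neg h0.2 (by omega) k]; exact zero_mem _

theorem Dr_one_QS {S : Finset ℕ} (h0 : 0 ∉ S) :
    Dr 1 (QS S) = ∑ a ∈ S with a - 1 ∉ S, QS (down S a) := by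
  induction S using Finset.induction_on_max with
  | empty => rw [QS_empty, Dr_one]; simp
  | insert a S hS ih =>
    rw [mem_insert, not_or] at h0
    have ha : a ∉ S := fun k => lt_irrefl _ (hS a k)
    have he : (insert a S).erase a = S := erase_insert ha
    rw [QS_insert_max hS, Dr_Bv, if_pos odd_one, ih h0.2, sum_filter, sum_filter, sum_insert ha, map_sum,
      add_comm]
    congr 1
    · rw [← Nat.cast_sub (by omega : 1 ≤ a)]
      have h1 : a - 1 ∉ insert a S ↔ a - 1 ∉ S := by
        rw [mem_insert, not_or]; exact and_iff_right (by omega)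
      by_cases k : a - 1 ∈ S
      · rw [if_neg (fun k' => h1.1 k' k), Bv_QS_mem h0.2 k]
      rw [if_pos (h1.2 k), down]
      split_ifs with h2
      · subst h2
        obtain rfl : S = ∅ := eq_empty_of_forall_notMem fun c hc =>
          h0.2 ((by have := hS c hc; omega : c = 0) ▸ hc)
        rw [he, QS_empty, Bv_one]
        exact qz_zero
      · rw [he, QS_insert_max fun c hc => ?_]
        have := hS c hc
        have : c ≠ a - 1 := fun e => k (e ▸ hc)
        omega
    · refine sum_congr rfl fun b hb => ?_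
      have := hS b hb
      have h1 : b - 1 ∉ insert a S ↔ b - 1 ∉ S := by
        rw [mem_insert, not_or]; exact and_iff_right (by omega)
      by_cases k : b - 1 ∈ S
      · rw [if_neg (fun k' => h1.1 k' k), if_neg (not_not.2 k), map_zero]
      · rw [if_pos (h1.2 k), if_pos k, QJ.down_insert this, QS_insert_max (QJ.lt_of_down hS hb)]

end Cfsg.Agent.SpC
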