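import Mathlib
import Cfsg.Agent.SpC.Defs

/-! Bar lengths divisible by `p` (S4578, piece QK). -/

set_option autoImplicit false

namespace Cfsg.Agent.SpC

open Finset Equiv

theorem Hn_pos (S : Finset ℕ) : 0 < Hn S := by
  refine prod_pos fun a _ => Nat.mul_pos (prod_pos fun k hk => ?_) (prod_pos fun b hb => ?_)
  · exact (mem_Icc.1 (mem_filter.1 hk).1).1
  · have := (mem_filter.1 hb).2
    omega

theorem QK.card_le {p : ℕ} (hp : p.Prime) (s : Finset ℕ) (f : ℕ → ℕ) (hf : ∀ x ∈ s, f x ≠ 0) :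
    #{x ∈ s | p ∣ f x} ≤ (∏ x ∈ s, f x).factorization p := by
  rw [Nat.factorization_prod hf, Finset.sum_apply', card_filter]
  refine sum_le_sum fun x hx => ?_
  split_ifs with h
  · exact hp.factorization_pos_of_dvd (hf x hx) h
  · exact Nat.zero_le _

theorem Nb_le {p : ℕ} (hp : p.Prime) (S : Finset ℕ) : Nb p S ≤ (Hn S).factorization p := by
  have h1 : ∀ a, ∀ k ∈ {k ∈ Icc 1 a | a - k ∉ S}, k ≠ 0 := fun a k hk => by
    have := (mem_Icc.1 (mem_filter.1 hk).1).1
    omega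
  have h2 : ∀ a, ∀ b ∈ {b ∈ S | b < a}, a + b ≠ 0 := fun a b hb => by
    have := (mem_filter.1 hb).2
    omega
  rw [Hn, Nat.factorization_prod fun a _ =>
    mul_ne_zero (prod_ne_zero_iff.2 (h1 a)) (prod_ne_zero_iff.2 (h2 a)), Finset.sum_apply', Nb]
  refine sum_le_sum fun a _ => ?_
  rw [Nat.factorization_mul (prod_ne_zero_iff.2 (h1 a)) (prod_ne_zero_iff.2 (h2 a)),
    Finsupp.add_apply, ← filter_filter, ← filter_filter]
  exact add_le_add (QK.card_le hp _ (fun k => k) (h1 a)) (QK.card_le hp _ (fun b => a + b) (h2 a))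

/-- The contribution of a pair of parts. -/
def QK.e (p a b : ℕ) : ℤ := (if p ∣ a + b then 1 else 0) - if a ≡ b [MOD p] then 1 else 0

theorem QK.e_comm (p a b : ℕ) : QK.e p a b = QK.e p b a := by
  simp only [QK.e, add_comm a b, Nat.ModEq.comm (a := a)]

theorem QK.gap (p a : ℕ) (S : Finset ℕ) :
    #{k ∈ Icc 1 a | a - k ∉ S ∧ p ∣ k} + #{b ∈ S | b < a ∧ a ≡ b [MOD p]} = a / p := by
  have h1 : #{b ∈ S | b < a ∧ a ≡ b [MOD p]} = #{k ∈ Icc 1 a | a - k ∈ S ∧ p ∣ k} := by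
    refine card_bij (fun b _ => a - b) (fun b hb => ?_) (fun b hb c hc e => ?_) fun k hk => ?_
    · obtain ⟨h1, h2, h3⟩ := mem_filter.1 hb
      refine mem_filter.2 ⟨mem_Icc.2 ⟨by omega, by omega⟩, ?_, (Nat.modEq_iff_dvd' h2.le).1 h3.symm⟩
      rwa [Nat.sub_sub_self h2.le]
    · have := (mem_filter.1 hb).2.1
      have := (mem_filter.1 hc).2.1
      omega
    · obtain ⟨h1, h2, h3⟩ := mem_filter.1 hk
      obtain ⟨h4, h5⟩ := mem_Icc.1 h1
      refine ⟨a - k, mem_filter.2 ⟨h2, by omega, ?_⟩, Nat.sub_sub_self h5⟩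
      refine ((Nat.modEq_iff_dvd' (Nat.sub_le a k)).2 ?_).symm
      rwa [Nat.sub_sub_self h5]
  rw [h1, ← Nat.Ioc_filter_dvd_card_eq_div, show Ioc 0 a = Icc 1 a from rfl,
    ← card_filter_add_card_filter_not (s := {k ∈ Icc 1 a | p ∣ k}) (fun k => a - k ∈ S),
    filter_filter, filter_filter, add_comm]
  simp only [and_comm]

theorem QK.closed (p : ℕ) (S : Finset ℕ) : (Nb p S : ℤ) =
    ∑ a ∈ S, ((a / p : ℕ) + ∑ b ∈ S, if b < a then QK.e p a b else 0) := by
  rw [Nb, Nat.cast_sum]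
  refine sum_congr rfl fun a _ => ?_
  rw [← QK.gap p a S]
  have : ∀ b, (if b < a then QK.e p a b else 0) = (if b < a ∧ p ∣ a + b then 1 else 0) -
      if b < a ∧ a ≡ b [MOD p] then 1 else 0 := fun b => by
    by_cases h : b < a <;> simp [h, QK.e]
  simp only [this, sum_sub_distrib, sum_boole]
  push_cast
  ring

theorem QK.ins (p : ℕ) {a : ℕ} {U : Finset ℕ} (ha : a ∉ U) :
    (Nb p (insert a U) : ℤ) = Nb p U + (a / p : ℕ) + ∑ b ∈ U, QK.e p a b := by
  rw [QK.closed, QK.closed, sum_insert ha, sum_insert ha, if_neg (lt_irrefl a)]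
  simp only [sum_insert ha, sum_add_distrib]
  have : ∑ b ∈ U, QK.e p a b = (∑ b ∈ U, if b < a then QK.e p a b else 0) +
      ∑ b ∈ U, if a < b then QK.e p b a else 0 := by
    rw [← sum_add_distrib]
    refine sum_congr rfl fun b hb => ?_
    rcases lt_trichotomy a b with h | rfl | h
    · rw [if_neg h.not_gt, if_pos h, zero_add, QK.e_comm]
    · exact absurd hb ha
    · rw [if_pos h, if_neg h.not_gt, add_zero]
  rw [this]
  ring

theorem QK.e_add (p a b : ℕ) : QK.e p (a + p) b = QK.e p a b := by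
  have h1 : p ∣ a + p + b ↔ p ∣ a + b := by
    rw [add_right_comm]; exact (Nat.dvd_add_iff_left (dvd_refl p)).symm
  have h2 : a + p ≡ b [MOD p] ↔ a ≡ b [MOD p] := by simp [Nat.ModEq]
  simp only [QK.e, h1, h2]

theorem QK.dvd_iff {p a b : ℕ} (h : a + b = p) (c : ℕ) : p ∣ a + c ↔ b ≡ c [MOD p] := by
  rw [← Nat.modEq_zero_iff_dvd]
  have h0 : a + b ≡ 0 [MOD p] := by rw [h]; simp [Nat.ModEq]
  exact ⟨fun h1 => Nat.ModEq.add_left_cancel' a (h0.trans h1.symm),
    fun h1 => (h1.add_left a).symm.trans h0⟩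

theorem Nb_move {p : ℕ} (hp : Odd p) {S T : Finset ℕ} (h0 : 0 ∉ S) (h : Move p S T) :
    Nb p T + 1 ≤ Nb p S := by
  have p0 : 0 < p := hp.pos
  zify
  rcases h with ⟨a, ha, h1, h2, rfl⟩ | ⟨ha, rfl⟩ | ⟨a, ha, b, hb, hab, h1, rfl⟩
  · obtain ⟨c, rfl⟩ : ∃ c, a = c + p := ⟨a - p, by omega⟩
    rw [Nat.add_sub_cancel] at h2 ⊢
    conv_rhs => rw [← insert_erase ha]
    rw [QK.ins p (notMem_erase _ _), QK.ins p fun h => h2 (mem_of_mem_erase h),
      Nat.add_div_right c p0]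
    simp only [QK.e_add]
    push_cast
    linarith
  · conv_rhs => rw [← insert_erase ha]
    rw [QK.ins p (notMem_erase _ _), Nat.div_self p0, sum_eq_zero fun b _ => ?_]
    · simp
    · have := QK.e_add p 0 b
      rw [zero_add] at this
      rw [this]
      simp [QK.e, Nat.ModEq.comm (a := 0), Nat.modEq_zero_iff_dvd]
  · have hb' : b ∈ S.erase a := mem_erase.2 ⟨hab.symm, hb⟩
    have a0 : a ≠ 0 := fun e => h0 (e ▸ ha)
    have b0 : b ≠ 0 := fun e => h0 (e ▸ hb)
    conv_rhs => rw [← insert_erase ha]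
    rw [QK.ins p (notMem_erase _ _)]
    conv_rhs => rw [← insert_erase hb']
    rw [QK.ins p (notMem_erase _ _), sum_insert (notMem_erase _ _)]
    have e1 : QK.e p a b = 1 := by
      have : ¬ a ≡ b [MOD p] := fun h => hab (h.eq_of_lt_of_lt (by omega) (by omega))
      simp [QK.e, h1, this]
    have e2 : ∑ c ∈ (S.erase a).erase b, QK.e p b c + ∑ c ∈ (S.erase a).erase b, QK.e p a c = 0 := by
      rw [← sum_add_distrib]
      refine sum_eq_zero fun c _ => ?_
      simp only [QK.e, QK.dvd_iff h1, QK.dvd_iff ((add_comm b a).trans h1)]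
      ring
    have := Int.natCast_nonneg (a / p)
    have := Int.natCast_nonneg (b / p)
    linarith

end Cfsg.Agent.SpC
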