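import Mathlib
import Cfsg.Agent.SpC.Defs

set_option autoImplicit false

namespace Cfsg.Agent.SpC

open Finset Equiv

namespace QL1

theorem row_nat (c : ℕ) (S : Finset ℕ) :
    (∏ k ∈ Icc 1 c with c - k ∉ S, k) * ∏ b ∈ S with b < c, (c - b) = c.factorial := by
  have h : ∏ b ∈ S with b < c, (c - b) = ∏ k ∈ Icc 1 c with ¬ (c - k ∉ S), k := by
    refine prod_nbij' (fun b => c - b) (fun k => c - k) ?_ ?_ ?_ ?_ ?_
    · intro b hb
      simp only [mem_filter, mem_Icc, not_not] at hb ⊢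
      refine ⟨⟨by omega, by omega⟩, ?_⟩
      rw [show c - (c - b) = b by omega]
      exact hb.1
    · intro k hk
      simp only [mem_filter, mem_Icc, not_not] at hk ⊢
      exact ⟨hk.2, by omega⟩
    · intro b hb
      simp only [mem_filter] at hb
      show c - (c - b) = b
      omega
    · intro k hk
      simp only [mem_filter, mem_Icc] at hk
      show c - (c - k) = k
      omega
    · intro b _
      rfl
  rw [h, prod_filter_mul_prod_filter_not, ← Finset.prod_Ico_id_eq_factorial]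
  rfl

theorem row (c : ℕ) (S : Finset ℕ) :
    (((∏ k ∈ Icc 1 c with c - k ∉ S, k) * ∏ b ∈ S with b < c, (c + b) : ℕ) : ℚ) =
      c.factorial * ∏ b ∈ S, if b < c then ((c : ℚ) + b) / ((c : ℚ) - b) else 1 := by
  rw [← row_nat c S, ← prod_filter, Nat.cast_mul, Nat.cast_mul, mul_assoc, Nat.cast_prod (fun b => c + b),
    Nat.cast_prod (fun b => c - b), ← prod_mul_distrib]
  congr 1
  refine prod_congr rfl fun b hb => ?_
  have h := (mem_filter.1 hb).2
  have h' : (c : ℚ) - b ≠ 0 := sub_ne_zero.2 (Nat.cast_injective.ne h.ne')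
  rw [Nat.cast_sub h.le, Nat.cast_add, mul_div_cancel₀ _ h']

theorem Hn_eq (S : Finset ℕ) :
    (Hn S : ℚ) = ∏ c ∈ S, ((c.factorial : ℚ) * ∏ b ∈ S, if b < c then ((c : ℚ) + b) / ((c : ℚ) - b) else 1) := by
  rw [Hn, Nat.cast_prod]
  exact prod_congr rfl fun c _ => row c S

end QL1

theorem Hn_insert {a : ℕ} {U : Finset ℕ} (ha : 0 < a) (hU : a ∉ U) (h0 : 0 ∉ U) :
    (Hn (insert a U) : ℚ) =
      Hn U * a.factorial * ∏ b ∈ U, ((a : ℚ) + b) / |(a : ℚ) - b| := by
  have _ := ha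
  have _ := h0
  rw [QL1.Hn_eq, QL1.Hn_eq, prod_insert hU, prod_insert hU, if_neg (lt_irrefl a), one_mul]
  simp only [prod_insert hU]
  rw [mul_assoc, mul_assoc, mul_left_comm _ (a.factorial : ℚ), ← prod_mul_distrib, ← prod_mul_distrib]
  congr 1
  refine prod_congr rfl fun b hb => ?_
  have hne : b ≠ a := fun e => hU (e ▸ hb)
  rcases lt_or_gt_of_ne hne with h | h
  · have h' : (0 : ℚ) < (a : ℚ) - b := sub_pos.2 (Nat.cast_lt.2 h)
    rw [if_pos h, if_neg h.not_gt, abs_of_pos h']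
    ring
  · have h' : (a : ℚ) - b < 0 := sub_neg.2 (Nat.cast_lt.2 h)
    rw [if_neg h.not_gt, if_pos h, abs_of_neg h', neg_sub]
    ring

end Cfsg.Agent.SpC
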