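import Mathlib
import Cfsg.Agent.SpC.Defs

/-! The Lagrange identity (PLAN: QL2). -/

set_option autoImplicit false

namespace Cfsg.Agent.SpC

open Finset Equiv

theorem QL2.deg (S : Finset ℕ) (x : ℕ → ℚ) :
    (∏ b ∈ S, (Polynomial.X - Polynomial.C (x b))).degree = ((#S : ℕ) : WithBot ℕ) := by
  simp [Polynomial.degree_prod]

open Polynomial in
theorem lagr {S : Finset ℕ} (h0 : 0 ∉ S) :
    ∑ a ∈ S, (a : ℚ) * ∏ b ∈ S.erase a,
      ((a : ℚ) + b) * ((a : ℚ) - 1 - b) / (((a : ℚ) - b) * ((a : ℚ) - 1 + b)) =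
      ∑ a ∈ S, (a : ℚ) := by
  rcases S.eq_empty_or_nonempty with rfl | hS
  · simp
  have inj : Set.InjOn (fun a : ℕ => (a : ℚ) * (a - 1)) S := fun a ha b hb h => by
    have a1 : (1 : ℚ) ≤ a := by exact_mod_cast Nat.pos_of_ne_zero fun e => h0 (e ▸ ha)
    have b1 : (1 : ℚ) ≤ b := by exact_mod_cast Nat.pos_of_ne_zero fun e => h0 (e ▸ hb)
    have : ((a : ℚ) - b) * (a + b - 1) = 0 := by linear_combination h
    exact_mod_cast sub_eq_zero.1 ((mul_eq_zero.1 this).resolve_right (by linarith))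
  have m := fun x : ℕ → ℚ => monic_prod_of_monic S (fun b => X - C (x b)) fun b _ => monic_X_sub_C _
  have := Lagrange.coeff_eq_sum inj (P := ∏ b ∈ S, (X - C ((b : ℚ) * (b + 1))) - ∏ b ∈ S, (X - C ((b : ℚ) * (b - 1))))
    ((degree_sub_lt_left (by rw [QL2.deg, QL2.deg]) (m _).ne_zero (by rw [(m _).leadingCoeff, (m _).leadingCoeff])).trans_eq
      (QL2.deg ..))
  rw [coeff_sub, prod_X_sub_C_coeff_card_pred _ _ hS.card_pos, prod_X_sub_C_coeff_card_pred _ _ hS.card_pos,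
    neg_sub_neg, ← sum_sub_distrib] at this
  refine mul_left_cancel₀ (a := -2) (by norm_num) ?_
  rw [mul_sum, mul_sum, sum_congr rfl fun (a : ℕ) _ => show (-2 : ℚ) * a = a * (a - 1) - a * (a + 1) by ring, this]
  refine sum_congr rfl fun a ha => ?_
  simp only [eval_sub, eval_prod, eval_X, eval_C]
  rw [prod_eq_zero (f := fun b : ℕ => (a : ℚ) * (a - 1) - b * (b - 1)) ha (sub_self _), sub_zero,
    ← mul_prod_erase S _ ha, mul_div_assoc, ← prod_div_distrib, ← mul_assoc]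
  congr 1
  · ring
  · exact prod_congr rfl fun b _ => by congr 1 <;> ring

end Cfsg.Agent.SpC
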