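import Mathlib
import Cfsg.Agent.SpC.Defs
import Cfsg.Agent.SpC.QK
import Cfsg.Agent.SpC.QL1
import Cfsg.Agent.SpC.QL2

set_option autoImplicit false

namespace Cfsg.Agent.SpC

open Finset Equiv

namespace QL3

theorem factor {c b : ℕ} (h1 : b ≠ c) (h2 : b ≠ c + 1) (hb : b ≠ 0) :
    ((c : ℚ) + b) / |(c : ℚ) - b| * ((((c + 1 : ℕ) : ℚ) + b) * (((c + 1 : ℕ) : ℚ) - 1 - b) /
      ((((c + 1 : ℕ) : ℚ) - b) * (((c + 1 : ℕ) : ℚ) - 1 + b))) =
      (((c + 1 : ℕ) : ℚ) + b) / |((c + 1 : ℕ) : ℚ) - b| := by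
  have hb' : (0 : ℚ) < b := by exact_mod_cast Nat.pos_of_ne_zero hb
  have hc : (0 : ℚ) ≤ c := Nat.cast_nonneg c
  have hs : (c : ℚ) + b ≠ 0 := by positivity
  push_cast
  rw [add_sub_cancel_right]
  rcases lt_or_gt_of_ne h1 with h | h
  · have k : (b : ℚ) < c := by exact_mod_cast h
    have k1 : (0 : ℚ) < c - b := by linarith
    have k2 : (0 : ℚ) < c + 1 - b := by linarith
    rw [abs_of_pos k1, abs_of_pos k2]
    field_simp
  · have k : (c : ℚ) + 1 < b := by exact_mod_cast (by omega : c + 1 < b)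
    have k1 : (c : ℚ) - b < 0 := by linarith
    have k2 : (c : ℚ) + 1 - b < 0 := by linarith
    rw [abs_of_neg k1, abs_of_neg k2]
    have := k1.ne
    have := k2.ne
    field_simp

theorem ratio {S : Finset ℕ} (h0 : 0 ∉ S) {a : ℕ} (ha : a ∈ S) (h1 : a - 1 ∉ S) :
    (Hn (down S a) : ℚ) * ((a : ℚ) * ∏ b ∈ S.erase a,
      ((a : ℚ) + b) * ((a : ℚ) - 1 - b) / (((a : ℚ) - b) * ((a : ℚ) - 1 + b))) = Hn S := by
  have hU : 0 ∉ S.erase a := fun h => h0 (mem_of_mem_erase h)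
  obtain ⟨c, rfl⟩ : ∃ c, a = c + 1 := Nat.exists_eq_succ_of_ne_zero fun e => h0 (e ▸ ha)
  rw [Nat.add_sub_cancel] at h1
  have e := Hn_insert (Nat.succ_pos c) (notMem_erase (c + 1) S) hU
  rw [insert_erase ha] at e
  have hd : (Hn (down S (c + 1)) : ℚ) =
      Hn (S.erase (c + 1)) * c.factorial * ∏ b ∈ S.erase (c + 1), ((c : ℚ) + b) / |(c : ℚ) - b| := by
    rcases Nat.eq_zero_or_pos c with rfl | hc
    · rw [down, if_pos rfl, prod_eq_one]
      · simp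
      · intro b hb
        have hb' : (0 : ℚ) < b := by exact_mod_cast Nat.pos_of_ne_zero (by rintro rfl; exact hU hb)
        simp [hb'.ne']
    · rw [down, if_neg (by omega), Nat.add_sub_cancel]
      exact Hn_insert hc (fun h => h1 (mem_of_mem_erase h)) hU
  rw [hd, e, ← prod_congr rfl fun b (hb : b ∈ S.erase (c + 1)) =>
    factor (c := c) (b := b) (fun k => h1 (k ▸ mem_of_mem_erase hb)) (ne_of_mem_erase hb) fun k => hU (k ▸ hb),
    prod_mul_distrib, Nat.factorial_succ, Nat.cast_mul]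
  ring

end QL3

theorem deg_id {S : Finset ℕ} (h0 : 0 ∉ S) :
    ∑ a ∈ S with a - 1 ∉ S, (Hn (down S a) : ℚ)⁻¹ = ((∑ a ∈ S, a : ℕ) : ℚ) / Hn S := by
  have hS : (Hn S : ℚ) ≠ 0 := by exact_mod_cast (Hn_pos S).ne'
  rw [Nat.cast_sum, ← lagr h0, sum_div, sum_filter]
  refine sum_congr rfl fun a ha => ?_
  split_ifs with h1
  · have hp : 0 < a := Nat.pos_of_ne_zero fun e => h0 (e ▸ ha)
    rw [prod_eq_zero (i := a - 1) (mem_erase.2 ⟨by omega, h1⟩), mul_zero, zero_div]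
    rw [Nat.cast_sub hp, Nat.cast_one, sub_self, mul_zero, zero_div]
  · have hd : (Hn (down S a) : ℚ) ≠ 0 := by exact_mod_cast (Hn_pos _).ne'
    rw [eq_div_iff hS, inv_mul_eq_iff_eq_mul₀ hd, QL3.ratio h0 ha h1]

end Cfsg.Agent.SpC
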