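import Mathlib
import Cfsg.Agent.SpC.Defs
import Cfsg.Agent.SpC.QJ
import Cfsg.Agent.SpC.QK
import Cfsg.Agent.SpC.QL3

set_option autoImplicit false

namespace Cfsg.Agent.SpC

open Finset Equiv

theorem QM.down_mem {n a : ℕ} {S : Finset ℕ} (hS : S ∈ strict (n + 1)) (ha : a ∈ S) (ha' : a - 1 ∉ S) :
    down S a ∈ strict n := by
  obtain ⟨h0, hs⟩ := mem_strict.1 hS
  have e := Finset.add_sum_erase S (fun a => a) ha
  have a0 : a ≠ 0 := fun k => h0 (k ▸ ha)
  rw [mem_strict, down]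
  split_ifs with h
  · subst h
    exact ⟨fun k => h0 (mem_of_mem_erase k), by omega⟩
  · refine ⟨fun k => ?_, ?_⟩
    · rcases mem_insert.1 k with k | k
      · omega
      · exact h0 (mem_of_mem_erase k)
    · rw [sum_insert fun k => ha' (mem_of_mem_erase k)]
      omega

theorem ev_one_QS {n : ℕ} {S : Finset ℕ} (hS : S ∈ strict n) :
    ev (Multiset.replicate n 1) (QS S) * Hn S = n.factorial := by
  induction n generalizing S with
  | zero =>
    obtain ⟨h0, hs⟩ := mem_strict.1 hS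
    have : S = ∅ := eq_empty_of_forall_notMem fun a ha => h0 ((sum_eq_zero_iff.1 hs a ha : a = 0) ▸ ha)
    subst this
    simp [QS_empty, ev_zero, Hn]
  | succ n ih =>
    obtain ⟨h0, hs⟩ := mem_strict.1 hS
    have hp : ∀ T, (Hn T : ℚ) ≠ 0 := fun T => Nat.cast_ne_zero.2 (Hn_pos T).ne'
    rw [Multiset.replicate_succ, ev_cons, Dr_one_QS h0, map_sum,
      sum_congr rfl (g := fun a => (n.factorial : ℚ) * (Hn (down S a) : ℚ)⁻¹) fun a ha => by
        rw [← ih (QM.down_mem hS (mem_filter.1 ha).1 (mem_filter.1 ha).2), mul_inv_cancel_right₀ (hp _)],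
      ← mul_sum, deg_id h0, hs, Nat.factorial_succ, mul_assoc, div_mul_cancel₀ _ (hp S)]
    push_cast
    ring

theorem QM.le_Nb {p : ℕ} (ho : Odd p) {w : ℕ} {ρ : Multiset ℕ} {S : Finset ℕ} (h0 : 0 ∉ S)
    (h : ev (Multiset.replicate w p + ρ) (QS S) ≠ 0) : w ≤ Nb p S := by
  induction w generalizing S with
  | zero => exact Nat.zero_le _
  | succ w ih =>
    rw [Multiset.replicate_succ, Multiset.cons_add, ev_cons] at h
    by_contra k
    refine h (LinearMap.mem_ker.1 ((Submodule.span_le (p := LinearMap.ker _)).2 ?_ (Dr_QS_mem ho h0)))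
    rintro _ ⟨T, hT, hm, rfl⟩
    by_contra k'
    have := ih hT k'
    have := Nb_move ho h0 hm
    omega

theorem le_factorization_Hn {p : ℕ} (hp : p.Prime) (ho : Odd p) {S : Finset ℕ} (h0 : 0 ∉ S)
    {w : ℕ} {ρ : Multiset ℕ} (h : ev (Multiset.replicate w p + ρ) (QS S) ≠ 0) :
    w ≤ (Hn S).factorization p := (QM.le_Nb ho h0 h).trans (Nb_le hp S)

end Cfsg.Agent.SpC
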