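import Mathlib
import Cfsg.Agent.SpC.Defs
import Cfsg.Agent.SpC.QS1

set_option autoImplicit false

namespace Cfsg.Agent.SpC

open Finset Equiv

namespace QG

theorem mul_mem {l n l' n' : ℕ} {f g : Gam} (hf : f ∈ Lam l n) (hg : g ∈ Lam l' n') :
    f * g ∈ Lam (l + l') (n + n') := by
  induction hf using Submodule.span_induction with
  | zero => rw [zero_mul]; exact zero_mem _
  | add x y _ _ hx hy => rw [add_mul]; exact add_mem hx hy
  | smul a x _ hx => rw [smul_mul_assoc]; exact Submodule.smul_mem _ a hx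
  | mem x hx =>
    induction hg using Submodule.span_induction with
    | zero => rw [mul_zero]; exact zero_mem _
    | add x y _ _ hx hy => rw [mul_add]; exact add_mem hx hy
    | smul a x _ hx => rw [mul_smul_comm]; exact Submodule.smul_mem _ a hx
    | mem y hy =>
      obtain ⟨μ, h0, hc, hs, rfl⟩ := hx
      obtain ⟨ν, h0', hc', hs', rfl⟩ := hy
      refine Submodule.subset_span ⟨μ + ν, by simp [h0, h0'], by simpa using Nat.add_le_add hc hc',
        by rw [Multiset.sum_add, hs, hs'], ?_⟩
      rw [Multiset.card_add, Multiset.map_add, Multiset.prod_add,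
        show l + l' - (Multiset.card μ + Multiset.card ν) = l - Multiset.card μ + (l' - Multiset.card ν) by omega,
        pow_add]
      ring

theorem one_mem : (1 : Gam) ∈ Lam 0 0 := Submodule.subset_span ⟨0, by simp, by simp, by simp, by simp⟩

theorem two_mem : (2 : Gam) ∈ Lam 1 0 := Submodule.subset_span ⟨0, by simp, by simp, by simp, by simp⟩

theorem q_mem {m : ℕ} (h : 0 < m) : q m ∈ Lam 1 m :=
  Submodule.subset_span ⟨{m}, by simpa using h.ne, by simp, by simp, by simp⟩

theorem two_q_mem (m : ℕ) : (2 : ℤ) • q m ∈ Lam 1 m := by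
  rcases Nat.eq_zero_or_pos m with rfl | h
  · rw [q_zero, two_smul, one_add_one_eq_two]; exact two_mem
  · exact Submodule.smul_mem _ _ (q_mem h)

/-- The coefficients of `F` are graded. -/
def P (l n : ℕ) (F : Polynomial Gam) : Prop :=
  ∀ k, (k ≤ n → F.coeff k ∈ Lam l (n - k)) ∧ (n < k → F.coeff k = 0)

theorem P.mul {l n l' n' : ℕ} {F F' : Polynomial Gam} (h : P l n F) (h' : P l' n' F') :
    P (l + l') (n + n') (F * F') := fun k => by
  rw [Polynomial.coeff_mul]
  refine ⟨fun hk => Submodule.sum_mem _ fun x hx => ?_, fun hk => sum_eq_zero fun x hx => ?_⟩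
  · have e := mem_antidiagonal.1 hx
    rcases le_or_gt x.1 n with a | a
    · rcases le_or_gt x.2 n' with b | b
      · rw [show n + n' - k = n - x.1 + (n' - x.2) by omega]
        exact mul_mem ((h _).1 a) ((h' _).1 b)
      · rw [(h' _).2 b, mul_zero]; exact zero_mem _
    · rw [(h _).2 a, zero_mul]; exact zero_mem _
  · have e := mem_antidiagonal.1 hx
    rcases le_or_gt x.1 n with a | a
    · rw [(h' _).2 (by omega), mul_zero]
    · rw [(h _).2 a, zero_mul]

theorem P_C {l : ℕ} {f : Gam} (h : f ∈ Lam l 0) : P l 0 (Polynomial.C f) := fun k => by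
  rw [Polynomial.coeff_C]
  exact ⟨fun hk => by rw [if_pos (by omega), Nat.zero_sub]; exact h, fun hk => if_neg (by omega)⟩

theorem P_two_pow (j : ℕ) : P j 0 (2 ^ j) := by
  induction j with
  | zero => simpa using P_C one_mem
  | succ j ih => simpa [pow_succ, map_ofNat] using ih.mul (P_C two_mem)

theorem P_q {m : ℕ} (h : 0 < m) : P 1 m (Sh (q m)) := fun k => by
  rw [← qz_natCast, coeff_Sh_qz]
  refine ⟨fun hk => ?_, fun hk => ?_⟩
  · rw [← Nat.cast_sub hk, qz_natCast]
    split_ifs with h0
    · subst h0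
      simpa using q_mem h
    · have := Submodule.smul_mem _ ((-1 : ℤ) ^ k) (two_q_mem (m - k))
      convert this using 1
      rw [smul_smul, ← Int.cast_smul_eq_zsmul ℚ]
      push_cast
      rw [mul_comm]
  · rw [qz_neg (by omega), smul_zero]

theorem P_prod {μ : Multiset ℕ} (h : 0 ∉ μ) : P (Multiset.card μ) μ.sum (Sh (μ.map q).prod) := by
  induction μ using Multiset.induction_on with
  | empty => simpa using P_C one_mem
  | cons a μ ih =>
    rw [Multiset.mem_cons, not_or] at h
    rw [Multiset.map_cons, Multiset.prod_cons, map_mul, Multiset.card_cons, Multiset.sum_cons, add_comm _ 1]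
    exact (P_q (Nat.pos_of_ne_zero fun e => h.1 e.symm)).mul (ih h.2)

theorem P_Sh {l n : ℕ} {f : Gam} (hf : f ∈ Lam l n) : P l n (Sh f) := by
  induction hf using Submodule.span_induction with
  | zero => intro k; simp
  | add x y _ _ hx hy =>
    intro k
    rw [map_add, Polynomial.coeff_add]
    exact ⟨fun hk => add_mem ((hx k).1 hk) ((hy k).1 hk), fun hk => by rw [(hx k).2 hk, (hy k).2 hk, add_zero]⟩
  | smul a x _ hx =>
    intro k
    rw [map_zsmul, Polynomial.coeff_smul]
    exact ⟨fun hk => Submodule.smul_mem _ a ((hx k).1 hk), fun hk => by rw [(hx k).2 hk, smul_zero]⟩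
  | mem x hx =>
    obtain ⟨μ, h0, hc, rfl, rfl⟩ := hx
    have := (P_two_pow (l - Multiset.card μ)).mul (P_prod h0)
    rw [Nat.sub_add_cancel hc, zero_add] at this
    rwa [map_mul, map_pow, map_ofNat]

theorem Bv_mem {l n m : ℕ} (hm : 0 < m) {f : Gam} (hf : f ∈ Lam l n) : Bv m f ∈ Lam (l + 1) (m + n) := by
  rw [Bv_eq_sum m f (Nat.lt_succ_self _)]
  refine Submodule.sum_mem _ fun k _ => ?_
  rcases le_or_gt k n with a | a
  · rw [← Nat.cast_add, qz_natCast, add_comm l, show m + n = m + k + (n - k) by omega]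
    exact mul_mem (q_mem (by omega)) ((P_Sh hf k).1 a)
  · rw [(P_Sh hf k).2 a, mul_zero]; exact zero_mem _

end QG

theorem QS_mem_Lam {S : Finset ℕ} (hS : 0 ∉ S) : QS S ∈ Lam #S (∑ a ∈ S, a) := by
  induction S using Finset.induction_on_max with
  | empty => rw [QS_empty]; exact QG.one_mem
  | insert a T h ih =>
    have ha : a ∉ T := fun e => lt_irrefl _ (h a e)
    rw [mem_insert, not_or] at hS
    rw [QS_insert_max h, card_insert_of_notMem ha, sum_insert ha]
    exact QG.Bv_mem (Nat.pos_of_ne_zero fun e => hS.1 e.symm) (ih hS.2)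

end Cfsg.Agent.SpC
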