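import Mathlib
import Cfsg.Agent.SpC.Defs
import Cfsg.Agent.SpC.QA

/-! The values of the products of the `q_m` are the permutation characters. -/

set_option autoImplicit false

namespace Cfsg.Agent.SpC

open Finset Equiv

theorem QH.Dr_prod {ι : Type*} [DecidableEq ι] (r : ℕ) (s : Finset ι) (f : ι → Gam) :
    Dr r (∏ i ∈ s, f i) = ∑ i ∈ s, Dr r (f i) * ∏ j ∈ s.erase i, f j := by
  induction s using Finset.induction_on with
  | empty => simp [Dr_one]
  | insert a s ha ih =>
    rw [prod_insert ha, sum_insert ha, Dr_mul, ih, erase_insert ha, mul_sum]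
    congr 1
    refine sum_congr rfl fun i hi => ?_
    have hne : a ≠ i := fun e => ha (e ▸ hi)
    rw [erase_insert_of_ne hne, prod_insert fun h => ha (mem_of_mem_erase h)]
    ring

theorem ev_prod_qz {ι : Type*} [Fintype ι] [DecidableEq ι] {ρ : Multiset ℕ}
    (hρ : ∀ r ∈ ρ, Odd r) (μ : ι → ℤ) :
    ev ρ (∏ i, qz (μ i)) = SnCh.pw ρ (Pi.single 0 1) μ := by
  induction ρ using Multiset.induction_on generalizing μ with
  | empty =>
    rw [ev_zero, map_prod, SnCh.pw_zero]
    simp only [constantCoeff_qz]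
    by_cases h : μ = 0
    · simp [h]
    · rw [Pi.single_eq_of_ne h]
      obtain ⟨i, hi⟩ := Function.ne_iff.1 h
      exact prod_eq_zero (mem_univ i) (if_neg hi)
  | cons r ρ ih =>
    rw [ev_cons, SnCh.pw_cons, SnCh.U_apply, QH.Dr_prod, map_sum]
    refine sum_congr rfl fun i _ => ?_
    rw [← ih fun s hs => hρ s (Multiset.mem_cons_of_mem hs), Dr_qz,
      if_pos (hρ r (Multiset.mem_cons_self _ _)), ← mul_prod_erase _ _ (mem_univ i)]
    congr 2
    · simp [SnCh.ee]
    · exact prod_congr rfl fun j hj => by simp [SnCh.ee, ne_of_mem_erase hj]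

theorem ev_prod_fx {α ι : Type*} [Fintype α] [DecidableEq α] [Fintype ι] [DecidableEq ι]
    {σ : Perm α} (hσ : OddType σ) (μ : ι → ℤ) :
    ev σ.partition.parts (∏ i, qz (μ i)) = fx μ σ := by
  rw [ev_prod_qz hσ, SnCh.pw_partition_single, sub_zero, fx]

end Cfsg.Agent.SpC
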