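import Mathlib
import Cfsg.Agent.SpC.Defs
import Cfsg.Agent.SpC.CC
import Cfsg.Agent.SpC.QG
import Cfsg.Agent.SpC.QH
import Cfsg.Agent.Ch.Decomp

set_option autoImplicit false

namespace Cfsg.Agent.SpC

open Finset Equiv

open scoped ComplexConjugate

variable {α : Type*} [Fintype α] [DecidableEq α] {G : Type*} [Group G] {π : G →* Perm α} {z : G}
  {T : G → ℂ} {S : Finset ℕ}

theorem SA.zero (h : Tr π z T) {g : G} (hg : ¬ OddType (π g)) : T g = 0 := by
  have := h.sq g
  rw [if_neg hg] at this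
  exact pow_eq_zero_iff two_ne_zero |>.1 this

theorem Tr.conj_T (h : Tr π z T) (g : G) : conj (T g) = T g := by
  by_cases hg : OddType (π g)
  · have h1 := h.sq g
    rw [if_pos hg] at h1
    set k := Fintype.card α + Multiset.card (π g).partition.parts
    have h2 : ((Real.sqrt (2 ^ k) : ℝ) : ℂ) ^ 2 = 2 ^ k := by
      rw [← Complex.ofReal_pow, Real.sq_sqrt (by positivity)]
      push_cast
      rfl
    rcases sq_eq_sq_iff_eq_or_eq_neg.1 (h1.trans h2.symm) with e | e <;> rw [e]
    · exact Complex.conj_ofReal _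
    · rw [map_neg, Complex.conj_ofReal]
  · rw [SA.zero h hg, map_zero]

theorem Tr.conj_xi (h : Tr π z T) (S : Finset ℕ) (g : G) : conj (xi π T S g) = xi π T S g := by
  rw [xi, map_div₀, map_mul, h.conj_T, map_ratCast, map_pow, map_ofNat]

theorem Tr.xi_cls (h : Tr π z T) (S : Finset ℕ) : IsClassFunction G (xi π T S) := fun g k => by
  have e : (π (k * g * k⁻¹)).partition.parts = (π g).partition.parts := by
    rw [Perm.partition_eq_of_isConj.1 (isConj_iff.2 ⟨π k, by simp⟩ : IsConj (π g) (π (k * g * k⁻¹)))]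
  rw [xi, xi, h.cls g k, e]

theorem Tr.xi_off (h : Tr π z T) (S : Finset ℕ) {g : G} (hg : g ∉ Alt π) : xi π T S g = 0 := by
  rw [xi, SA.zero h fun ho => hg (Subgroup.mem_comap.2 (Perm.mem_alternatingGroup.2 ho.sign)), zero_mul,
    zero_div]

theorem SA.gen {H : Type*} [Group H] (h : Tr π z T) (ι : H → G) (e : ℕ → ℕ) {l : ℕ}
    (he : ∀ l' ≤ l, e l ≤ l - l' + e l')
    (hint : ∀ (l' : ℕ) (μ : Fin l' → ℤ), (∀ i, 0 < μ i) →
      IsCharacter H fun g => fx μ (π (ι g)) * T (ι g) / 2 ^ e l')
    {n : ℕ} {f : Gam} (hf : f ∈ Lam l n) :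
    IsGeneralizedCharacter H fun g => T (ι g) * (ev (π (ι g)).partition.parts f : ℚ) / 2 ^ e l := by
  induction hf using Submodule.span_induction with
  | mem f hf =>
    obtain ⟨μ, h0, hl, -, rfl⟩ := hf
    obtain ⟨L, rfl⟩ : ∃ L : List ℕ, μ = L := ⟨μ.toList, μ.coe_toList.symm⟩
    rw [Multiset.coe_card] at hl ⊢
    have hp : ((L : Multiset ℕ).map q).prod = ∏ i : Fin L.length, qz (L.get i : ℕ) := by
      rw [Multiset.map_coe, Multiset.prod_coe, ← List.prod_ofFn]
      congr 1
      conv_lhs => rw [← List.ofFn_get L, List.map_ofFn]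
      exact congrArg List.ofFn (funext fun i => (qz_natCast _).symm)
    obtain ⟨j, hj⟩ := Nat.exists_eq_add_of_le (he _ hl)
    have h1 := ((hint L.length (fun i => (L.get i : ℕ)) fun i => Int.natCast_pos.2 (Nat.pos_of_ne_zero
      fun e0 => h0 (Multiset.mem_coe.2 (e0 ▸ List.get_mem L i)))).isGeneralizedCharacter).natCast_smul (2 ^ j)
    convert h1 using 1
    funext g
    rw [Pi.smul_apply, smul_eq_mul, hp]
    by_cases ho : OddType (π (ι g))
    · have h2 : (2 : Gam) ^ (l - L.length) * ∏ i : Fin L.length, qz (L.get i : ℕ) =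
          ((2 : ℚ) ^ (l - L.length)) • ∏ i : Fin L.length, qz (L.get i : ℕ) := by
        rw [Algebra.smul_def, map_pow, map_ofNat]
      rw [h2, map_smul, ev_prod_fx ho, smul_eq_mul]
      have h3 : (2 : ℂ) ^ (l - L.length) * 2 ^ e L.length = 2 ^ e l * 2 ^ j := by
        rw [← pow_add, hj, pow_add]
      push_cast
      field_simp
      linear_combination (T (ι g) * (fx (fun i => ((L.get i : ℕ) : ℤ)) (π (ι g)) : ℂ)) * h3
    · rw [SA.zero h ho]
      simp
  | zero =>
    convert IsGeneralizedCharacter.zero (G := H) using 1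
    funext g
    simp
  | add f f' _ _ h1 h2 =>
    convert h1.add h2 using 1
    funext g
    simp only [map_add, Pi.add_apply]
    push_cast
    ring
  | smul a f _ h1 =>
    convert h1.intCast_smul a using 1
    funext g
    rw [map_zsmul, Pi.smul_apply, smul_eq_mul, zsmul_eq_mul]
    push_cast
    ring

theorem Tr.xi_genA [Finite G] (h : Tr π z T) (hS : S ∈ strict (Fintype.card α)) :
    IsGeneralizedCharacter (Alt π) fun g => xi π T S g :=
  SA.gen h (fun g : Alt π => (g : G)) (fun l => (Fintype.card α + l + 1) / 2) (fun _ _ => by omega) h.intA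
    (QS_mem_Lam (mem_strict.1 hS).1)

theorem Tr.xi_genG [Finite G] (h : Tr π z T) (hS : S ∈ strict (Fintype.card α))
    (he : Even (Fintype.card α + #S)) : IsGeneralizedCharacter G (xi π T S) := by
  have e : (Fintype.card α + #S + 1) / 2 = (Fintype.card α + #S) / 2 := by
    obtain ⟨k, hk⟩ := he
    omega
  unfold xi
  rw [e]
  exact SA.gen h id (fun l => (Fintype.card α + l) / 2) (fun _ _ => by omega) h.intG
    (QS_mem_Lam (mem_strict.1 hS).1)

end Cfsg.Agent.SpC
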