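import Mathlib
import Cfsg.Agent.SpC.Defs
import Cfsg.Agent.SpC.QB

set_option autoImplicit false

namespace Cfsg.Agent.SpC

open Finset Equiv

theorem QD.ip_eq (f g : Gam) {s : Finset (ℕ →₀ ℕ)} (h : f.support ⊆ s) :
    ip f g = ∑ d ∈ s, MvPolynomial.coeff d f * ev (Finsupp.toMultiset d) g :=
  sum_subset h fun d _ hd => by rw [MvPolynomial.notMem_support_iff.1 hd, zero_mul]

theorem ip_comm (f g : Gam) : ip f g = ip g f := by
  rw [QD.ip_eq f g (subset_union_left (s₂ := g.support)), QD.ip_eq g f (subset_union_right (s₁ := f.support))]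
  refine sum_congr rfl fun d _ => ?_
  rw [ev_apply, ev_apply, Finsupp.toMultiset_toFinsupp]
  ring

theorem ip_add_right (f g h : Gam) : ip f (g + h) = ip f g + ip f h := by
  simp only [ip, map_add, mul_add, sum_add_distrib]

theorem ip_smul_right (c : ℚ) (f g : Gam) : ip f (c • g) = c * ip f g := by
  simp only [ip, map_smul, smul_eq_mul, mul_sum, mul_left_comm]

theorem ip_zero_right (f : Gam) : ip f 0 = 0 := by
  simp only [ip, map_zero, mul_zero, sum_const_zero]

theorem ip_one_left (g : Gam) : ip 1 g = MvPolynomial.constantCoeff g := by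
  rw [QD.ip_eq 1 g (s := {0}) (by rw [MvPolynomial.support_one]), sum_singleton, map_zero, ev_zero]
  simp

theorem ip_X_mul (r : ℕ) (f g : Gam) : ip (MvPolynomial.X r * f) g = ip f (Dr r g) := by
  rw [ip, ip, MvPolynomial.support_X_mul, sum_map]
  refine sum_congr rfl fun d _ => ?_
  rw [addLeftEmbedding_apply, MvPolynomial.coeff_X_mul, map_add, Finsupp.toMultiset_single, one_nsmul,
    Multiset.singleton_add, ev_cons]

namespace QD

theorem ip_add_left (f g h : Gam) : ip (f + g) h = ip f h + ip g h := by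
  rw [ip_comm, ip_add_right, ip_comm h, ip_comm h]

theorem ip_smul_left (c : ℚ) (f g : Gam) : ip (c • f) g = c * ip f g := by
  rw [ip_comm, ip_smul_right, ip_comm]

theorem ip_sub_right (f g h : Gam) : ip f (g - h) = ip f g - ip f h := by
  rw [eq_sub_iff_add_eq, ← ip_add_right, sub_add_cancel]

theorem ip_mul_X (r : ℕ) (f g : Gam) : ip f (MvPolynomial.X r * g) = ip (Dr r f) g := by
  rw [ip_comm, ip_X_mul, ip_comm]

theorem C_eq (a : ℚ) : (MvPolynomial.C a : Gam) = a • 1 := by
  rw [MvPolynomial.smul_eq_C_mul, mul_one]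

theorem sign_add (m : ℤ) {r : ℕ} (h : Odd r) : (-1 : ℚ) ^ (m + r) = -(-1) ^ m := by
  rw [zpow_add₀ (by norm_num), zpow_natCast, h.neg_one_pow, mul_neg_one]

theorem sign_sub (m : ℤ) {r : ℕ} (h : Odd r) : (-1 : ℚ) ^ (m - r) = -(-1) ^ m := by
  rw [← neg_eq_iff_eq_neg, ← sign_add _ h, sub_add_cancel]

theorem base (m : ℤ) (f : Gam) : MvPolynomial.constantCoeff (Bv m f) = (-1) ^ m * ip f (qz (-m)) := by
  induction f using MvPolynomial.induction_on generalizing m with
  | C a =>
    rw [C_eq, map_smul, Bv_one, ip_smul_left, ip_one_left, MvPolynomial.constantCoeff_smul, constantCoeff_qz,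
      constantCoeff_qz]
    by_cases h : m = 0 <;> simp [h]
  | add f g hf hg => rw [map_add, map_add, hf, hg, ip_add_left, mul_add]
  | mul_X f r hf =>
    rw [mul_comm f, Bv_X_mul, ip_X_mul, Dr_qz, map_sub, map_mul, MvPolynomial.constantCoeff_X, zero_mul, zero_sub]
    split_ifs with h
    · rw [hf, sign_add m h, neg_mul, neg_neg, neg_add']
    · rw [map_zero, ip_zero_right, mul_zero, neg_zero]

end QD

theorem ip_Bv (m : ℤ) (f g : Gam) : ip (Bv m f) g = (-1) ^ m * ip f (Bv (-m) g) := by
  induction g using MvPolynomial.induction_on generalizing f m with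
  | C a =>
    rw [QD.C_eq, map_smul, ip_smul_right, ip_smul_right, ip_comm, ip_one_left, QD.base, Bv_one]
    ring
  | add g h hg hh => rw [map_add, ip_add_right, ip_add_right, hg, hh, mul_add]
  | mul_X g r hg =>
    rw [mul_comm g, QD.ip_mul_X, Dr_Bv, QD.ip_add_left, hg, Bv_X_mul, QD.ip_sub_right, QD.ip_mul_X]
    split_ifs with h
    · rw [hg, QD.sign_sub m h, neg_sub, neg_add_eq_sub]
      ring
    · rw [ip_comm 0, ip_zero_right, ip_zero_right, add_zero, sub_zero]

end Cfsg.Agent.SpC
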