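import Mathlib
import Cfsg.Agent.SpC.Defs
import Cfsg.Agent.SpC.QD
import Cfsg.Agent.SpC.QE

/-! Orthogonality of Schur's `Q`-functions. -/

set_option autoImplicit false

namespace Cfsg.Agent.SpC

open Finset Equiv

theorem ip_QS {S T : Finset ℕ} (hS : 0 ∉ S) (hT : 0 ∉ T) :
    ip (QS S) (QS T) = if S = T then 2 ^ #S else 0 := by
  induction S using Finset.induction_on_max generalizing T with
  | empty =>
    induction T using Finset.induction_on_max with
    | empty => simp [QS_empty, ip_one_left]
    | insert a T h _ =>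
      have a0 : 0 < a := Nat.pos_of_ne_zero fun e => hT (e ▸ mem_insert_self a T)
      rw [if_neg (insert_ne_empty a T).symm, ip_comm, QS_insert_max h, ip_Bv,
        Bv_QS_neg hS a0 (notMem_empty a), ip_zero_right, mul_zero]
  | insert a S h ih =>
    have a0 : 0 < a := Nat.pos_of_ne_zero fun e => hS (e ▸ mem_insert_self a S)
    have aS : a ∉ S := fun ha => lt_irrefl _ (h a ha)
    rw [QS_insert_max h, ip_Bv]
    by_cases ha : a ∈ T
    · rw [Bv_QS_neg_mem hT ha, ip_smul_right,
        ih (fun h0 => hS (mem_insert_of_mem h0)) fun h0 => hT (mem_of_mem_erase h0)]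
      by_cases e : S = T.erase a
      · have e1 : #{b ∈ T | a < b} = 0 := by
          rw [card_eq_zero, filter_eq_empty_iff]
          intro b hb hab
          exact lt_asymm hab (h b (e ▸ mem_erase.2 ⟨hab.ne', hb⟩))
        rw [if_pos e, if_pos (by rw [e, insert_erase ha]), e1, card_insert_of_notMem aS, add_zero,
          zpow_natCast, pow_succ]
        rcases neg_one_pow_eq_or ℚ a with e2 | e2 <;> rw [e2] <;> ring
      · rw [if_neg e, if_neg fun e' => e (by rw [← e', erase_insert aS]), mul_zero, mul_zero]
    · rw [Bv_QS_neg hT a0 ha, ip_zero_right, mul_zero,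
        if_neg fun e : insert a S = T => ha (e ▸ mem_insert_self a S)]

end Cfsg.Agent.SpC
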