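import Mathlib
import Cfsg.Agent.SpC.Defs

set_option autoImplicit false

namespace Cfsg.Agent.SpC

open Finset Equiv

namespace QHom

theorem zero (n : ℕ) : Hom n 0 := fun _ h => absurd (MvPolynomial.coeff_zero _) h

theorem add {n : ℕ} {f g : Gam} (hf : Hom n f) (hg : Hom n g) : Hom n (f + g) := fun ρ h => by
  by_cases k : MvPolynomial.coeff (Multiset.toFinsupp ρ) f = 0
  · exact hg ρ fun e => h (by rw [MvPolynomial.coeff_add, k, e, add_zero])
  · exact hf ρ k

theorem smul {n : ℕ} {f : Gam} (c : ℚ) (hf : Hom n f) : Hom n (c • f) := fun ρ h =>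
  hf ρ fun e => h (by rw [MvPolynomial.coeff_smul, e, smul_zero])

theorem sum {ι : Type*} {n : ℕ} (s : Finset ι) {f : ι → Gam} (h : ∀ i ∈ s, Hom n (f i)) : Hom n (∑ i ∈ s, f i) :=
  Finset.sum_induction _ _ (fun _ _ => add) (zero n) h

theorem mul {n m : ℕ} {f g : Gam} (hf : Hom n f) (hg : Hom m g) : Hom (n + m) (f * g) := fun ρ h => by
  rw [MvPolynomial.coeff_mul] at h
  obtain ⟨⟨a, b⟩, h1, h2⟩ := Finset.exists_ne_zero_of_sum_ne_zero h
  have h3 : ρ = Finsupp.toMultiset a + Finsupp.toMultiset b := by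
    rw [← map_add, HasAntidiagonal.mem_antidiagonal.1 h1, Multiset.toFinsupp_toMultiset]
  obtain ⟨a1, a2⟩ := hf (Finsupp.toMultiset a) (by
    rw [Finsupp.toMultiset_toFinsupp]; exact left_ne_zero_of_mul h2)
  obtain ⟨b1, b2⟩ := hg (Finsupp.toMultiset b) (by
    rw [Finsupp.toMultiset_toFinsupp]; exact right_ne_zero_of_mul h2)
  rw [h3, Multiset.sum_add, a2, b2]
  exact ⟨fun r hr => (Multiset.mem_add.1 hr).elim (a1 r) (b1 r), rfl⟩

theorem one : Hom 0 1 := fun ρ h => by
  rw [MvPolynomial.coeff_one] at h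
  obtain rfl : ρ = 0 := Multiset.toFinsupp.injective (by
    rw [map_zero]; exact by_contra fun e => h (if_neg (Ne.symm e)))
  simp

theorem X {r : ℕ} (hr : Odd r) : Hom r (MvPolynomial.X r) := fun ρ h => by
  rw [MvPolynomial.coeff_X'] at h
  obtain rfl : ρ = {r} := Multiset.toFinsupp.injective (by
    rw [Multiset.toFinsupp_singleton]; exact by_contra fun e => h (if_neg (Ne.symm e)))
  simpa using hr

end QHom

theorem hom_q (n : ℕ) : Hom n (q n) := by
  induction n using Nat.strong_induction_on with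
  | _ n ih =>
    rcases n with _ | n
    · rw [q_zero]; exact QHom.one
    rw [q_succ]
    refine QHom.smul _ (QHom.sum _ fun k hk => ?_)
    have h1 := mem_range.1 hk
    split_ifs with h
    · have := QHom.mul (QHom.X h) (ih k h1)
      rwa [Nat.sub_add_cancel h1.le] at this
    · exact QHom.zero _

theorem hom_of_mem_Lam {l n : ℕ} {f : Gam} (h : f ∈ Lam l n) : Hom n f := by
  have k : ∀ μ : Multiset ℕ, Hom μ.sum (μ.map q).prod := fun μ => by
    induction μ using Multiset.induction_on with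
    | empty => simpa using QHom.one
    | cons a μ ih => simpa using QHom.mul (hom_q a) ih
  induction h using Submodule.span_induction with
  | mem f hf =>
    obtain ⟨μ, -, -, rfl, rfl⟩ := hf
    have := QHom.smul (2 ^ (l - Multiset.card μ)) (k μ)
    rwa [MvPolynomial.smul_eq_C_mul, map_pow, map_ofNat] at this
  | zero => exact QHom.zero n
  | add _ _ _ _ h1 h2 => exact QHom.add h1 h2
  | smul c f _ h1 =>
    rw [← Int.cast_smul_eq_zsmul ℚ]
    exact QHom.smul _ h1

theorem ip_eq_sum_odds {n : ℕ} {f : Gam} (hf : Hom n f) (g : Gam) :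
    ip f g = ∑ P ∈ Nat.Partition.odds n,
      2 ^ Multiset.card P.parts / (SnCh.zee P.parts : ℚ) * (ev P.parts f * ev P.parts g) := by
  have hz : ∀ P : n.Partition, (SnCh.zee P.parts : ℚ) ≠ 0 := fun P => Nat.cast_ne_zero.2 (mul_ne_zero
    (Multiset.prod_ne_zero fun h => (P.parts_pos h).ne rfl) (prod_ne_zero_iff.2 fun _ _ => Nat.factorial_ne_zero _))
  have inj : Set.InjOn (fun P : n.Partition => Multiset.toFinsupp P.parts) (Nat.Partition.odds n) :=
    fun P _ Q _ e => Nat.Partition.ext (Multiset.toFinsupp.injective e)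
  rw [ip, sum_subset (s₂ := (Nat.Partition.odds n).image fun P => Multiset.toFinsupp P.parts), sum_image inj]
  · refine sum_congr rfl fun P _ => ?_
    rw [Multiset.toFinsupp_toMultiset, ev_apply P.parts f]
    field_simp [hz P]
  · intro d hd
    obtain ⟨h1, h2⟩ := hf (Finsupp.toMultiset d) (by
      rw [Finsupp.toMultiset_toFinsupp]; exact MvPolynomial.mem_support_iff.1 hd)
    refine mem_image.2 ⟨⟨_, fun {r} hr => (h1 r hr).pos, h2⟩, ?_, Finsupp.toMultiset_toFinsupp d⟩
    exact mem_filter.2 ⟨mem_univ _, fun r hr => Nat.not_even_iff_odd.2 (h1 r hr)⟩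
  · intro d _ hd
    rw [MvPolynomial.notMem_support_iff.1 hd, zero_mul]

end Cfsg.Agent.SpC
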