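import Mathlib
import Cfsg.Agent.SpC.Defs
import Cfsg.Agent.SpC.QF
import Cfsg.Agent.SpC.QG
import Cfsg.Agent.SpC.QHom

set_option autoImplicit false

namespace Cfsg.Agent.SpC

open Finset Equiv

theorem card_strict (n : ℕ) : #(strict n) = #(Nat.Partition.odds n) := by
  rw [Nat.Partition.card_odds_eq_card_distincts]
  symm
  have hd : ∀ P : n.Partition, P ∈ Nat.Partition.distincts n ↔ P.parts.Nodup := fun P => by
    simp [Nat.Partition.distincts]
  refine card_bij (fun P _ => P.parts.toFinset) (fun P hP => mem_strict.2 ⟨fun h0 => ?_, ?_⟩)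
    (fun P hP P' hP' e => ?_) fun S hS => ?_
  · exact lt_irrefl _ (P.parts_pos (Multiset.mem_toFinset.1 h0))
  · rw [Finset.sum_eq_multiset_sum, Multiset.toFinset_val, Multiset.dedup_eq_self.2 ((hd P).1 hP),
      Multiset.map_id', P.parts_sum]
  · exact Nat.Partition.ext (Multiset.Nodup.toFinset_inj ((hd P).1 hP) ((hd P').1 hP') e)
  · obtain ⟨h0, hs⟩ := mem_strict.1 hS
    refine ⟨⟨S.val, fun {i} hi => Nat.pos_of_ne_zero fun e => h0 (e ▸ hi), ?_⟩, (hd _).2 S.nodup,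
      val_toFinset S⟩
    rw [← hs, Finset.sum_eq_multiset_sum, Multiset.map_id']

theorem QI.zee_ne {ρ : Multiset ℕ} (h : ∀ r ∈ ρ, Odd r) : (SnCh.zee ρ : ℚ) ≠ 0 := by
  induction ρ using Multiset.induction_on with
  | empty => simp [SnCh.zee]
  | cons r ρ ih =>
    have h1 := ih fun a ha => h a (Multiset.mem_cons_of_mem ha)
    have h2 : (r : ℚ) ≠ 0 := Nat.cast_ne_zero.2 (h r (Multiset.mem_cons_self _ _)).pos.ne'
    rw [SnCh.zee_cons]
    push_cast
    positivity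

theorem col_orth {n : ℕ} {ρ σ : Multiset ℕ} (hρ : ∀ r ∈ ρ, Odd r) (hρn : ρ.sum = n)
    (hσ : ∀ r ∈ σ, Odd r) (hσn : σ.sum = n) :
    ∑ S ∈ strict n, ev ρ (QS S) * ev σ (QS S) / 2 ^ #S =
      if ρ = σ then (SnCh.zee ρ : ℚ) / 2 ^ Multiset.card ρ else 0 := by
  let A : Matrix (strict n) (Nat.Partition.odds n) ℚ := fun S P => ev P.1.parts (QS S) / 2 ^ #S.1
  let C : Matrix (Nat.Partition.odds n) (strict n) ℚ := fun P S =>
    2 ^ Multiset.card P.1.parts / (SnCh.zee P.1.parts : ℚ) * ev P.1.parts (QS S)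
  have hAC : A * C = 1 := by
    ext S T
    obtain ⟨h0, hs⟩ := mem_strict.1 S.2
    have h1 := ip_QS h0 (mem_strict.1 T.2).1
    rw [ip_eq_sum_odds (hom_of_mem_Lam (hs ▸ QS_mem_Lam h0)), ← sum_coe_sort] at h1
    have h2 : (A * C) S T = (if S.1 = T.1 then 2 ^ #S.1 else 0) / 2 ^ #S.1 := by
      rw [← h1, Matrix.mul_apply, sum_div]
      exact sum_congr rfl fun P _ => by simp only [A, C]; ring
    rw [h2, Matrix.one_apply]
    by_cases e : S = T
    · rw [if_pos e, if_pos (congrArg _ e), div_self (by positivity)]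
    · rw [if_neg e, if_neg (fun e' => e (Subtype.ext e')), zero_div]
  have hCA := (Matrix.mul_eq_one_comm_of_equiv (equivOfCardEq (card_strict n))).1 hAC
  have hm : ∀ (τ : Multiset ℕ) (hτ : ∀ r ∈ τ, Odd r) (hn : τ.sum = n),
      (⟨τ, fun {i} hi => (hτ i hi).pos, hn⟩ : n.Partition) ∈ Nat.Partition.odds n := fun τ hτ hn =>
    mem_filter.2 ⟨mem_univ _, fun i hi => Nat.not_even_iff_odd.2 (hτ i hi)⟩
  have h := congrFun (congrFun hCA ⟨_, hm ρ hρ hρn⟩) ⟨_, hm σ hσ hσn⟩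
  have hz := QI.zee_ne hρ
  have h3 : ∑ S ∈ strict n, ev ρ (QS S) * ev σ (QS S) / 2 ^ #S =
      (SnCh.zee ρ : ℚ) / 2 ^ Multiset.card ρ * (C * A) ⟨_, hm ρ hρ hρn⟩ ⟨_, hm σ hσ hσn⟩ := by
    rw [Matrix.mul_apply, mul_sum, ← sum_coe_sort]
    refine sum_congr rfl fun S _ => ?_
    simp only [A, C]
    field_simp
  rw [h3, h, Matrix.one_apply]
  by_cases e : ρ = σ
  · subst e
    rw [if_pos rfl, if_pos rfl, mul_one]
  · rw [if_neg e, if_neg (fun e' => e (congrArg (fun P => P.1.parts) e')), mul_zero]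

end Cfsg.Agent.SpC
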