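import Mathlib
import Cfsg.Agent.SpC.Defs
import Cfsg.Agent.SpC.SA
import Cfsg.Agent.SpC.QI
import Cfsg.Agent.Ch.Orthogonality

set_option autoImplicit false

namespace Cfsg.Agent.SpC

open Finset Equiv

variable {α : Type*} [Fintype α] [DecidableEq α] {G : Type*} [Group G] {π : G →* Perm α} {z : G}
  {T : G → ℂ}

namespace SB

theorem T_zero (h : Tr π z T) {g : G} (ho : ¬ OddType (π g)) : T g = 0 := by
  have := h.sq g
  rw [if_neg ho] at this
  exact pow_eq_zero_iff two_ne_zero |>.1 this

theorem kap_div (n : ℕ) (S : Finset ℕ) :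
    kap n S / (2 ^ ((n + #S + 1) / 2) * 2 ^ ((n + #S + 1) / 2)) = 1 / (2 ^ n * 2 ^ #S) := by
  rw [← pow_add, ← pow_add, kap]
  split_ifs with he
  · obtain ⟨k, hk⟩ := he
    rw [show (n + #S + 1) / 2 + (n + #S + 1) / 2 = n + #S by omega]
  · obtain ⟨k, hk⟩ := Nat.not_even_iff_odd.1 he
    rw [show (n + #S + 1) / 2 + (n + #S + 1) / 2 = n + #S + 1 by omega, pow_succ]
    field_simp

theorem parts_iff {σ τ : Perm α} : σ.partition.parts = τ.partition.parts ↔ IsConj σ τ :=
  (Perm.partition_eq_of_isConj.trans Nat.Partition.ext_iff).symm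

theorem key (h : Tr π z T) {g : G} (ho : OddType (π g)) (x : G) :
    ∑ S ∈ strict (Fintype.card α), kap (Fintype.card α) S * xi π T S g * xi π T S x =
      if (π g).partition.parts = (π x).partition.parts then T g * T x / 2 ^ Fintype.card α *
        ((SnCh.zee (π g).partition.parts : ℂ) / 2 ^ Multiset.card (π g).partition.parts) else 0 := by
  by_cases hx : OddType (π x)
  · have h1 := congrArg (Rat.cast : ℚ → ℂ) (col_orth ho (π g).partition.parts_sum hx (π x).partition.parts_sum)
    rw [sum_congr rfl (g := fun S => T g * T x / 2 ^ Fintype.card α *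
      ((ev (π g).partition.parts (QS S) * ev (π x).partition.parts (QS S) / 2 ^ #S : ℚ) : ℂ)) fun S _ => ?_,
      ← mul_sum, ← Rat.cast_sum, h1]
    · split_ifs
      · push_cast; rfl
      · simp
    · have h2 := kap_div (Fintype.card α) S
      rw [xi, xi]
      push_cast
      calc _ = kap (Fintype.card α) S / (2 ^ ((Fintype.card α + #S + 1) / 2) *
          2 ^ ((Fintype.card α + #S + 1) / 2)) * (T g * T x * ((ev (π g).partition.parts (QS S) : ℚ) : ℂ) *
            ((ev (π x).partition.parts (QS S) : ℚ) : ℂ)) := by ring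
        _ = _ := by rw [h2]; ring
  · simp [xi, T_zero h hx]

theorem card_fib [Fintype G] (h : Spin π z) (σ : Perm α) : #{x | π x = σ} = 2 := by
  classical
  obtain ⟨a, rfl⟩ := h.surj σ
  refine card_eq_two.2 ⟨a, z * a, fun e => h.z_ne (by simpa using e), ?_⟩
  ext x
  simp only [mem_filter, mem_univ, true_and, mem_insert, mem_singleton]
  refine ⟨fun e => h.eq_or e.symm, ?_⟩
  rintro (rfl | rfl)
  · rfl
  · rw [map_mul, h.map_z, one_mul]

theorem card_cl [Fintype G] (h : Spin π z) (σ : Perm α) :
    #{x | σ.partition.parts = (π x).partition.parts} * SnCh.zee σ.partition.parts = Nat.card G := by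
  classical
  have h1 := Ch.card_isConj_mul_card_centralizer σ
  rw [Nat.card_eq_fintype_card (α := Perm α), Fintype.card_perm] at h1
  rw [h.card, SnCh.zee_partition, ← h1, ← mul_assoc]
  congr 1
  rw [Nat.card_eq_fintype_card, Fintype.card_subtype, mul_comm, ← smul_eq_mul, ← sum_const,
    card_eq_sum_card_fiberwise (f := π) (t := {τ | IsConj σ τ}) fun x hx => by
      simpa [parts_iff] using hx]
  refine sum_congr rfl fun τ hτ => ?_
  rw [← card_fib h τ, filter_filter]
  congr 1
  refine filter_congr fun x _ => ⟨fun e => e.2, fun e => ⟨?_, e⟩⟩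
  rw [e, parts_iff]
  simpa using hτ

end SB

open SB in
theorem Tr.complete [Fintype G] (h : Tr π z T) {F : G → ℂ} (hF : IsClassFunction G F)
    (hz : ∀ g, F (z * g) = -F g) (h0 : ∀ g ∉ Alt π, F g = 0) (g : G) :
    F g = ∑ S ∈ strict (Fintype.card α),
      kap (Fintype.card α) S * classInner F (xi π T S) * xi π T S g := by
  by_cases ho : OddType (π g)
  swap
  · rw [sum_eq_zero fun S _ => by simp [xi, T_zero h ho]]
    by_cases hs : Perm.sign (π g) = 1
    · obtain ⟨c, hc⟩ := h.spin.conj_neg hs ho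
      have := hF g c
      rw [hc, hz] at this
      linear_combination (-1 / 2 : ℂ) * this
    · exact h0 g hs
  have e1 : ∀ x, (π g).partition.parts = (π x).partition.parts → F x * T x = F g * T g := fun x hx => by
    obtain ⟨c, hc⟩ := isConj_iff.1 (parts_iff.1 hx)
    obtain ⟨c, rfl⟩ := h.spin.surj c
    rcases h.spin.eq_or (a := c * g * c⁻¹) (b := x) (by rw [← hc]; simp) with e | e
    · rw [e, hF, h.cls]
    · rw [e, hz, h.neg, hF, h.cls, neg_mul_neg]
  have hG : (Nat.card G : ℂ) ≠ 0 := Nat.cast_ne_zero.2 Nat.card_pos.ne'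
  have h2 := congrArg (Nat.cast : ℕ → ℂ) (card_cl h.spin (π g))
  have h3 := h.sq g
  rw [if_pos ho, pow_add] at h3
  simp only [classInner, h.conj_xi, mul_sum, sum_mul]
  rw [sum_comm, sum_congr rfl (g := fun x => if (π g).partition.parts = (π x).partition.parts then
    (Nat.card G : ℂ)⁻¹ * F g * SnCh.zee (π g).partition.parts else 0) fun x _ => ?_]
  · rw [← sum_filter, sum_const, nsmul_eq_mul]
    push_cast at h2
    field_simp
    linear_combination (-F g) * h2
  · rw [sum_congr rfl (g := fun S => (Nat.card G : ℂ)⁻¹ * F x *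
      (kap (Fintype.card α) S * xi π T S g * xi π T S x)) fun _ _ => by ring, ← mul_sum, key h ho]
    split_ifs with hx
    · calc _ = (Nat.card G : ℂ)⁻¹ * (F x * T x) * T g / 2 ^ Fintype.card α *
          ((SnCh.zee (π g).partition.parts : ℂ) / 2 ^ Multiset.card (π g).partition.parts) := by ring
        _ = (Nat.card G : ℂ)⁻¹ * F g * T g ^ 2 / 2 ^ Fintype.card α *
          ((SnCh.zee (π g).partition.parts : ℂ) / 2 ^ Multiset.card (π g).partition.parts) := by
          rw [e1 x hx]; ring
        _ = _ := by rw [h3]; field_simp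
    · rw [mul_zero]

end Cfsg.Agent.SpC
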