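import Mathlib
import Cfsg.Agent.SpC.Defs
import Cfsg.Agent.SpC.CC
import Cfsg.Agent.SpC.SA
import Cfsg.Agent.SpC.SB
import Cfsg.Agent.SnCh.Idx2

set_option autoImplicit false

namespace Cfsg.Agent.SpC

open Finset Equiv Cfsg.Agent.Ch

variable {α : Type*} [Fintype α] [DecidableEq α] {G : Type*} [Group G] {π : G →* Perm α} {z : G}
  {T : G → ℂ}

namespace SC

theorem half [Fintype G] {N : Subgroup G} [Fintype N] (hN : N.index = 2) {φ ψ : G → ℂ}
    (h : ∀ g ∉ N, φ g = 0 ∨ ψ g = 0) :
    classInner (fun n : N => φ n) (fun n : N => ψ n) = 2 * classInner φ ψ := by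
  classical
  have h1 : ∑ g : G, φ g * (starRingEnd ℂ) (ψ g) = ∑ n : N, φ n * (starRingEnd ℂ) (ψ n) := by
    rw [← Finset.sum_subtype (univ.filter (· ∈ N)) (by simp)
      (fun g => φ g * (starRingEnd ℂ) (ψ g)), Finset.sum_filter_of_ne]
    intro g _ hg
    by_contra hn
    rcases h g hn with e | e <;> simp [e] at hg
  have h2 : (Nat.card G : ℂ) = 2 * Nat.card N := by
    rw [← N.index_mul_card, hN]
    push_cast
    rfl
  have h3 := natCard_ne_zero N
  rw [classInner_def, classInner_def, h1, h2]
  field_simp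

theorem comb {ι : Type*} (s : Finset ι) (k m : ι → ℤ) {d : ℤ} (hk : ∀ S, k S = 1 ∨ k S = 2)
    (hs : ∑ S ∈ s, k S * m S ^ 2 = d)
    (hd : d = 1 ∨ (d = 2 ∧ ∀ S ∈ s, k S = 1 → Even (m S))) :
    ∃ S ∈ s, (k S * m S = 1 ∨ k S * m S = -1 ∨ k S * m S = 2 ∨ k S * m S = -2) ∧
      ∀ U ∈ s, U ≠ S → m U = 0 := by
  classical
  have h0 : ∀ S, 0 ≤ k S * m S ^ 2 := fun S => by rcases hk S with e | e <;> rw [e] <;> positivity
  obtain ⟨S, hS, h1⟩ : ∃ S ∈ s, k S * m S ^ 2 ≠ 0 := by
    refine Finset.exists_ne_zero_of_sum_ne_zero ?_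
    omega
  have hm : m S ≠ 0 := fun e => h1 (by simp [e])
  have h2 : 0 < m S ^ 2 := by positivity
  rw [← Finset.add_sum_erase s _ hS] at hs
  have h3 : 0 ≤ ∑ U ∈ s.erase S, k U * m U ^ 2 := Finset.sum_nonneg fun U _ => h0 U
  have h4 : d ≤ k S * m S ^ 2 := by
    rcases hk S with e | e
    · rcases hd with rfl | ⟨rfl, h5⟩
      · rw [e]; omega
      · obtain ⟨r, hr⟩ := h5 S hS e
        have : r ≠ 0 := fun e => hm (by rw [hr, e]; rfl)
        have : 0 < r ^ 2 := by positivity
        rw [e, hr]
        nlinarith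
    · rw [e]; omega
  have h5 : ∑ U ∈ s.erase S, k U * m U ^ 2 = 0 := by omega
  refine ⟨S, hS, ?_, fun U hU hne => ?_⟩
  · have h6 : m S ^ 2 ≤ 2 := by rcases hk S with e | e <;> rw [e] at hs <;> omega
    have h7 : m S = 1 ∨ m S = -1 := by
      have : m S ≤ 1 := by nlinarith
      have : -1 ≤ m S := by nlinarith
      omega
    rcases hk S with e | e <;> rcases h7 with f | f <;> simp [e, f]
  · have h6 := (Finset.sum_eq_zero_iff_of_nonneg fun U _ => h0 U).1 h5 U (mem_erase.2 ⟨hne, hU⟩)
    rcases hk U with e | e <;> simpa [e] using h6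

end SC

theorem Tr.exists_label [Finite G] [Nontrivial α] (h : Tr π z T) (θ : IrrCharacter (Alt π))
    {z' : Alt π} (hz : (z' : G) = z) (hθ : (θ : Alt π → ℂ) z' = -(θ : Alt π → ℂ) 1) {t : G}
    (ht : t ∉ Alt π) : ∃ S ∈ strict (Fintype.card α), ∃ c : ℂ,
      (c = 1 ∨ c = -1 ∨ c = 2 ∨ c = -2) ∧ ∀ g : Alt π,
        (θ : Alt π → ℂ) g + Ch.conjChar t (θ : Alt π → ℂ) g = c * xi π T S g := by
  classical
  let _ := Fintype.ofFinite G
  obtain ⟨θ, hi⟩ := θ
  simp only at hθ ⊢
  have hN := h.spin.index_alt
  have hc := hi.isCharacter.isClassFunction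
  have hi' := isIrrCharacter_conjChar hi t
  have hmul := fun a b => Subgroup.mul_mem_iff_of_index_two hN (a := a) (b := b)
  have hout : ∀ g ∉ Alt π, conjChar g θ = conjChar t θ := fun g hg =>
    conjChar_eq_conjChar_iff.2 (le_inertia hc ((hmul _ _).2 (iff_of_false hg (by simpa))))
  have hneg : ∀ n, θ (z' * n) = -θ n := fun n => by
    have h1 := hi.isCharacter.apply_mul_of_mem_charCenter
      (hi.isCharacter.mem_charCenter_iff_norm.2 (by rw [hθ, norm_neg])) n
    rw [hθ] at h1
    exact mul_left_cancel₀ hi.apply_one_ne_zero (by rw [h1]; ring)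
  obtain ⟨F, hF⟩ : ∃ F, F = extendByZero (Alt π) (θ + conjChar t θ) := ⟨_, rfl⟩
  have F0 : ∀ g ∉ Alt π, F g = 0 := fun g hg => hF ▸ extendByZero_of_not_mem _ _ hg
  have F1 : (fun n : Alt π => F n) = θ + conjChar t θ := funext fun n => hF ▸ extendByZero_coe _ _ n
  have F1' : ∀ n : Alt π, F n = θ n + conjChar t θ n := fun n => congrFun F1 n
  have Fc : IsClassFunction G F := fun g x => by
    by_cases hg : g ∈ Alt π
    · have h1 : conjChar x (θ + conjChar t θ) = θ + conjChar t θ := by
        by_cases hx : x ∈ Alt π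
        · rw [conjChar_add, conjChar_of_mem hc hx, conjChar_of_mem (isClassFunction_conjChar hc t) hx]
        · rw [conjChar_add, ← conjChar_mul, hout x hx,
            conjChar_of_mem hc ((hmul _ _).2 (iff_of_false ht hx)), add_comm]
      have h2 := congrFun h1 ⟨g, hg⟩
      rw [← F1] at h2
      exact h2
    · rw [F0 g hg, F0]
      intro h1
      exact hg (by simpa [mul_assoc] using (inferInstance : (Alt π).Normal).conj_mem _ h1 x⁻¹)
  have Fz : ∀ g, F (z * g) = -F g := fun g => by
    by_cases hg : g ∈ Alt π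
    · have h1 := F1' (z' * ⟨g, hg⟩)
      have h2 := F1' ⟨g, hg⟩
      have h3 : conjChar t θ (z' * ⟨g, hg⟩) = -conjChar t θ ⟨g, hg⟩ := by
        rw [conjChar_apply, conjChar_apply, ← hneg]
        congr 1
        refine Subtype.ext ?_
        simp only [Subgroup.coe_mul, hz]
        rw [← mul_assoc t, ← h.spin.z_comm t]
        group
      rw [h3, hneg] at h1
      simp only [Subgroup.coe_mul, hz] at h1 h2
      rw [h1, h2]
      ring
    · rw [F0 g hg, F0, neg_zero]
      exact fun h1 => hg (((hmul _ _).1 h1).1 (hz ▸ z'.2))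
  have hm : ∀ S, classInner F (xi π T S) = classInner θ fun n : Alt π => xi π T S n := fun S => by
    have h1 := SC.half hN (φ := F) (ψ := xi π T S) fun g hg => Or.inl (F0 g hg)
    have h2 := classInner_conjChar_conjChar t θ fun n : Alt π => xi π T S n
    rw [conjChar_res (h.xi_cls S)] at h2
    rw [F1, classInner_add_left, h2] at h1
    linear_combination -h1 / 2
  have hint : ∀ S, ∃ m : ℤ, S ∈ strict (Fintype.card α) → classInner F (xi π T S) = m := fun S => by
    by_cases hS : S ∈ strict (Fintype.card α)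
    · obtain ⟨m, e⟩ := hi.isGeneralizedCharacter.exists_int_classInner (h.xi_genA hS)
      exact ⟨m, fun _ => (hm S).trans e⟩
    · exact ⟨0, fun e => (hS e).elim⟩
  choose m hm' using hint
  let k : Finset ℕ → ℤ := fun S => if Even (Fintype.card α + #S) then 1 else 2
  have hk : ∀ S, kap (Fintype.card α) S = k S := fun S => by
    simp only [kap, k]
    split_ifs <;> simp
  have hco : ∀ g, F g = ∑ S ∈ strict (Fintype.card α), ((k S * m S : ℤ) : ℂ) * xi π T S g :=
    fun g => (h.complete Fc Fz F0 g).trans (sum_congr rfl fun S hS => by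
      rw [hk, hm' S hS]; push_cast; rfl)
  have hFF : classInner F F = ((∑ S ∈ strict (Fintype.card α), k S * m S ^ 2 : ℤ) : ℂ) := by
    have h1 : F = ∑ S ∈ strict (Fintype.card α), ((k S * m S : ℤ) : ℂ) • xi π T S :=
      funext fun g => by rw [hco, Finset.sum_apply]; rfl
    conv_lhs => arg 1; rw [h1]
    rw [classInner_sum_left, Int.cast_sum]
    refine sum_congr rfl fun S hS => ?_
    rw [classInner_smul_left, ← classInner_conj_symm, hm' S hS, map_intCast]
    push_cast
    ring
  have hF2 := SC.half hN (φ := F) (ψ := F) fun g hg => Or.inl (F0 g hg)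
  rw [F1, classInner_add_add_self, hi.classInner_self, hi'.classInner_self, hFF] at hF2
  obtain ⟨S, hS, h1, h2⟩ := SC.comb (strict (Fintype.card α)) k m
    (fun S => by simp only [k]; split_ifs <;> simp) rfl (by
      by_cases e : θ = conjChar t θ
      · rw [← e, hi.classInner_self] at hF2
        refine Or.inr ⟨Int.cast_injective (α := ℂ) (by
          rw [Int.cast_ofNat]; linear_combination -hF2 / 2), fun S hS hk1 => ?_⟩
        obtain ⟨ψ, hψ, h3⟩ := exists_irr_over (Alt π) hi
        have h4 : (fun n : Alt π => ψ n) = θ := by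
          refine (SnCh.res_cases hN hψ hi h3).resolve_right fun h5 => ?_
          obtain ⟨c, h6⟩ := SnCh.add_conjChar_eq hN hψ hi h3 ht
          rw [← e] at h6
          have h7 : c ≠ 0 := by
            rintro rfl
            have h8 := congrFun h6 1
            simp only [Pi.add_apply, zero_smul, Pi.zero_apply] at h8
            exact hi.apply_one_ne_zero (by linear_combination h8 / 2)
          have h8 : (fun n : Alt π => ψ n) = (2 / c) • θ := funext fun n => by
            have h9 := congrFun h6 n
            simp only [Pi.add_apply, Pi.smul_apply, smul_eq_mul] at h9 ⊢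
            field_simp
            linear_combination -h9
          obtain ⟨j, hj⟩ := (hψ.isCharacter.comp (Alt π).subtype).isGeneralizedCharacter.exists_int_classInner
            hi.isGeneralizedCharacter
          have h9 := SC.half hN (φ := ψ) (ψ := ψ) fun g hg => Or.inl (h5.1 g hg)
          change classInner (fun n : Alt π => ψ n) θ = _ at hj
          rw [h8, classInner_smul_left, hi.classInner_self, mul_one] at hj
          rw [h8, hj, classInner_smul_left, classInner_smul_right, hi.classInner_self,
            hψ.classInner_self, map_intCast] at h9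
          have h10 : j * j = 2 := Int.cast_injective (α := ℂ) (by
            push_cast; linear_combination h9)
          have : j ≤ 1 := by nlinarith
          have : -1 ≤ j := by nlinarith
          interval_cases j <;> omega
        have he : Even (Fintype.card α + #S) := by
          by_contra hn
          simp [k, hn] at hk1
        obtain ⟨j, hj⟩ := hψ.isGeneralizedCharacter.exists_int_classInner (h.xi_genG hS he)
        have h5 := SC.half hN (φ := ψ) (ψ := xi π T S) fun g hg => Or.inr (h.xi_off S hg)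
        rw [h4, ← hm, hm' S hS, hj] at h5
        exact ⟨j, Int.cast_injective (α := ℂ) (by push_cast; linear_combination h5)⟩
      · rw [hi.classInner_eq_zero hi' e, hi'.classInner_eq_zero hi (Ne.symm e)] at hF2
        exact Or.inl (Int.cast_injective (α := ℂ) (by
          rw [Int.cast_one]; linear_combination -hF2 / 2)))
  refine ⟨S, hS, (k S * m S : ℤ), ?_, fun g => ?_⟩
  · rcases h1 with e | e | e | e <;> simp [e]
  · rw [← F1', hco, sum_eq_single_of_mem S hS fun U hU hne => by simp [h2 U hU hne]]

end Cfsg.Agent.SpC
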