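import Mathlib
import Cfsg.Agent.SpC.Defs
import Cfsg.Agent.SpC.SC
import Cfsg.Agent.SpC.QM
import Cfsg.Agent.SpC.CC2

set_option autoImplicit false

namespace Cfsg.Agent.SpC

open Finset Equiv

variable {α : Type*} [Fintype α] [DecidableEq α] {G : Type*} [Group G] {π : G →* Perm α} {z : G}
  {T : G → ℂ}

theorem SD.parts_one : (1 : Perm α).partition.parts = Multiset.replicate (Fintype.card α) 1 := by
  rw [Perm.parts_partition]
  simp

theorem SD.fact_two_pow {p : ℕ} (hp : Odd p) (k : ℕ) : (2 ^ k).factorization p = 0 := by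
  rw [Nat.Prime.factorization_pow Nat.prime_two]
  refine Finsupp.single_eq_of_ne ?_
  rintro rfl
  exact absurd hp (by decide)

theorem SD.fact_eq {p : ℕ} (hp : Odd p) {d H m a b : ℕ} (hd : d ≠ 0) (hm : m ≠ 0)
    (e : d * H * 2 ^ a = m * 2 ^ b) :
    d.factorization p + H.factorization p = m.factorization p := by
  have hH : H ≠ 0 := by
    rintro rfl
    simp at e
    exact hm e
  have : (d * H * 2 ^ a).factorization p = (m * 2 ^ b).factorization p := by rw [e]
  rw [Nat.factorization_mul (mul_ne_zero hd hH) (by positivity),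
    Nat.factorization_mul hd hH, Nat.factorization_mul hm (by positivity)] at this
  simpa only [Finsupp.add_apply, SD.fact_two_pow hp, add_zero] using this

theorem Tr.deg_le [Finite G] (h : Tr π z T) {p : ℕ} [Fact p.Prime] (hp : Odd p)
    (θ : IrrCharacter (Alt π)) {z' : Alt π} (hz : (z' : G) = z)
    (hθ : (θ : Alt π → ℂ) z' = -(θ : Alt π → ℂ) 1) {J : Type*} [Fintype J]
    (ι : J × ZMod p ↪ α) {y : Perm α} (hy : ∀ a ∈ Set.range ι, y a = a) {g : Alt π}
    (hg : π g = SnCh.xx ι * y) {c : G} (hc : c ∉ Alt π) (hcg : Commute c g)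
    (h0 : (θ : Alt π → ℂ) g ≠ 0) :
    (charDegree (θ : Alt π → ℂ)).factorization p + Fintype.card J ≤
      (Fintype.card α).factorial.factorization p := by
  haveI : Nontrivial α := by
    by_contra hn
    rw [not_nontrivial_iff_subsingleton] at hn
    apply hc
    have : π c = 1 := Subsingleton.elim _ _
    show π c ∈ alternatingGroup α
    rw [this]
    exact one_mem _
  obtain ⟨S, hS, c', hc', hv⟩ := h.exists_label θ hz hθ hc
  -- the value at `g`
  have e1 := hv g
  rw [Ch.conjChar_apply_of_eq c _ g g (by rw [hcg.eq, mul_inv_cancel_right])] at e1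
  have hne : ev (π g).partition.parts (QS S) ≠ 0 := by
    intro e0
    rw [xi, e0] at e1
    apply h0
    have : (2 : ℂ) * (θ : Alt π → ℂ) g = 0 := by
      rw [two_mul, e1]
      simp
    simpa using this
  obtain ⟨ρ, hρ⟩ := parts_xx_mul ι hy
  rw [hg, hρ] at hne
  have hJ := le_factorization_Hn Fact.out hp (mem_strict.1 hS).1 hne
  -- the value at `1`
  have e2 := hv 1
  rw [Ch.conjChar_apply_one, xi, OneMemClass.coe_one, h.one, map_one, SD.parts_one,
    ← θ.2.coe_charDegree] at e2
  have e3 := ev_one_QS hS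
  obtain ⟨j, hj⟩ : ∃ j : ℕ, ‖c'‖ = 2 ^ j := by
    rcases hc' with rfl | rfl | rfl | rfl
    · exact ⟨0, by simp⟩
    · exact ⟨0, by simp⟩
    · exact ⟨1, by simp⟩
    · exact ⟨1, by simp⟩
  set d := charDegree (θ : Alt π → ℂ) with hd
  set n := Fintype.card α with hn
  set k := (n + #S + 1) / 2 with hk
  have e4 : ((d * Hn S * 2 ^ (k + 1) : ℕ) : ℂ) = c' * ((n.factorial * 2 ^ n : ℕ) : ℂ) := by
    have e5 : ((ev (Multiset.replicate n 1) (QS S) : ℚ) : ℂ) * (Hn S : ℂ) = (n.factorial : ℂ) := by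
      exact_mod_cast congrArg (fun x : ℚ => (x : ℂ)) e3
    have h2 : (2 : ℂ) ^ k ≠ 0 := pow_ne_zero _ two_ne_zero
    push_cast
    rw [← e5]
    field_simp at e2
    linear_combination (Hn S : ℂ) * e2
  have e6 := congrArg (fun x : ℂ => ‖x‖) e4
  simp only [norm_mul, Complex.norm_natCast, hj] at e6
  have e7 : d * Hn S * 2 ^ (k + 1) = n.factorial * 2 ^ (n + j) := by
    have : ((d * Hn S * 2 ^ (k + 1) : ℕ) : ℝ) = ((n.factorial * 2 ^ (n + j) : ℕ) : ℝ) := by
      rw [e6]
      push_cast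
      ring
    exact_mod_cast this
  have hd0 : d ≠ 0 := θ.2.charDegree_pos.ne'
  have := SD.fact_eq hp hd0 (Nat.factorial_ne_zero n) e7
  omega

end Cfsg.Agent.SpC
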