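import Mathlib
import Cfsg.Agent.SpC.Defs
import Cfsg.Agent.SpC.CC2
import Cfsg.Agent.SnCh.Idx2

/-!
# Degrees of characters of symmetric and alternating groups not vanishing at `x y`
-/

set_option autoImplicit false

namespace Cfsg.Agent.SpC

open Finset Equiv

namespace SymD

open SnCh

theorem exists_of_pw_ne {κ : Type*} [Fintype κ] [DecidableEq κ] (p : ℕ) (F : V κ) (w : ℕ)
    {β : κ → ℤ} (h : pw (Multiset.replicate w p) F β ≠ 0) :
    ∃ γ, F γ ≠ 0 ∧ cnt p γ = cnt p β ∧ ∑ i, β i = ∑ i, γ i + p * w := by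
  induction w generalizing β with
  | zero => exact ⟨β, by simpa [pw] using h, rfl, by simp⟩
  | succ w ih =>
    rw [Multiset.replicate_succ, pw_cons, U_apply] at h
    obtain ⟨i, -, hi⟩ := Finset.exists_ne_zero_of_sum_ne_zero h
    obtain ⟨γ, h1, h2, h3⟩ := ih hi
    refine ⟨γ, h1, h2.trans (cnt_sub β i dvd_rfl), ?_⟩
    rw [sum_sub_single] at h3
    push_cast
    linarith

theorem le_wt {κ : Type*} [Fintype κ] [DecidableEq κ] {p : ℕ} (hp : 0 < p) {F : V κ} {m : ℤ}
    (hF : F ∈ Sp κ m) (w : ℕ) {β : κ → ℤ} (hβ : Val β)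
    (h : pw (Multiset.replicate w p) F β ≠ 0) : (w : ℤ) ≤ wt p β := by
  obtain ⟨γ, h1, h2, h3⟩ := exists_of_pw_ne p F w h
  have hγ : Val γ := Sp.val hF h1
  have h4 := sum_core_eq hp hβ hγ h2
  have h5 := sum_eq_core (p := p) β
  have h6 := sum_eq_core (p := p) γ
  have h7 := hγ.wt_nonneg hp
  have h8 : (p : ℤ) * wt p β = p * (wt p γ + w) := by linarith
  have h9 := mul_left_cancel₀ (by exact_mod_cast hp.ne' : (p : ℤ) ≠ 0) h8
  linarith

end SymD

variable {α : Type*} [Fintype α] [DecidableEq α] {p : ℕ} [Fact p.Prime] {J : Type*} [Fintype J]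

theorem sym_deg (χ : IrrCharacter (Perm α)) (ι : J × ZMod p ↪ α) {y : Perm α}
    (hy : ∀ a ∈ Set.range ι, y a = a) (h0 : (χ : Perm α → ℂ) (SnCh.xx ι * y) ≠ 0) :
    (charDegree (χ : Perm α → ℂ)).factorization p + Fintype.card J ≤
      (Fintype.card α).factorial.factorization p := by
  have hp : 0 < p := (Fact.out : p.Prime).pos
  obtain ⟨β, hβ⟩ := SnCh.exists_lab (N := Fintype.card α) le_rfl χ
  obtain ⟨ρ, hρ⟩ := parts_xx_mul ι hy
  obtain ⟨w, hw⟩ := SnCh.exists_wt hp hβ.val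
  have h1 : SnCh.th β (SnCh.xx ι * y) ≠ 0 := by
    obtain ⟨ε, he, e⟩ := hβ
    rw [e, Pi.smul_apply, smul_eq_mul]
    refine mul_ne_zero ?_ h0
    rcases he with rfl | rfl <;> simp
  have h2 : SnCh.pw (Multiset.replicate (Fintype.card J) p) (SnCh.Fr _ ρ) β ≠ 0 := by
    intro h3
    apply h1
    rw [SnCh.th, hρ, SnCh.Fr_add, h3, Rat.cast_zero]
  have h3 := SymD.le_wt hp (SnCh.Fr_mem ρ) _ hβ.val h2
  have h4 := hβ.factorization_charDegree hw
  rw [Nat.card_perm, Nat.card_eq_fintype_card] at h4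
  rw [hw] at h3
  have h5 : Fintype.card J ≤ w := by exact_mod_cast h3
  omega

theorem alt_deg (θ : IrrCharacter (alternatingGroup α)) (hJ : 2 ≤ Fintype.card J)
    (ι : J × ZMod p ↪ α) {y : Perm α} (hy : ∀ a ∈ Set.range ι, y a = a)
    {g : alternatingGroup α} (hg : (g : Perm α) = SnCh.xx ι * y)
    (h0 : (θ : alternatingGroup α → ℂ) g ≠ 0) :
    (charDegree (θ : alternatingGroup α → ℂ)).factorization p + Fintype.card J ≤
      (Fintype.card α).factorial.factorization p := by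
  obtain ⟨c, hc, hcg⟩ := exists_odd_comm hJ ι hy
  have : Nontrivial α := by
    by_contra hn
    rw [not_nontrivial_iff_subsingleton] at hn
    exact hc (Subsingleton.elim c 1 ▸ one_mem _)
  obtain ⟨χ, hχ⟩ := Blk.Om.exists_over_subtype (alternatingGroup α) θ
  have hχ' := Blk.Om.over_subtype_iff.1 hχ
  obtain ⟨a, ha⟩ := SnCh.add_conjChar_eq alternatingGroup.index_eq_two χ.2 θ.2 hχ' hc
  have h1 : Ch.conjChar c (θ : alternatingGroup α → ℂ) g = (θ : alternatingGroup α → ℂ) g :=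
    Ch.conjChar_apply_of_eq c _ g g (by rw [hg, hcg.eq, mul_inv_cancel_right])
  have h2 : (χ : Perm α → ℂ) (SnCh.xx ι * y) ≠ 0 := by
    intro h3
    have h4 := congrFun ha g
    rw [Pi.add_apply, h1, Pi.smul_apply, hg, h3, smul_zero, ← two_mul] at h4
    exact mul_ne_zero two_ne_zero h0 h4
  refine le_trans (Nat.add_le_add_right ?_ _) (sym_deg χ ι hy h2)
  have h3 : charDegree (θ : alternatingGroup α → ℂ) ∣ charDegree (χ : Perm α → ℂ) := by
    rcases SnCh.res_cases alternatingGroup.index_eq_two χ.2 θ.2 hχ' with h | h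
    · rw [← h]
      exact dvd_rfl
    · rw [h.2]
      exact Dvd.intro_left _ rfl
  exact (Nat.factorization_le_iff_dvd θ.2.charDegree_pos.ne' χ.2.charDegree_pos.ne').2 h3 p

end Cfsg.Agent.SpC
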