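import Mathlib
import Cfsg.Agent.SpC.Defs
import Cfsg.Agent.SpC.SD
import Cfsg.Agent.SpC.SymD
import Cfsg.Agent.SpC.Iso
import Cfsg.Agent.SpC.CG
import Cfsg.Agent.SpC.CC2
import Cfsg.Agent.Ch.Quotient
import Cfsg.Agent.Ch.Kernel

/-!
# The degree bound for characters of covers of alternating groups (S4578)
-/

set_option autoImplicit false

namespace Cfsg.Agent.SpC

open Finset Equiv

namespace X

theorem key_pm_of_central {H : Type*} [Group H] [Finite H] {χ : H → ℂ}
    (h : IsIrrCharacter H χ) {z : H} (hz : z ∈ Subgroup.center H) (h2 : z * z = 1)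
    (hne : χ z ≠ χ 1) : χ z = -χ 1 := by
  have h1 := h.apply_mul_of_mem_center hz z
  rw [h2] at h1
  have : (χ z - χ 1) * (χ z + χ 1) = 0 := by linear_combination -h1
  rcases mul_eq_zero.1 this with h3 | h3
  · exact absurd (sub_eq_zero.1 h3) hne
  · exact eq_neg_of_add_eq_zero_left h3

end X

variable {n : ℕ} {H : Type*} [Group H] [Finite H] {σ : H →* alternatingGroup (Fin n)}
  {p : ℕ} [Fact p.Prime] {J : Type*} [Fintype J]

theorem key_alt (hs : Function.Surjective σ) (χ : IrrCharacter H)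
    (hχ : ∀ x ∈ σ.ker, (χ : H → ℂ) x = (χ : H → ℂ) 1) (hJ : 2 ≤ Fintype.card J)
    (ι : J × ZMod p ↪ Fin n) {u y : H} (hu : tau σ u = SnCh.xx ι)
    (hy : ∀ a ∈ Set.range ι, tau σ y a = a) (h0 : (χ : H → ℂ) (u * y) ≠ 0) :
    (charDegree (χ : H → ℂ)).factorization p + Fintype.card J ≤ n.factorial.factorization p := by
  have hk : σ.ker ≤ Ch.charKer (χ : H → ℂ) := fun x hx => χ.2.mem_charKer.2 (hχ x hx)
  have hθ := χ.2.deflate hs hk
  have h1 := alt_deg (p := p) ⟨_, hθ⟩ hJ ι (y := tau σ y) hy (g := σ (u * y))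
    (by rw [← hu, ← map_mul]; rfl) (by
      show Ch.deflate σ (χ : H → ℂ) (σ (u * y)) ≠ 0
      rwa [Ch.deflate_apply hk])
  have h2 : charDegree (Ch.deflate σ (χ : H → ℂ)) = charDegree (χ : H → ℂ) := by
    unfold charDegree
    rw [Ch.deflate_one hk]
  simpa [h2] using h1

theorem key_odd (hn : 5 ≤ n) (hσ : IsStemExtension σ) (h2 : Nat.card σ.ker ∣ 2) (hp : Odd p)
    (χ : IrrCharacter H) (hJ : 2 ≤ Fintype.card J) (ι : J × ZMod p ↪ Fin n) {u y : H}
    (hu : tau σ u = SnCh.xx ι) (hup : ∃ k : ℕ, u ^ p ^ k = 1)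
    (hy : ∀ a ∈ Set.range ι, tau σ y a = a) (h0 : (χ : H → ℂ) (u * y) ≠ 0) :
    (charDegree (χ : H → ℂ)).factorization p + Fintype.card J ≤ n.factorial.factorization p := by
  by_cases hχ : ∀ x ∈ σ.ker, (χ : H → ℂ) x = (χ : H → ℂ) 1
  · exact key_alt hσ.1 χ hχ hJ ι hu hy h0
  push Not at hχ
  obtain ⟨z0, hz0, hne⟩ := hχ
  have hz1 : z0 ≠ 1 := by
    rintro rfl
    exact hne rfl
  have hc2 : Nat.card σ.ker = 2 := by
    rcases (Nat.dvd_prime Nat.prime_two).1 h2 with h | h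
    · exfalso
      rw [Subgroup.card_eq_one] at h
      rw [h] at hz0
      exact hz1 hz0
    · exact h
  have hzz : z0 * z0 = 1 := by
    have := pow_card_eq_one' (G := σ.ker) (x := ⟨z0, hz0⟩)
    rw [hc2, pow_two] at this
    exact congrArg Subtype.val this
  have hneg := X.key_pm_of_central χ.2 (hσ.2.1 hz0) hzz hne
  obtain ⟨G, _, _, π, z, T, hT⟩ := exists_tr (n := n) (by omega)
  obtain ⟨φ, hφ⟩ := hT.spin.exists_equiv (by simpa using hn) hσ hc2
  have hθ := χ.2.comp_mulEquiv φ.symm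
  have hz : ((φ z0 : Alt π) : G) = z := by
    have h1 : π (φ z0) = 1 := by
      rw [hφ]
      show ((σ z0 : alternatingGroup (Fin n)) : Perm (Fin n)) = 1
      rw [show σ z0 = 1 from hz0]
      rfl
    rcases (hT.spin.ker _).1 h1 with h | h
    · exfalso
      apply hz1
      apply φ.injective
      rw [map_one]
      exact Subtype.ext h
    · exact h
  have hu' : π (φ u) = SnCh.xx ι := by rw [hφ, hu]
  have hup' : ∃ k : ℕ, ((φ u : Alt π) : G) ^ p ^ k = 1 := by
    obtain ⟨k, hk⟩ := hup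
    refine ⟨k, ?_⟩
    rw [← Subgroup.coe_pow, ← map_pow, hk, map_one]
    rfl
  have hs' : Perm.sign (π (φ y)) = 1 := by
    rw [hφ]
    exact (σ y).2
  have hy' : ∀ a ∈ Set.range ι, π (φ y) a = a := by
    rw [hφ]
    exact hy
  obtain ⟨c, hc, hcc⟩ := hT.spin.exists_odd_comm hp hJ ι hu' hup' hs' hy'
  have h1 := hT.deg_le hp ⟨_, hθ⟩ (z' := φ z0) hz (by simpa using hneg) ι hy'
    (g := φ (u * y)) (by rw [← hu', ← map_mul, map_mul φ]; rfl) hc
    (by rw [map_mul φ]; exact hcc) (by simpa using h0)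
  have h3 : charDegree (fun x => (χ : H → ℂ) (φ.symm x)) = charDegree (χ : H → ℂ) := by
    unfold charDegree
    simp only [map_one]
  simpa [h3] using h1

end Cfsg.Agent.SpC
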