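import Mathlib
import Cfsg.Agent.SpC.Defs
import Cfsg.Agent.Loc.MssSyl
import Cfsg.Agent.GT.PGroupBasic

set_option autoImplicit false

namespace Cfsg.Agent.SpC

open Finset Equiv

open Cfsg.Agent.Loc.Mss in
theorem map_le_of_radical {H Q : Type*} [Group H] [Finite H] [Group Q] (τ : H →* Q)
    (hc : τ.ker ≤ Subgroup.center H) {p : ℕ} [Fact p.Prime] {D : Subgroup H} (hD : IsPGroup p D)
    (hrad : ∀ P : Subgroup H, IsPGroup p P → P ≤ Subgroup.normalizer (D : Set H) →
      Subgroup.normalizer (D : Set H) ≤ Subgroup.normalizer (P : Set H) → P ≤ D)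
    {K : Subgroup H} (hK : D ≤ K)
    (hN : Subgroup.normalizer (D : Set H) ≤ Subgroup.normalizer (K : Set H))
    (hp : IsPGroup p (K.map τ)) : K.map τ ≤ D.map τ := by
  have h1 : pResidualOf p K ≤ τ.ker := res_le_of_pow fun x hx => by
    obtain ⟨k, hk⟩ := pg_iff.1 hp _ (Subgroup.mem_map_of_mem τ hx)
    exact ⟨k, by rw [MonoidHom.mem_ker, map_pow, hk]⟩
  have h2 : PCl p K := pCl_of_res_le_cent (h1.trans (hc.trans (Subgroup.center_le_centralizer _)))
  have h3 := pCl_iff_syl.1 h2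
  have h4 : pCoreOf p K ≤ D := by
    by_contra hn
    have := h3.pg.isNilpotent
    have h5 := GT.PG.lt_inf_normalizer (lt_of_le_not_ge (h2 D hK hD) hn)
    exact h5.not_ge (hrad _ h3.pg.to_inf_left inf_le_right
      (norm_inf (norm_core hN) Subgroup.le_normalizer))
  refine (Subgroup.map_mono ((h3.sup_of_res_le h1).trans (sup_le_sup_left h4 _))).trans ?_
  rw [Subgroup.map_sup, (Subgroup.map_eq_bot_iff _).2 le_rfl, bot_sup_eq]

end Cfsg.Agent.SpC
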