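import Mathlib
import Cfsg.Agent.SpC.Defs
import Cfsg.Agent.SpC.Rad

set_option autoImplicit false

namespace Cfsg.Agent.SpC

open Finset Equiv

namespace Fix

variable {α : Type*}

/-- The permutations acting on every orbit of `E` like an element of `E`. -/
def Kp (E : Subgroup (Perm α)) : Subgroup (Perm α) where
  carrier := {x | ∀ a, ∃ d ∈ E, ∀ e ∈ E, x (e a) = d (e a)}
  one_mem' := fun _ => ⟨1, one_mem _, fun _ _ => rfl⟩
  mul_mem' := fun {x y} hx hy a => by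
    obtain ⟨d, hd, h1⟩ := hx a
    obtain ⟨d', hd', h2⟩ := hy a
    refine ⟨d * d', mul_mem hd hd', fun e he => ?_⟩
    rw [Perm.mul_apply, h2 e he]
    exact h1 (d' * e) (mul_mem hd' he)
  inv_mem' := fun {x} hx a => by
    obtain ⟨d, hd, h1⟩ := hx a
    refine ⟨d⁻¹, inv_mem hd, fun e he => ?_⟩
    rw [Perm.inv_eq_iff_eq]
    have := h1 (d⁻¹ * e) (mul_mem (inv_mem hd) he)
    rw [Perm.mul_apply] at this
    rw [this]; simp

theorem le_Kp (E : Subgroup (Perm α)) : E ≤ Kp E := fun d hd _ => ⟨d, hd, fun _ _ => rfl⟩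

theorem pg_Kp [Finite α] {E : Subgroup (Perm α)} {p : ℕ} [Fact p.Prime] (h : IsPGroup p E) : IsPGroup p (Kp E) := by
  obtain ⟨k, hk⟩ := IsPGroup.iff_card.1 h
  rintro ⟨x, hx⟩
  refine ⟨k, Subtype.ext (Equiv.ext fun a => ?_)⟩
  obtain ⟨d, hd, h1⟩ := hx a
  have h2 : ∀ n : ℕ, (x ^ n) a = (d ^ n) a := fun n => by
    induction n with
    | zero => rfl
    | succ n ih => rw [pow_succ', pow_succ', Perm.mul_apply, Perm.mul_apply, ih, h1 _ (pow_mem hd n)]
  have h3 : d ^ p ^ k = 1 := by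
    rw [← hk]; exact congrArg Subtype.val (pow_card_eq_one' (x := (⟨d, hd⟩ : E)))
  show (x ^ p ^ k) a = a
  rw [h2, h3]; rfl

theorem conj_Kp {E : Subgroup (Perm α)} {g x : Perm α} (h1 : ∀ e ∈ E, g * e * g⁻¹ ∈ E) (h2 : ∀ e ∈ E, g⁻¹ * e * g ∈ E)
    (hx : x ∈ Kp E) : g * x * g⁻¹ ∈ Kp E := fun a => by
  obtain ⟨d, hd, h⟩ := hx (g⁻¹ a)
  refine ⟨_, h1 d hd, fun e he => ?_⟩
  have := h _ (h2 e he)
  simp only [Perm.mul_apply, Perm.coe_inv, Equiv.apply_symm_apply] at this ⊢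
  rw [this]

theorem exists_res (E : Subgroup (Perm α)) {δ : Perm α} (hδ : δ ∈ E) (a : α) :
    ∃ r ∈ Kp E, r a = δ a ∧ ∀ b, (¬ ∃ e ∈ E, e a = b) → r b = b := by
  classical
  have h : ∀ b, (∃ e ∈ E, e a = δ b) ↔ ∃ e ∈ E, e a = b := fun b =>
    ⟨fun ⟨e, he, k⟩ => ⟨δ⁻¹ * e, mul_mem (inv_mem hδ) he, by rw [Perm.mul_apply, k]; simp⟩,
      fun ⟨e, he, k⟩ => ⟨δ * e, mul_mem hδ he, by rw [Perm.mul_apply, k]⟩⟩
  refine ⟨Perm.ofSubtype (δ.subtypePerm (p := fun b => ∃ e ∈ E, e a = b) h), fun b => ?_,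
    Perm.ofSubtype_subtypePerm_of_mem h ⟨1, one_mem _, rfl⟩, fun b hb => Perm.ofSubtype_apply_of_not_mem _ hb⟩
  by_cases hb : ∃ e ∈ E, e a = b
  · obtain ⟨e, he, rfl⟩ := hb
    exact ⟨δ, hδ, fun e' he' => Perm.ofSubtype_subtypePerm_of_mem h ⟨e' * e, mul_mem he' he, rfl⟩⟩
  · refine ⟨1, one_mem _, fun e' he' => Perm.ofSubtype_apply_of_not_mem _ fun ⟨e, he, k⟩ => hb ?_⟩
    exact ⟨e'⁻¹ * e, mul_mem (inv_mem he') he, by rw [Perm.mul_apply, k]; simp⟩

theorem fix_of_pow {Z : Perm α} {n : ℕ} (h : n.Coprime (orderOf Z)) {a : α} (k : (Z ^ n) a = a) : Z a = a := by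
  obtain ⟨m, hm⟩ := exists_pow_eq_self_of_coprime h
  rw [← hm]
  exact Perm.pow_apply_eq_self_of_apply_eq_self k m

theorem fix_of_orbit {E : Subgroup (Perm α)} {p : ℕ} (hE : IsPGroup p E) {Z : Perm α} (h : p.Coprime (orderOf Z))
    (hc : ∀ e ∈ E, Commute e Z) {a : α} (k : ∃ e ∈ E, e a = Z a) : Z a = a := by
  obtain ⟨e, he, k⟩ := k
  obtain ⟨m, hm⟩ := hE ⟨e, he⟩
  have h1 : ∀ n : ℕ, (Z ^ n) a = (e ^ n) a := fun n => by
    induction n with
    | zero => rfl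
    | succ n ih =>
      rw [pow_succ, Perm.mul_apply, ← k, ← Perm.mul_apply, ← ((hc e he).pow_right n).eq, Perm.mul_apply, ih,
        pow_succ', Perm.mul_apply]
  refine fix_of_pow (h.pow_left m) ?_
  rw [h1, show e ^ p ^ m = 1 from congrArg Subtype.val hm]; rfl

theorem core [Fintype α] [DecidableEq α] {E : Subgroup (Perm α)} {p : ℕ} [hp : Fact p.Prime] (hE : IsPGroup p E)
    (hK : ∀ x ∈ Kp E, Perm.sign x = 1 → x ∈ E) {Y : Perm α} (h : p.Coprime (orderOf Y))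
    (hc : ∀ e ∈ E, Commute e Y) {δ : Perm α} (hδ : δ ∈ E) {a : α} (ha : Y a ≠ a) : δ a = a := by
  obtain ⟨r, hr, r1, r2⟩ := exists_res E hδ a
  have n1 : ¬ ∃ e ∈ E, e a = Y a := fun k => ha (fix_of_orbit hE h hc k)
  rcases hp.out.eq_two_or_odd' with rfl | ho
  · have n2 : ¬ ∃ e ∈ E, e a = (Y ^ 2) a := fun k => ha (fix_of_pow h
      (fix_of_orbit hE (h.coprime_dvd_right (orderOf_pow_dvd 2)) (fun e he => (hc e he).pow_right 2) k))
    have n3 : ¬ ∃ e ∈ E, e a = Y (δ a) := fun ⟨e, he, k⟩ => n1 ⟨δ⁻¹ * e, mul_mem (inv_mem hδ) he, by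
      rw [Perm.mul_apply, k, ← Perm.mul_apply Y, ← (hc δ hδ).eq]; simp⟩
    have hx : r * (Y * r * Y⁻¹) ∈ E := hK _ (mul_mem hr (conj_Kp
      (fun e he => by rwa [← (hc e he).eq, mul_inv_cancel_right])
      (fun e he => by rwa [mul_assoc, (hc e he).eq, inv_mul_cancel_left]) hr)) (by
        simp only [map_mul, map_inv]
        rw [mul_comm (Perm.sign Y), mul_inv_cancel_right, Int.units_mul_self])
    have k := congrArg (fun x : Perm α => x (Y a)) (hc _ hx).eq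
    rw [sq, Perm.mul_apply] at n2
    simp only [Perm.mul_apply, Perm.coe_inv, Equiv.symm_apply_apply] at k
    rw [r2 _ n1, r2 _ n2, r1, r2 _ n3] at k
    exact (Y.injective (Y.injective k)).symm
  · obtain ⟨m, hm⟩ := pg_Kp hE ⟨r, hr⟩
    have s1 : Perm.sign r = 1 := by
      have h1 := congrArg Perm.sign (show r ^ p ^ m = 1 from congrArg Subtype.val hm)
      rw [map_pow, map_one] at h1
      rcases Int.units_eq_one_or (Perm.sign r) with k | k
      · exact k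
      · rw [k, (ho.pow).neg_one_pow] at h1
        exact absurd h1 (by decide)
    have k := congrArg (fun x : Perm α => x a) (hc _ (hK r hr s1)).eq
    simp only [Perm.mul_apply] at k
    rw [r2 _ n1, r1] at k
    exact (Y.injective k).symm

end Fix

theorem fix_of_radical {α : Type*} [Fintype α] [DecidableEq α] {H : Type*} [Group H] [Finite H]
    {σ : H →* alternatingGroup α} (hs : Function.Surjective σ)
    (hc : σ.ker ≤ Subgroup.center H) {p : ℕ} [Fact p.Prime] {D : Subgroup H} (hD : IsPGroup p D)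
    (hrad : ∀ P : Subgroup H, IsPGroup p P → P ≤ Subgroup.normalizer (D : Set H) →
      Subgroup.normalizer (D : Set H) ≤ Subgroup.normalizer (P : Set H) → P ≤ D)
    {y : H} (hy : ¬ p ∣ orderOf y) (hyD : ∀ d ∈ D, Commute d y) :
    ∀ d ∈ D, ∀ a, tau σ y a ≠ a → tau σ d a = a := by
  intro d hd a ha
  have hE := hD.map (tau σ)
  have cj : ∀ g ∈ Subgroup.normalizer (D : Set H), ∀ x ∈ (Fix.Kp (D.map (tau σ))).comap (tau σ),
      g * x * g⁻¹ ∈ (Fix.Kp (D.map (tau σ))).comap (tau σ) := fun g hg x hx => by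
    rw [Subgroup.mem_comap, map_mul, map_mul, map_inv]
    refine Fix.conj_Kp ?_ ?_ hx
    · rintro _ ⟨e, he, rfl⟩
      exact ⟨g * e * g⁻¹, (Subgroup.mem_normalizer_iff.1 hg e).1 he, by simp only [map_mul, map_inv]⟩
    · rintro _ ⟨e, he, rfl⟩
      exact ⟨g⁻¹ * e * g, (Subgroup.mem_normalizer_iff''.1 hg e).1 he, by simp only [map_mul, map_inv]⟩
  have hK := map_le_of_radical (tau σ) (fun x hx => hc (Subtype.ext hx)) hD hrad
    (K := (Fix.Kp (D.map (tau σ))).comap (tau σ)) (fun x hx => Fix.le_Kp _ ⟨x, hx, rfl⟩)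
    (fun g hg => Subgroup.mem_normalizer_iff.2 fun x => ⟨cj g hg x, fun k => by
      have := cj g⁻¹ (inv_mem hg) _ k
      rwa [show g⁻¹ * (g * x * g⁻¹) * g⁻¹⁻¹ = x by group] at this⟩)
    ((Fix.pg_Kp hE).to_le (Subgroup.map_comap_le _ _))
  refine Fix.core hE (fun x hx s => ?_) ?_ ?_ ⟨d, hd, rfl⟩ ha
  · obtain ⟨h, e⟩ := hs ⟨x, Perm.mem_alternatingGroup.2 s⟩
    have e' : tau σ h = x := congrArg Subtype.val e
    exact hK ⟨h, by rw [← e'] at hx; exact hx, e'⟩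
  · exact ((Nat.Prime.coprime_iff_not_dvd Fact.out).2 hy).coprime_dvd_right (orderOf_map_dvd _ y)
  · rintro _ ⟨e, he, rfl⟩
    exact (hyD e he).map _

end Cfsg.Agent.SpC
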