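import Mathlib
import Cfsg.Agent.SpC.Defs
import Cfsg.Agent.SpC.Fix
import Cfsg.Agent.Blk.Defect
import Cfsg.Agent.Blk.Contrib
import Cfsg.Agent.S0927
import Cfsg.Agent.Sym.Cover

/-!
# The image of a defect group in the alternating group (S4578)
-/

set_option autoImplicit false

namespace Cfsg.Agent.SpC

open Finset Equiv
open scoped commutatorElement

namespace X

theorem str_commute {H : Type*} [Group H] {x y : H} {a b : ℕ}
    (hc : ⁅x, y⁆ ∈ Subgroup.center H) (hx : x ^ a = 1) (hy : y ^ b = 1) (hab : a.Coprime b) :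
    Commute x y := by
  have h1 : ⁅x, y⁆ ^ a = 1 := by
    rw [← Sym.commutatorElement_pow_left_of_central hc, hx, commutatorElement_one_left]
  have hc' : ⁅y, x⁆ ∈ Subgroup.center H := by
    rw [← commutatorElement_inv]
    exact inv_mem hc
  have h2 : ⁅x, y⁆ ^ b = 1 := by
    have : ⁅y, x⁆ ^ b = 1 := by
      rw [← Sym.commutatorElement_pow_left_of_central hc', hy, commutatorElement_one_left]
    rw [← commutatorElement_inv, inv_pow, this, inv_one]
  have h3 : orderOf ⁅x, y⁆ ∣ Nat.gcd a b :=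
    Nat.dvd_gcd (orderOf_dvd_of_pow_eq_one h1) (orderOf_dvd_of_pow_eq_one h2)
  rw [hab.gcd_eq_one, Nat.dvd_one, orderOf_eq_one_iff] at h3
  exact commutatorElement_eq_one_iff_commute.1 h3

/-- A `p`-group `R` in the range of `τ` above `τ D` is covered by a `p`-group above `D`. -/
theorem str_lift {H Q : Type*} [Group H] [Finite H] [Group Q] (τ : H →* Q) {p : ℕ} [Fact p.Prime]
    {D : Subgroup H} (hD : IsPGroup p D) {R : Subgroup Q} (hR : IsPGroup p R)
    (hr : R ≤ τ.range) (hDR : D.map τ ≤ R) :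
    ∃ S : Subgroup H, IsPGroup p S ∧ D ≤ S ∧ S.map τ = R := by
  set K := R.comap τ with hK
  have hDK : D ≤ K := Subgroup.map_le_iff_le_comap.1 hDR
  obtain ⟨S, hS⟩ := (hD.comap_subtype (K := K)).exists_le_sylow
  let f : K →* R := (τ.comp K.subtype).codRestrict R fun x => x.2
  have hf : Function.Surjective f := by
    rintro ⟨r, hr'⟩
    obtain ⟨h, rfl⟩ := hr hr'
    exact ⟨⟨h, hr'⟩, rfl⟩
  have htop : (S : Subgroup K).map f = ⊤ := by
    have h1 := (S.mapSurjective hf).is_maximal' (Q := ⊤) (hR.to_subgroup ⊤) le_top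
    exact h1.symm
  refine ⟨(S : Subgroup K).map K.subtype, S.isPGroup'.map _, fun d hd => ?_, ?_⟩
  · exact ⟨⟨d, hDK hd⟩, hS hd, rfl⟩
  · apply le_antisymm
    · rintro _ ⟨_, ⟨x, -, rfl⟩, rfl⟩
      exact x.2
    · intro r hr'
      have : (⟨r, hr'⟩ : R) ∈ (S : Subgroup K).map f := htop ▸ Subgroup.mem_top _
      obtain ⟨x, hx, hx'⟩ := this
      exact ⟨x, ⟨x, hx, rfl⟩, congrArg Subtype.val hx'⟩

end X

theorem exists_struct {α : Type*} [Fintype α] [DecidableEq α] {H : Type*} [Group H] [Finite H]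
    {σ : H →* alternatingGroup α} (hs : Function.Surjective σ)
    (hc : σ.ker ≤ Subgroup.center H) {p : ℕ} [Fact p.Prime] {M : Ideal AlgInt}
    {B : Set (IrrCharacter H)} {D : Subgroup H} (hM : IsPModular p M) (hB : IsPBlock M B)
    (hD : IsDefectGroup p M B D) : ∃ y : H, MaxOn p {a | tau σ y a = a} (D.map (tau σ)) ∧
      ∀ u ∈ D, (∀ d ∈ D, u * d = d * u) → ∀ χ ∈ B, (χ : H → ℂ) (u * y) ≠ 0 := by
  have := hM.2.1
  have hpD := hD.isPGroup
  have hrad : ∀ P : Subgroup H, IsPGroup p P → P ≤ Subgroup.normalizer (D : Set H) →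
      Subgroup.normalizer (D : Set H) ≤ Subgroup.normalizer (P : Set H) → P ≤ D :=
    fun P h1 h2 h3 => hD.le_of_normal_in_normalizer hM hB h1 h2 h3
  obtain ⟨y, hy, P, hP⟩ := hD
  have hyp := Blk.Om.not_dvd_orderOf_of_isDefectClass hM hB hy
  have hyD : ∀ d ∈ D, Commute d y := by
    intro d hd
    rw [hP] at hd
    obtain ⟨x, -, rfl⟩ := hd
    exact (Subgroup.mem_centralizer_singleton_iff.1 x.2)
  refine ⟨y, ⟨hpD.map _, ?_, ?_, ?_⟩, ?_⟩
  · rintro _ ⟨d, -, rfl⟩
    exact (σ d).2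
  · rintro _ ⟨d, hd, rfl⟩ a ha
    exact fix_of_radical hs hc hpD hrad hyp hyD d hd a ha
  · intro R hR hRA hfix hDR
    obtain ⟨S, hS, hDS, rfl⟩ := X.str_lift (tau σ) hpD hR (fun r hr => by
      obtain ⟨h, hh⟩ := hs ⟨r, hRA hr⟩
      exact ⟨h, congrArg Subtype.val hh⟩) hDR
    have hSC : S ≤ Subgroup.centralizer ({y} : Set H) := by
      intro x hx
      rw [Subgroup.mem_centralizer_singleton_iff]
      have hdis : Perm.Disjoint (tau σ x) (tau σ y) := by
        intro a
        by_cases ha : tau σ y a = a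
        · exact Or.inr ha
        · exact Or.inl (hfix _ ⟨x, hx, rfl⟩ a ha)
      have hk : ⁅x, y⁆ ∈ σ.ker := by
        have h1 : tau σ ⁅x, y⁆ = 1 := by
          rw [map_commutatorElement]
          exact commutatorElement_eq_one_iff_commute.2 hdis.commute
        exact Subtype.ext h1
      obtain ⟨k, hk'⟩ := hS ⟨x, hx⟩
      exact X.str_commute (hc hk) (a := p ^ k) (congrArg Subtype.val hk') (pow_orderOf_eq_one y)
        (Nat.Coprime.pow_left _ ((Nat.Prime.coprime_iff_not_dvd Fact.out).2 hyp))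
    have hle : (P : Subgroup (Subgroup.centralizer ({y} : Set H))) ≤
        S.subgroupOf (Subgroup.centralizer ({y} : Set H)) := by
      intro x hx
      exact hDS (hP ▸ ⟨x, hx, rfl⟩)
    have heq := P.is_maximal' hS.comap_subtype hle
    refine Subgroup.map_mono fun x hx => ?_
    rw [hP]
    refine ⟨⟨x, hSC hx⟩, ?_, rfl⟩
    have : (⟨x, hSC hx⟩ : Subgroup.centralizer ({y} : Set H)) ∈
        S.subgroupOf (Subgroup.centralizer ({y} : Set H)) := hx
    exact heq ▸ this
  · intro u hu hcen χ hχ h0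
    rw [hP] at hu
    obtain ⟨x, hx, rfl⟩ := hu
    refine (S0927.result p M hM B hB y hy P x hx).2 (fun w hw => ?_) χ hχ ?_
    · exact Subtype.ext (hcen w (hP ▸ ⟨w, hw, rfl⟩))
    · refine ⟨0, 1, M.zero_mem, fun h1 => this.ne_top ((Ideal.eq_top_iff_one M).2 h1), ?_⟩
      have h0' : (χ : H → ℂ) ((x : H) * y) = 0 := h0
      simp [centralChar, h0']

end Cfsg.Agent.SpC
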