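import Mathlib
import Cfsg.Agent.SpC.Defs

set_option autoImplicit false

namespace Cfsg.Agent.SpC

open Finset Equiv

namespace WrF

theorem ofSubtype_wrEmb {α β A : Type*} [AddGroup A] {F : Set α} [DecidablePred (· ∈ F)]
    (ι0 : β × A ↪ {x // x ∈ F}) (σ : Perm β) (v : β → A) :
    Perm.ofSubtype (Sym.wrEmb ι0 σ v) =
      Sym.wrEmb (ι0.trans (Function.Embedding.subtype _)) σ v := by
  refine Sym.eq_wrEmb_of_apply _ (fun i s => ?_) fun x hx => ?_
  · change Perm.ofSubtype (Sym.wrEmb ι0 σ v) ((ι0 (i, s) : {x // x ∈ F}) : α) = _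
    rw [Perm.ofSubtype_apply_coe, Sym.wrEmb_apply]
    rfl
  · by_cases hF : x ∈ F
    · rw [Perm.ofSubtype_apply_of_mem _ hF, Sym.wrEmb_apply_of_not_mem]
      rintro ⟨y, hy⟩
      exact hx ⟨y, by simp [hy]⟩
    · exact Perm.ofSubtype_apply_of_not_mem _ hF

end WrF

theorem MaxOn.exists_wr {α : Type*} [Fintype α] [DecidableEq α] {p : ℕ} [Fact p.Prime]
    {F : Set α} {R : Subgroup (Perm α)} (h : MaxOn p F R) :
    ∃ (w : ℕ) (ι : Fin w × ZMod p ↪ α) (Q : Sylow p (Perm (Fin w))), Set.range ι ⊆ F ∧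
      R = Sym.wr ι (Q : Subgroup (Perm (Fin w))) ⊓ alternatingGroup α := by
  classical
  set φ : Perm {x // x ∈ F} →* Perm α := Perm.ofSubtype with hφ
  have hR' : IsPGroup p (R.comap φ) :=
    h.pg.comap_of_injective φ Perm.ofSubtype_injective
  obtain ⟨P, hP⟩ := hR'.exists_le_sylow
  obtain ⟨Q⟩ : Nonempty (Sylow p (Perm (Fin (Fintype.card {x // x ∈ F} / p)))) := inferInstance
  obtain ⟨ι0, hι0⟩ := Sym.exists_eq_wr (β := Fin (Fintype.card {x // x ∈ F} / p))
    (Fintype.card_fin _) P Q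
  refine ⟨_, ι0.trans (Function.Embedding.subtype _), Q, ?_, ?_⟩
  · rintro _ ⟨y, rfl⟩
    exact (ι0 y).2
  have hle : R ≤ Sym.wr (ι0.trans (Function.Embedding.subtype _))
      (Q : Subgroup (Perm (Fin (Fintype.card {x // x ∈ F} / p)))) ⊓ alternatingGroup α := by
    intro g hg
    refine ⟨?_, h.le hg⟩
    have hfix := h.fix g hg
    have h1 : ∀ x, g x ∈ F ↔ x ∈ F := by
      intro x
      constructor
      · intro hx
        by_contra hx'
        rw [hfix x hx'] at hx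
        exact hx' hx
      · intro hx
        by_contra hx'
        have := g.injective (hfix _ hx')
        rw [this] at hx'
        exact hx' hx
    have h2 : φ (g.subtypePerm h1) = g :=
      Perm.ofSubtype_subtypePerm h1 fun x hx => by
        by_contra hx'
        exact hx (hfix x hx')
    have h3 : g.subtypePerm h1 ∈ (P : Subgroup (Perm {x // x ∈ F})) :=
      hP (show φ (g.subtypePerm h1) ∈ R by rw [h2]; exact hg)
    rw [hι0] at h3
    obtain ⟨σ, hσ, v, hv⟩ := Sym.mem_wr.1 h3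
    refine Sym.mem_wr.2 ⟨σ, hσ, v, ?_⟩
    rw [← h2, hv]
    exact WrF.ofSubtype_wrEmb ι0 σ v
  refine le_antisymm hle (h.max _ (SnCh.isPGroup_wr _ Q.isPGroup').to_inf_left inf_le_right
    ?_ hle)
  rintro g ⟨hg, -⟩ a ha
  obtain ⟨σ, -, v, rfl⟩ := Sym.mem_wr.1 hg
  refine Sym.wrEmb_apply_of_not_mem _ _ _ ?_
  rintro ⟨y, rfl⟩
  exact ha (ι0 y).2

end Cfsg.Agent.SpC
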