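import Mathlib
import Cfsg.Agent.SpC.Defs

/-! The centre of the wreath product (PLAN: WrZ). -/

set_option autoImplicit false

namespace Cfsg.Agent.SpC

open Finset Equiv

variable {α : Type*} [Fintype α] [DecidableEq α] {p : ℕ} [Fact p.Prime] {w : ℕ}

theorem wr_le_alt (hp : Odd p) (ι : Fin w × ZMod p ↪ α) {Q : Subgroup (Perm (Fin w))}
    (hQ : IsPGroup p Q) : Sym.wr ι Q ≤ alternatingGroup α := fun g hg => by
  obtain ⟨k, hk⟩ := SnCh.isPGroup_wr ι hQ ⟨g, hg⟩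
  have e := congrArg (fun x : Sym.wr ι Q => Perm.sign (x : Perm α)) hk
  simp only [Subgroup.coe_pow, map_pow, Subgroup.coe_one, map_one] at e
  refine (Int.units_eq_one_or _).resolve_right fun h => ?_
  rw [h, hp.pow.neg_one_pow] at e
  exact absurd e (by decide)

omit [Fintype α] [DecidableEq α] in
theorem xx_comm (ι : Fin w × ZMod p ↪ α) (Q : Subgroup (Perm (Fin w))) :
    ∀ g ∈ Sym.wr ι Q, SnCh.xx ι * g = g * SnCh.xx ι := by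
  rintro _ ⟨σ, -, v, rfl⟩
  rw [SnCh.xx, Sym.wrEmb_mul, Sym.wrEmb_mul, one_mul, mul_one, add_comm]
  rfl

omit [Fintype α] [DecidableEq α] in
theorem WrZ.eq_one (ι : Fin w × ZMod p ↪ α) {σ : Perm (Fin w)} {v : Fin w → ZMod p}
    (h : ∀ u, Sym.wrEmb ι 1 u * Sym.wrEmb ι σ v = Sym.wrEmb ι σ v * Sym.wrEmb ι 1 u) : σ = 1 := by
  ext1 i
  have := h (Pi.single i 1)
  rw [Sym.wrEmb_mul, Sym.wrEmb_mul] at this
  by_contra k
  have := congrFun (Sym.wrEmb_inj ι this).2 i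
  simp [Pi.single_eq_of_ne (show σ i ≠ i from k)] at this

theorem wr_cases (ι : Fin w × ZMod p ↪ α) (Q : Subgroup (Perm (Fin w))) :
    (IsMulCommutative (Sym.wr ι Q) ∧ Nat.card (Sym.wr ι Q) = p ^ w) ∨
      (2 ≤ w ∧ ¬ IsMulCommutative (Sym.wr ι Q) ∧
        Nat.card (Subgroup.center (Sym.wr ι Q)) < p ^ w) := by
  have c0 : Nat.card (Sym.wr ι ⊥) = p ^ w := by simp [Sym.card_wr]
  rcases eq_or_ne Q ⊥ with rfl | hQ
  · exact .inl ⟨⟨⟨fun a b => Subtype.ext (SnCh.wr_bot_comm ι a.2 b.2)⟩⟩, c0⟩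
  obtain ⟨⟨σ, hσ⟩, σ1⟩ := Subgroup.ne_bot_iff_exists_ne_one.1 hQ
  replace σ1 : σ ≠ 1 := fun k => σ1 (Subtype.ext k)
  have m : ∀ u, Sym.wrEmb ι 1 u ∈ Sym.wr ι Q := fun u => Sym.wrEmb_mem_wr.2 (one_mem _)
  have s : Sym.wrEmb ι σ 0 ∈ Sym.wr ι Q := Sym.wrEmb_mem_wr.2 hσ
  refine .inr ⟨?_, fun h => σ1 (WrZ.eq_one ι fun u => congrArg Subtype.val (h.1.1 ⟨_, m u⟩ ⟨_, s⟩)), ?_⟩
  · by_contra k
    have : Subsingleton (Fin w) := Fin.subsingleton_iff_le_one.2 (by omega)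
    exact σ1 (Subsingleton.elim ..)
  rw [← Subgroup.card_subtype, ← c0]
  refine Set.Finite.card_lt_card (Set.toFinite _) ⟨?_, fun h => σ1 (WrZ.eq_one ι (v := 0) fun u => ?_)⟩
  · rintro _ ⟨⟨_, τ, hτ, v, rfl⟩, hx, rfl⟩
    exact Sym.wrEmb_mem_wr.2 (WrZ.eq_one ι fun u => congrArg Subtype.val (Subgroup.mem_center_iff.1 hx ⟨_, m u⟩))
  · obtain ⟨x, hx, e⟩ := h (Sym.wrEmb_mem_wr.2 (one_mem _) : Sym.wrEmb ι 1 u ∈ Sym.wr ι ⊥)
    exact e ▸ (congrArg Subtype.val (Subgroup.mem_center_iff.1 hx ⟨_, s⟩)).symm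

end Cfsg.Agent.SpC
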