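import Mathlib
import Cfsg.Agent.SpC.Defs
import Cfsg.Agent.SpC.Gen
import Cfsg.Agent.SpC.Str
import Cfsg.Agent.SpC.WrF
import Cfsg.Agent.SpC.WrZ
import Cfsg.Agent.SpC.Key
import Cfsg.Agent.Sym.CoverEx
import Cfsg.Agent.Blk.Defect

set_option autoImplicit false

namespace Cfsg.Agent.SpC

open Finset Equiv

theorem concl_odd {n : ℕ} (hn : 5 ≤ n) {H : Type*} [Group H] [Finite H]
    {σ : H →* alternatingGroup (Fin n)} (hσ : IsStemExtension σ) {p : ℕ} [Fact p.Prime]
    (hp : Odd p) (hz : ¬ p ∣ Nat.card σ.ker) {M : Ideal AlgInt}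
    {B : Set (IrrCharacter H)} {D : Subgroup H} {χ : IrrCharacter H} (hM : IsPModular p M)
    (hB : IsPBlock M B) (hD : IsDefectGroup p M B D) (hχ : χ ∈ B) : Concl p B D χ := by
  have h4 : 4 ≤ Fintype.card (Fin n) := by rw [Fintype.card_fin]; omega
  have hpp : p.Prime := Fact.out
  have h6 := Sym.card_ker_dvd_six hσ h4
  obtain ⟨y, hmax, hy⟩ := exists_struct hσ.1 hσ.2.1 hM hB hD
  have hP := hD.isPGroup
  have hinj : ∀ d ∈ D, tau σ d = 1 → d = 1 := by
    intro d hd h
    have hk : d ∈ σ.ker := Subtype.ext h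
    obtain ⟨k, hk'⟩ := hP ⟨_, hd⟩
    have e1 : d ^ p ^ k = 1 := congrArg Subtype.val hk'
    have e2 : d ^ Nat.card σ.ker = 1 :=
      congrArg Subtype.val (pow_card_eq_one' (x := (⟨d, hk⟩ : σ.ker)))
    have := pow_gcd_eq_one.2 ⟨e1, e2⟩
    rwa [Nat.Coprime.gcd_eq_one
      (Nat.Coprime.pow_left k ((Nat.Prime.coprime_iff_not_dvd hpp).2 hz)), pow_one] at this
  obtain ⟨t1, t2, t3⟩ := map_transfer (tau σ) D hinj
  obtain ⟨w, ι, Q, hι, hR⟩ := hmax.exists_wr
  rw [inf_eq_left.2 (wr_le_alt hp ι Q.isPGroup')] at hR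
  rw [hR] at t1 t2 t3
  by_cases hs : Nat.card D ≤ p ^ 2
  · exact concl_of_small hM hB hD hχ hs
  have hw : 2 ≤ w := by
    rcases wr_cases ι (Q : Subgroup (Perm (Fin w))) with ⟨-, h⟩ | ⟨h, -⟩
    · by_contra h2
      exact hs (by rw [← t1, h]; exact Nat.pow_le_pow_right hpp.pos (by omega))
    · exact h
  have hwn : w * p ≤ n := by
    have : NeZero p := ⟨hpp.ne_zero⟩
    simpa only [Fintype.card_prod, Fintype.card_fin, ZMod.card] using
      Fintype.card_le_of_embedding ι
  have h2 : Nat.card σ.ker ∣ 2 := by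
    by_cases h67 : n = 6 ∨ n = 7
    · have h3 : p = 3 := by
        have := hpp.two_le
        obtain ⟨j, rfl⟩ := hp
        have : 2 * (2 * j + 1) ≤ n := (Nat.mul_le_mul_right _ hw).trans hwn
        omega
      subst h3
      exact (Nat.Coprime.dvd_mul_right
        ((Nat.Prime.coprime_iff_not_dvd hpp).2 hz).symm).1 (show _ ∣ 2 * 3 from h6)
    · push Not at h67
      exact Sym.card_ker_dvd_two hσ h4 (by simpa using h67.1) (by simpa using h67.2)
  obtain ⟨u, hu, hux⟩ : SnCh.xx ι ∈ D.map (tau σ) := hR ▸ SnCh.xx_mem ι _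
  have huc : ∀ d ∈ D, u * d = d * u := by
    intro d hd
    have e := xx_comm ι _ (tau σ d) (hR ▸ Subgroup.mem_map_of_mem _ hd)
    rw [← hux, ← map_mul, ← map_mul, ← mul_inv_eq_one, ← map_inv, ← map_mul] at e
    exact mul_inv_eq_one.1 (hinj _ (D.mul_mem (D.mul_mem hu hd) (D.inv_mem (D.mul_mem hd hu))) e)
  have key := key_odd hn hσ h2 hp χ (by rwa [Fintype.card_fin]) ι hux
    ((hP ⟨u, hu⟩).imp fun k hk => congrArg Subtype.val hk) (fun a ha => hι ha)
    (hy u hu huc χ hχ)
  rw [Fintype.card_fin] at key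
  have hH : (Nat.card H).factorization p = n.factorial.factorization p := by
    have : Nontrivial (Fin n) := Fin.nontrivial_iff_two_le.2 (by omega)
    have e : 2 * Nat.card H = Nat.card σ.ker * n.factorial := by
      rw [← Subgroup.card_mul_index σ.ker, Subgroup.index_ker, MonoidHom.range_eq_top.2 hσ.1,
        Subgroup.card_top, mul_left_comm, two_mul_nat_card_alternatingGroup, Nat.card_perm,
        Nat.card_eq_fintype_card (α := Fin n), Fintype.card_fin]
    have e2 := congrArg (fun x => x.factorization p) e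
    simp only [Nat.factorization_mul two_ne_zero Nat.card_pos.ne',
      Nat.factorization_mul Nat.card_pos.ne' (Nat.factorial_ne_zero n), Finsupp.add_apply] at e2
    rwa [Nat.factorization_eq_zero_of_not_dvd hz, Nat.factorization_eq_zero_of_not_dvd
      (fun h => absurd hp (by rw [(Nat.prime_dvd_prime_iff_eq hpp Nat.prime_two).1 h]; decide)),
      zero_add, zero_add] at e2
  rw [← hH] at key
  rcases wr_cases ι (Q : Subgroup (Perm (Fin w))) with ⟨h1, h⟩ | ⟨-, h1, h⟩
  · exact concl_of_comm hM hB hD hχ (t3.1 h1) (t1 ▸ h) key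
  · exact concl_of_lt hM hB hD hχ (fun h => h1 (t3.2 h)) (t2 ▸ h) key

end Cfsg.Agent.SpC
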