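import Mathlib
import Cfsg.Agent.SpC.Defs
import Cfsg.Agent.SpC.Gen
import Cfsg.Agent.Sym.CoverEx
import Cfsg.Agent.Blk.Defect
import Cfsg.Agent.S0088

set_option autoImplicit false

namespace Cfsg.Agent.SpC

open Finset Equiv

theorem concl_three {n : ℕ} (hn : 5 ≤ n) {H : Type*} [Group H] [Finite H]
    {σ : H →* alternatingGroup (Fin n)} (hσ : IsStemExtension σ) {p : ℕ} [Fact p.Prime]
    (hp : Odd p) (hz : p ∣ Nat.card σ.ker) {M : Ideal AlgInt}
    {B : Set (IrrCharacter H)} {D : Subgroup H} {χ : IrrCharacter H} (hM : IsPModular p M)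
    (hB : IsPBlock M B) (hD : IsDefectGroup p M B D) (hχ : χ ∈ B) : Concl p B D χ := by
  have h4 : 4 ≤ Fintype.card (Fin n) := by rw [Fintype.card_fin]; omega
  have hpp : p.Prime := Fact.out
  have h6 := Sym.card_ker_dvd_six hσ h4
  have hp2 : p ≠ 2 := by rintro rfl; exact absurd hp (by decide)
  have hp3 : p = 3 := by
    rcases (Nat.Prime.dvd_mul hpp).1 (show p ∣ 2 * 3 from hz.trans h6) with h | h
    · exact absurd ((Nat.prime_dvd_prime_iff_eq hpp Nat.prime_two).1 h) hp2
    · exact (Nat.prime_dvd_prime_iff_eq hpp Nat.prime_three).1 h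
  subst hp3
  have hn67 : n = 6 ∨ n = 7 := by
    by_contra h
    push Not at h
    exact absurd (hz.trans (Sym.card_ker_dvd_two hσ h4 (by simpa using h.1) (by simpa using h.2)))
      (by norm_num)
  have : Nontrivial (Fin n) := Fin.nontrivial_iff_two_le.2 (by omega)
  have hH : Nat.card H = Nat.card σ.ker * (n.factorial / 2) := by
    rw [← Subgroup.card_mul_index σ.ker, Subgroup.index_ker, MonoidHom.range_eq_top.2 hσ.1,
      Subgroup.card_top, nat_card_alternatingGroup, Nat.card_eq_fintype_card (α := Fin n),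
      Fintype.card_fin]
  have h81 : ¬ 3 ^ 4 ∣ Nat.card H := by
    intro h
    have := h.trans (hH ▸ Nat.mul_dvd_mul_right h6 (n.factorial / 2))
    rcases hn67 with rfl | rfl <;> revert this <;> decide
  obtain ⟨d, hd⟩ := IsPGroup.iff_card.1 hD.isPGroup
  by_cases hd2 : d ≤ 2
  · exact concl_of_small hM hB hD hχ (hd ▸ Nat.pow_le_pow_right (by norm_num) hd2)
  have hd3 : d = 3 := by
    by_contra h
    exact h81 ((pow_dvd_pow 3 (by omega)).trans (hd ▸ Subgroup.card_subgroup_dvd_card D))
  subst hd3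
  have hnc : ¬ IsMulCommutative D := by
    intro hc
    have hcop : (Nat.card D).Coprime D.index := by
      rw [hd]
      refine Nat.Coprime.pow_left 3 ((Nat.Prime.coprime_iff_not_dvd hpp).2 fun h => h81 ?_)
      rw [← Subgroup.card_mul_index D, hd, pow_succ]
      exact Nat.mul_dvd_mul_left _ h
    have hb := S0088.result D hc hcop
    obtain ⟨z, hz3⟩ := exists_prime_orderOf_dvd_card' 3 hz
    have hzc : (z : H) ∈ Subgroup.center H := hσ.2.1 z.2
    have hM' := hM.2.1
    have : (Subgroup.zpowers (z : H)).Normal := ⟨fun x hx g => by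
      rwa [Subgroup.mem_center_iff.1 (Subgroup.zpowers_le.2 hzc hx) g, mul_inv_cancel_right]⟩
    have hzD : (z : H) ∈ D := hD.normal_le hM hB (P := Subgroup.zpowers (z : H))
      (IsPGroup.of_card (n := 1) (by rw [Nat.card_zpowers, Subgroup.orderOf_coe, hz3, pow_one]))
      (Subgroup.mem_zpowers _)
    have h1 : (z : H) ∈ (⊥ : Subgroup H) := hb ▸ ⟨⟨hzD, hσ.2.2 z.2⟩, hzc⟩
    rw [← Subgroup.orderOf_coe, Subgroup.mem_bot.1 h1, orderOf_one] at hz3
    exact absurd hz3 (by norm_num)
  refine concl_of_center hM hB hD hχ hnc ?_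
  obtain ⟨c, hc3, hc⟩ := (Nat.dvd_prime_pow hpp).1
    (hd ▸ Subgroup.card_subgroup_dvd_card (Subgroup.center D))
  by_contra hlt
  have hc2 : 2 ≤ c := by
    by_contra h
    exact hlt (hc ▸ (Nat.pow_le_pow_right (by norm_num) (by omega : c ≤ 1)).trans (by norm_num))
  have hi := Subgroup.card_mul_index (Subgroup.center D)
  rw [hc, hd] at hi
  have hcyc : IsCyclic (D ⧸ Subgroup.center D) := by
    refine isCyclic_of_card_dvd_prime (p := 3) ?_
    rw [← Subgroup.index_eq_card]
    interval_cases c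
    · exact ⟨1, by omega⟩
    · exact ⟨3, by omega⟩
  exact hnc (MonoidHom.isMulCommutative_of_isCyclic_of_ker_le_center
    (QuotientGroup.mk' (Subgroup.center D)) (QuotientGroup.ker_mk' _).le)

end Cfsg.Agent.SpC
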