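import Mathlib
import Cfsg.Agent.SpC.Defs
import Cfsg.Agent.SnCh.Alt
import Cfsg.Agent.Sym.SylowDec

set_option autoImplicit false

namespace Cfsg.Agent.SpC

open Finset Equiv Cfsg.Agent.Sym

theorem WrT.small {α : Type*} [Fintype α] [DecidableEq α] {w : ℕ} (hw : w ≤ 2)
    (ι : Fin w × ZMod 2 ↪ α) (Q : Subgroup (Perm (Fin w))) :
    Nat.card (wr ι Q ⊓ alternatingGroup α : Subgroup (Perm α)) ≤ 4 := by
  have h1 : Nat.card Q ≤ 2 := by
    refine (Subgroup.card_le_card_group Q).trans ?_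
    rw [Nat.card_eq_fintype_card, Fintype.card_perm, Fintype.card_fin]
    exact Nat.factorial_le hw
  have h2 := card_wr (ι := ι) Q
  rw [Nat.card_zmod, Nat.card_fin] at h2
  have hle : wr ι Q ⊓ alternatingGroup α ≤ wr ι Q := inf_le_left
  rcases hw.lt_or_eq with h | rfl
  · have h3 : 2 ^ w ≤ 2 ^ 1 := Nat.pow_le_pow_right (by norm_num) (by omega)
    exact (Subgroup.card_le_of_le hle).trans (h2 ▸ (Nat.mul_le_mul h3 h1).trans (by norm_num))
  · obtain ⟨c, hc⟩ := Subgroup.card_dvd_of_le hle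
    have h4 : c ≠ 1 := fun e => SnCh.wr_not_le ι Q
      (inf_eq_left.1 (Subgroup.eq_of_le_of_card_ge hle (by rw [hc, e, mul_one])))
    have h5 : c ≠ 0 := fun e => Nat.card_pos.ne' (by rw [hc, e, mul_zero])
    have h6 : 2 ≤ c := by omega
    have h7 := Nat.mul_le_mul_left
      (Nat.card (wr ι Q ⊓ alternatingGroup α : Subgroup (Perm α))) h6
    omega

theorem WrT.top_one {α : Type*} [Fintype α] [DecidableEq α] {w : ℕ} (hw : 3 ≤ w)
    {ι : Fin w × ZMod 2 ↪ α} {Q : Subgroup (Perm (Fin w))} {σ : Perm (Fin w)} {v : Fin w → ZMod 2}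
    (h : ∀ g ∈ wr ι Q ⊓ alternatingGroup α, g * wrEmb ι σ v = wrEmb ι σ v * g) : σ = 1 := by
  ext1 i
  by_contra hi
  obtain ⟨j, -, hj⟩ : ∃ j ∈ (univ : Finset (Fin w)), j ∉ ({i, σ i} : Finset (Fin w)) :=
    exists_mem_notMem_of_card_lt_card (card_le_two.trans_lt (by rw [card_univ, Fintype.card_fin]; omega))
  rw [mem_insert, mem_singleton, not_or] at hj
  have h1 := h _ (wrEmb_pair_mem_wrA (ι := ι) (Q := Q) i j)
  rw [wrEmb_mul, wrEmb_mul] at h1
  have h2 := congrFun (wrEmb_inj ι h1).2 i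
  have hi' : σ i ≠ i := hi
  simp [hi', Ne.symm hj.1, Ne.symm hj.2] at h2

theorem wr_two_cases {α : Type*} [Fintype α] [DecidableEq α] {w : ℕ} (ι : Fin w × ZMod 2 ↪ α)
    (Q : Sylow 2 (Perm (Fin w))) {R : Subgroup (Perm α)}
    (hR : R = Sym.wr ι (Q : Subgroup (Perm (Fin w))) ⊓ alternatingGroup α) :
    Nat.card R ≤ 4 ∨ (¬ IsMulCommutative R ∧
      ∃ (k : ℕ) (ι' : (Fin k × ZMod 2) × ZMod 2 ↪ α), Set.range ι' ⊆ Set.range ι ∧
        SnCh.xx ι' ∈ R ∧ (∀ g ∈ R, SnCh.xx ι' * g = g * SnCh.xx ι') ∧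
        Nat.card (Subgroup.center R) ≤ 2 ^ k) := by
  classical
  subst hR
  rcases le_or_gt w 2 with hw | hw
  · exact Or.inl (WrT.small hw ι _)
  right
  obtain ⟨Q2⟩ : Nonempty (Sylow 2 (Perm (Fin (w / 2)))) := inferInstance
  obtain ⟨ι2, hQ⟩ := exists_eq_wr (p := 2) (α := Fin w) (β := Fin (w / 2)) (by simp) Q Q2
  rw [hQ]
  obtain ⟨Q3, hQ3⟩ : ∃ Q3, Q3 = wr ι2 (Q2 : Subgroup (Perm (Fin (w / 2)))) := ⟨_, rfl⟩
  rw [← hQ3]
  have top : ∀ σ ∈ Q3, wrEmb ι σ 0 ∈ wr ι Q3 ⊓ alternatingGroup α := fun σ hσ =>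
    Subgroup.mem_inf.2 ⟨wrEmb_mem_wr.2 hσ, wrTop_mem_alternatingGroup ι σ⟩
  have hx : SnCh.xx ι2 ∈ Q3 := hQ3 ▸ SnCh.xx_mem ι2 _
  have cardr : #(univ.map ι2) = w / 2 * 2 := by simp
  refine ⟨fun hc => ?_, w / 2, (ι2.prodMap (Function.Embedding.refl _)).trans ι, ?_, ?_⟩
  · have h1 := WrT.top_one hw (ι := ι) (Q := Q3) (σ := SnCh.xx ι2) (v := 0) fun g hg =>
      congrArg Subtype.val (hc.is_comm.comm (⟨g, hg⟩ : (wr ι Q3 ⊓ alternatingGroup α : Subgroup (Perm α)))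
        ⟨_, top _ hx⟩)
    exact (SnCh.xx_apply_ne ι2).2 ⟨(⟨0, by omega⟩, 0), rfl⟩ (by rw [h1]; rfl)
  · rintro _ ⟨x, rfl⟩
    exact ⟨_, rfl⟩
  have e : SnCh.xx ((ι2.prodMap (Function.Embedding.refl (ZMod 2))).trans ι) =
      wrEmb ι 1 fun i => if i ∈ Set.range ι2 then 1 else 0 := by
    refine eq_wrEmb_of_apply ι (fun i s => ?_) fun x hx => wrEmb_apply_of_not_mem _ _ _ ?_
    · by_cases hi : i ∈ Set.range ι2
      · obtain ⟨a, rfl⟩ := hi
        rw [if_pos ⟨a, rfl⟩]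
        exact wrEmb_apply ((ι2.prodMap (Function.Embedding.refl (ZMod 2))).trans ι) 1 _ a s
      · rw [if_neg hi, zero_add]
        refine wrEmb_apply_of_not_mem _ _ _ ?_
        rintro ⟨⟨a, t⟩, h⟩
        exact hi ⟨a, (Prod.mk.inj (ι.injective h)).1⟩
    · rintro ⟨y, rfl⟩
      exact hx ⟨_, rfl⟩
  rw [e]
  refine ⟨Subgroup.mem_inf.2 ⟨wrEmb_mem_wr.2 (one_mem _), ?_⟩, ?_, ?_⟩
  · rw [wrEmb_mem_alternatingGroup_iff, sum_boole,
      show filter (· ∈ Set.range ι2) univ = univ.map ι2 by ext; simp, cardr, Nat.cast_mul]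
    exact mul_zero _
  · rintro _ ⟨⟨σ, hσ, v, rfl⟩, -⟩
    rw [wrEmb_mul, wrEmb_mul, one_mul, mul_one, add_comm]
    congr 2
    ext i
    rw [hQ3] at hσ
    obtain ⟨τ, -, u, rfl⟩ := hσ
    by_cases hi : i ∈ Set.range ι2
    · obtain ⟨⟨a, s⟩, rfl⟩ := hi
      simp [wrEmb_apply]
    · rw [Function.comp_apply, wrEmb_apply_of_not_mem _ _ _ hi]
  · have key : ∀ x : Subgroup.center (wr ι Q3 ⊓ alternatingGroup α : Subgroup (Perm α)),
        ∃ v : Fin w → ZMod 2, (x.1.1 : Perm α) = wrEmb ι 1 v ∧ ∑ i, v i = 0 ∧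
          v ∘ SnCh.xx ι2 = v := by
      rintro ⟨⟨_, ⟨σ, hσ, v, rfl⟩, ha⟩, hc⟩
      have hc' : ∀ g ∈ wr ι Q3 ⊓ alternatingGroup α, g * wrEmb ι σ v = wrEmb ι σ v * g :=
        fun g hg => congrArg Subtype.val (Subgroup.mem_center_iff.1 hc ⟨g, hg⟩)
      obtain rfl := WrT.top_one hw hc'
      exact ⟨v, rfl, (wrEmb_mem_alternatingGroup_iff ι 1 v).1 ha,
        (comp_eq_of_commute_wrTop (hc' _ (top _ hx))).2⟩
    choose f f1 f2 f3 using key
    have inj : Function.Injective fun x => fun i : Fin (w / 2) => f x (ι2 (i, 0)) := by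
      intro x y h
      have h1 : ∀ a, f x (ι2 a) = f y (ι2 a) := by
        rintro ⟨i, s⟩
        have h0 : f x (ι2 (i, 0)) = f y (ι2 (i, 0)) := congrFun h i
        have hs : s = 0 ∨ s = 1 + 0 := by revert s; decide
        rcases hs with rfl | rfl
        · exact h0
        · have e1 : SnCh.xx ι2 (ι2 (i, 0)) = ι2 (i, 1 + 0) := wrEmb_apply ι2 1 _ i 0
          rw [← e1]
          exact (congrFun (f3 x) _).trans (h0.trans (congrFun (f3 y) _).symm)
      have h2 : f x = f y := by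
        ext j
        by_cases hj : j ∈ Set.range ι2
        · obtain ⟨a, rfl⟩ := hj
          exact h1 a
        have h3 : ∑ i, (f x i - f y i) = f x j - f y j := by
          refine sum_eq_single j (fun l _ hl => ?_) fun e => absurd (mem_univ j) e
          by_cases hl' : l ∈ Set.range ι2
          · obtain ⟨a, rfl⟩ := hl'
            rw [h1, sub_self]
          have h4 : univ.map ι2 ⊆ (univ.erase j).erase l := fun m hm => by
            obtain ⟨a, -, rfl⟩ := mem_map.1 hm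
            exact mem_erase.2 ⟨fun e => hl' ⟨a, e⟩, mem_erase.2 ⟨fun e => hj ⟨a, e⟩, mem_univ _⟩⟩
          have h5 := card_le_card h4
          rw [cardr, card_erase_of_mem (mem_erase.2 ⟨hl, mem_univ _⟩), card_erase_of_mem (mem_univ _),
            card_univ, Fintype.card_fin] at h5
          omega
        rw [sum_sub_distrib, f2, f2, sub_self] at h3
        exact sub_eq_zero.1 h3.symm
      exact Subtype.ext (Subtype.ext (by rw [f1, f1, h2]))
    have := Nat.card_le_card_of_injective _ inj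
    rwa [Nat.card_fun, Nat.card_zmod, Nat.card_fin] at this

end Cfsg.Agent.SpC
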