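import Mathlib
import Cfsg.Agent.SpC.Defs
import Cfsg.Agent.Sym.Cover
import Cfsg.Agent.Cmp.Defs

set_option autoImplicit false

namespace Cfsg.Agent.SpC

open Finset Equiv
open scoped commutatorElement

theorem Zet.four {α : Type*} [Fintype α] [DecidableEq α] {s : Perm α} (h2 : s * s = 1) (h1 : s ≠ 1)
    (he : Perm.sign s = 1) : ∃ a b c d : α, a ≠ b ∧ a ≠ c ∧ a ≠ d ∧ b ≠ c ∧ b ≠ d ∧ c ≠ d ∧
      s a = b ∧ s b = a ∧ s c = d ∧ s d = c := by
  have k : ∀ x, s (s x) = x := fun x => by rw [← Perm.mul_apply, h2]; rfl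
  obtain ⟨a, ha⟩ : ∃ a, s a ≠ a := by
    by_contra! h
    exact h1 (Equiv.ext h)
  obtain ⟨c, h3, h4, hc⟩ : ∃ c, c ≠ a ∧ c ≠ s a ∧ s c ≠ c := by
    by_contra! h
    have : s = swap a (s a) := by
      ext x
      by_cases e1 : x = a
      · rw [e1, swap_apply_left]
      by_cases e2 : x = s a
      · rw [e2, swap_apply_right, k]
      rw [swap_apply_of_ne_of_ne e1 e2, h x e1 e2]
    rw [this, Perm.sign_swap ha.symm] at he
    exact absurd he (by decide)
  exact ⟨a, s a, c, s c, ha.symm, h3.symm, fun e => h4 (by rw [e, k]), h4.symm,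
    fun e => h3 (s.injective e).symm, hc.symm, rfl, k a, rfl, k c⟩

theorem mem_ker_of_central {α : Type*} [Fintype α] [DecidableEq α] {H : Type*} [Group H]
    [Finite H] {σ : H →* alternatingGroup α} (hs : Function.Surjective σ)
    (hc : σ.ker ≤ Subgroup.center H) {ζ : H} (hζ : Sym.IsZeta (tau σ) ζ) (h1 : ζ ≠ 1)
    {D : Subgroup H} {F : Set α} (hD : MaxOn 2 F (D.map (tau σ))) {u : H} (hu : u ∈ D)
    (hz : ∀ d ∈ D, u * d = d * u) : u ∈ σ.ker := by
  have hk : (tau σ).ker = σ.ker := by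
    ext x
    exact ⟨fun h => Subtype.ext h, fun h => congrArg Subtype.val h⟩
  have hr : (tau σ).range = alternatingGroup α := by
    rw [MonoidHom.range_comp, MonoidHom.range_eq_top_of_surjective σ hs, ← MonoidHom.range_eq_map,
      Subgroup.range_subtype]
  rw [← hk] at hc ⊢
  generalize tau σ = τ at *
  by_contra hn
  obtain ⟨n, ho⟩ := (Cmp.Two.of_mem hD.pg (Subgroup.mem_map_of_mem τ hu)).exists_inv hn
  rw [← map_pow] at ho
  have hz' : ∀ d ∈ D, Commute (u ^ n) d := fun d hd => Commute.pow_left (hz d hd) n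
  have hu' := pow_mem hu n
  generalize u ^ n = w at ho hz' hu'
  obtain ⟨a, b, c, d, hab, hac, had, hbc, hbd, hcd, e1, e2, e3, e4⟩ := Zet.four (s := τ w)
    (by rw [← sq, ← ho, pow_orderOf_eq_one]) (fun e => by rw [e, orderOf_one] at ho; omega)
    (Sym.sign_lift hr w)
  have mF : ∀ x, τ w x ≠ x → x ∈ F := fun x hx => by_contra fun e =>
    hx (hD.fix _ (Subgroup.mem_map_of_mem τ hu') x e)
  obtain ⟨v, hv⟩ := Sym.exists_lift hr (Sym.sign_swap_mul_swap hac hbd)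
  obtain ⟨u1, hu1⟩ := Sym.exists_lift hr (Sym.sign_swap_mul_swap hab hcd)
  have fx : ∀ x, τ w x = (swap a b * swap c d) x → τ (u1⁻¹ * w) x = x := fun x hx => by
    rw [map_mul, map_inv, Perm.mul_apply, Perm.inv_eq_iff_eq, hu1, hx]
  have cm : Commute v (u1⁻¹ * w) := Sym.commute_lift_swap_mul_swap hc hr hac hab had hbc.symm hcd hbd hv
    (fx a (by rw [e1, Perm.mul_apply, swap_apply_of_ne_of_ne hac had, swap_apply_left]))
    (fx c (by rw [e3, Perm.mul_apply, swap_apply_left, swap_apply_of_ne_of_ne had.symm hbd.symm]))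
    (fx b (by rw [e2, Perm.mul_apply, swap_apply_of_ne_of_ne hbc hbd, swap_apply_right]))
    (fx d (by rw [e4, Perm.mul_apply, swap_apply_right, swap_apply_of_ne_of_ne hac.symm hbc.symm]))
  have c1 : ⁅u1⁻¹ * w, v⁆ = 1 := commutatorElement_eq_one_iff_commute.2 cm.symm
  have c2 : ⁅w, v⁆ = ζ := by
    have := Sym.commutatorElement_mul_left_of_central (x := u1) (c1 ▸ one_mem (Subgroup.center H))
    rwa [mul_inv_cancel_left, c1, mul_one, hζ.2.2 a b c d hab hac had hbc hbd hcd u1 v hu1 hv] at this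
  obtain ⟨C, hC⟩ : ∃ C : Subgroup (Perm α), ∀ g, g ∈ C ↔
      g ∈ alternatingGroup α ∧ (∀ x ∉ F, g x = x) ∧ g * τ w = τ w * g :=
    ⟨alternatingGroup α ⊓ (fixingSubgroup (Perm α) Fᶜ ⊓ Subgroup.centralizer {τ w}), fun g => by
      rw [Subgroup.mem_inf, Subgroup.mem_inf, mem_fixingSubgroup_iff,
        Subgroup.mem_centralizer_singleton_iff]; rfl⟩
  have DC : D.map τ ≤ C := fun g hg => (hC g).2 ⟨hD.le hg, hD.fix g hg, by
    obtain ⟨e, he, rfl⟩ := hg
    exact ((hz' e he).map τ).symm.eq⟩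
  have vC : τ v ∈ C := (hC _).2 ⟨hr ▸ ⟨v, rfl⟩, fun x hx => by
    have n1 : x ≠ a := fun e => hx (e ▸ mF a (e1 ▸ hab.symm))
    have n2 : x ≠ b := fun e => hx (e ▸ mF b (e2 ▸ hab))
    have n3 : x ≠ c := fun e => hx (e ▸ mF c (e3 ▸ hcd.symm))
    have n4 : x ≠ d := fun e => hx (e ▸ mF d (e4 ▸ hcd))
    rw [hv, Perm.mul_apply, swap_apply_of_ne_of_ne n2 n4, swap_apply_of_ne_of_ne n1 n3], by
    have := hζ.1
    rw [← c2, MonoidHom.mem_ker, map_commutatorElement, commutatorElement_eq_one_iff_commute] at this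
    exact this.symm.eq⟩
  obtain ⟨U, hU, sU⟩ := Cmp.exists_syl_ge hD.pg DC
  have UD := hD.max U sU.two (fun g hg => ((hC g).1 (sU.le hg)).1)
    (fun g hg => ((hC g).1 (sU.le hg)).2.1) hU
  obtain ⟨g, hg, hgv⟩ := sU.exists_conj_elt (Cmp.Two.of_sq (by
    rw [hv]; exact Sym.swap_mul_swap_mul_self hab had hbc.symm hcd)) vC
  obtain ⟨e, he, hge⟩ := UD hgv
  obtain ⟨g1, -, g3⟩ := (hC g).1 hg
  obtain ⟨x, rfl⟩ := Sym.exists_lift hr (Perm.mem_alternatingGroup.1 g1)
  have c3 : ⁅x * w * x⁻¹, x * v * x⁻¹⁆ = ⁅w, e⁆ := Sym.commutatorElement_eq_of_map_eq hc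
    (by rw [map_mul, map_mul, map_inv, g3, mul_inv_cancel_right])
    (by rw [hge, map_mul, map_mul, map_inv])
  rw [← conjugate_commutatorElement, c2, commutatorElement_eq_one_iff_commute.2 (hz' e he),
    conj_eq_one_iff] at c3
  exact h1 c3

end Cfsg.Agent.SpC
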