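import Mathlib
import Cfsg.Agent.SpC.Defs
import Cfsg.Agent.SpC.Gen
import Cfsg.Agent.SpC.Str
import Cfsg.Agent.SpC.WrF
import Cfsg.Agent.SpC.WrT
import Cfsg.Agent.SpC.Zet
import Cfsg.Agent.SpC.Key
import Cfsg.Agent.Sym.CoverEx
import Cfsg.Agent.Blk.Defect

set_option autoImplicit false

namespace Cfsg.Agent.SpC

open Finset Equiv

theorem CaseTwo.card_le_two {H : Type*} [Group H] [Finite H] {Z K : Subgroup H}
    (h6 : Nat.card Z ∣ 6) (hK : K ≤ Z) (h2 : IsPGroup 2 K) : Nat.card K ≤ 2 := by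
  obtain ⟨k, hk⟩ := IsPGroup.iff_card.1 h2
  have h := (Subgroup.card_dvd_of_le hK).trans h6
  rw [hk] at h ⊢
  rcases k with _ | _ | k
  · norm_num
  · norm_num
  · exact absurd ((pow_dvd_pow 2 (by omega : 2 ≤ k + 1 + 1)).trans h) (by norm_num)

theorem concl_two {n : ℕ} (hn : 5 ≤ n) {H : Type*} [Group H] [Finite H]
    {σ : H →* alternatingGroup (Fin n)} (hσ : IsStemExtension σ) {M : Ideal AlgInt}
    {B : Set (IrrCharacter H)} {D : Subgroup H} {χ : IrrCharacter H} (hM : IsPModular 2 M)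
    (hB : IsPBlock M B) (hD : IsDefectGroup 2 M B D) (hχ : χ ∈ B) : Concl 2 B D χ := by
  have h4 : 4 ≤ Fintype.card (Fin n) := by rw [Fintype.card_fin]; omega
  obtain ⟨ζ, ω, hζ, hω, hω3, hω1, hker⟩ := Sym.exists_ker_eq_zpowers hσ h4
  have h6 := Sym.card_ker_dvd_six hσ h4
  obtain ⟨y, hmax, hy⟩ := exists_struct hσ.1 hσ.2.1 hM hB hD
  have hP := hD.isPGroup
  by_cases h1 : ζ = 1
  swap
  · by_cases hle : D ≤ σ.ker
    · exact concl_of_small hM hB hD hχ ((CaseTwo.card_le_two h6 hle hP).trans (by norm_num))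
    refine concl_of_center hM hB hD hχ (fun hc => hle fun u hu => ?_) ?_
    · refine mem_ker_of_central hσ.1 hσ.2.1 hζ h1 hmax hu fun d hd => ?_
      exact congrArg Subtype.val (hc.is_comm.comm (⟨u, hu⟩ : D) ⟨d, hd⟩)
    · rw [← Subgroup.card_map_of_injective D.subtype_injective]
      refine CaseTwo.card_le_two h6 ?_ ((hP.to_subgroup _).map _)
      rintro _ ⟨u, hu, rfl⟩
      refine mem_ker_of_central hσ.1 hσ.2.1 hζ h1 hmax u.2 fun d hd => ?_
      exact (congrArg Subtype.val (Subgroup.mem_center_iff.1 hu ⟨d, hd⟩)).symm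
  rw [h1, one_mul] at hker
  have hinj : ∀ d ∈ D, tau σ d = 1 → d = 1 := by
    intro d hd h
    have hk : d ∈ σ.ker := Subtype.ext h
    rw [hker] at hk
    obtain ⟨j, rfl⟩ := hk
    obtain ⟨k, hk⟩ := hP ⟨_, hd⟩
    have e1 : (ω ^ j) ^ 2 ^ k = 1 := congrArg Subtype.val hk
    have e2 : (ω ^ j) ^ 3 = 1 := by
      rw [← zpow_natCast, ← zpow_mul, mul_comm, zpow_mul, zpow_natCast, hω3, one_zpow]
    have := pow_gcd_eq_one.2 ⟨e1, e2⟩
    rwa [Nat.Coprime.gcd_eq_one (Nat.Coprime.pow_left k (by norm_num)), pow_one] at this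
  obtain ⟨t1, t2, t3⟩ := map_transfer (tau σ) D hinj
  obtain ⟨w, ι, Q, hι, hR⟩ := hmax.exists_wr
  rcases wr_two_cases ι Q hR with h | ⟨hnc, k, ι', hι', hx, hxc, hc⟩
  · exact concl_of_small hM hB hD hχ (by rw [← t1]; exact h)
  rw [t3] at hnc
  rw [t2] at hc
  by_cases hk : k ≤ 1
  · exact concl_of_center hM hB hD hχ hnc
      (hc.trans (by simpa using Nat.pow_le_pow_right (n := 2) (by norm_num) hk))
  have hn8 : 8 ≤ n := by
    have := Fintype.card_le_of_embedding ι'
    simp only [Fintype.card_prod, Fintype.card_fin, ZMod.card] at this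
    omega
  have hbot : σ.ker = ⊥ := by
    rw [hker, hω1 (by rw [Fintype.card_fin]; omega) (by rw [Fintype.card_fin]; omega),
      Subgroup.zpowers_one_eq_bot]
  obtain ⟨u, hu, hux⟩ := hx
  have huc : ∀ d ∈ D, u * d = d * u := by
    intro d hd
    have e := hxc (tau σ d) ⟨d, hd, rfl⟩
    rw [← hux, ← map_mul, ← map_mul] at e
    exact (MonoidHom.ker_eq_bot_iff σ).1 hbot (Subtype.ext e)
  have key := key_alt (p := 2) hσ.1 χ (fun x hx => by rw [hbot, Subgroup.mem_bot] at hx; rw [hx])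
    (by simp only [Fintype.card_prod, Fintype.card_fin, ZMod.card]; omega) ι' hux
    (fun a ha => hι (hι' ha)) (hy u hu huc χ hχ)
  simp only [Fintype.card_prod, Fintype.card_fin, ZMod.card] at key
  have hH : n.factorial = 2 * Nat.card H := by
    have : Nontrivial (Fin n) := Fin.nontrivial_iff_two_le.2 (by omega)
    rw [Nat.card_congr (Equiv.ofBijective σ ⟨(MonoidHom.ker_eq_bot_iff σ).1 hbot, hσ.1⟩),
      two_mul_nat_card_alternatingGroup, Nat.card_perm, Nat.card_eq_fintype_card,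
      Fintype.card_fin]
  rw [hH, Nat.factorization_mul two_ne_zero Nat.card_pos.ne', Finsupp.add_apply,
    Nat.prime_two.factorization_self] at key
  refine concl_of_lt hM hB hD hχ hnc (w := 2 * k - 1)
    (hc.trans_lt (Nat.pow_lt_pow_right (by norm_num) (by omega))) (by omega)

end Cfsg.Agent.SpC
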